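import Mathlib
import Cfsg.Agent.S4201
import Cfsg.Agent.Lib.ClassLower.Ratio

/-!
Bounds on the class numbers of all subgroups of a group.
-/

set_option autoImplicit false
set_option linter.style.haveILetI false

namespace CfsgLib.SolvableLinear

universe u v w

/-- Every subgroup has at most `N` conjugacy classes. -/
def Bd (X : Type u) [Group X] (N : ℕ) : Prop :=
  ∀ Y : Subgroup X, Nat.card (ConjClasses Y) ≤ N

variable {X : Type u} [Group X]

theorem Bd.mono {a b : ℕ} (h : Bd X a) (hab : a ≤ b) : Bd X b := fun Y => (h Y).trans hab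

theorem card_conjClasses_le_card [Finite X] : Nat.card (ConjClasses X) ≤ Nat.card X :=
  Nat.card_le_card_of_surjective _ ConjClasses.mk_surjective

theorem Bd.of_card [Finite X] {N : ℕ} (h : Nat.card X ≤ N) : Bd X N := fun Y =>
  card_conjClasses_le_card.trans ((Y.card_le_card_group).trans h)

theorem Bd.self [Finite X] {N : ℕ} (h : Bd X N) : Nat.card (ConjClasses X) ≤ N := by
  rw [← ClassLower.card_conjClasses_congr (Subgroup.topEquiv (G := X))]
  exact h ⊤

theorem Bd.of_injective {G : Type v} [Group G] [Finite G] (f : G →* X) (hf : Function.Injective f)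
    {N : ℕ} (h : Bd X N) : Bd G N := fun Y => by
  rw [ClassLower.card_conjClasses_congr (Y.equivMapOfInjective f hf)]
  exact h (Y.map f)

theorem Bd.congr {G : Type v} [Group G] [Finite G] (e : G ≃* X) {N : ℕ} (h : Bd X N) : Bd G N :=
  h.of_injective e.toMonoidHom e.injective

/-- Extensions multiply the bounds. -/
theorem Bd.extend [Finite X] {Q : Type v} [Group Q] [Finite Q] (f : X →* Q) {a b : ℕ}
    (ha : Bd f.ker a) (hb : Bd Q b) : Bd X (a * b) := fun Y => by
  let g : Y →* Q := f.comp Y.subtype
  refine (Cfsg.Agent.S4201.result g.ker).trans (Nat.mul_le_mul ?_ ?_)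
  · exact (ha.of_injective ((Y.subtype.comp g.ker.subtype).codRestrict f.ker fun y => y.2)
      fun y z e => Subtype.ext (Subtype.ext (congrArg Subtype.val e :))).self
  · exact (hb.of_injective (QuotientGroup.kerLift g) (QuotientGroup.kerLift_injective g)).self

/-- Extensions by a normal subgroup. -/
theorem Bd.extend' [Finite X] (K : Subgroup X) [K.Normal] {a b : ℕ} (ha : Bd K a)
    (hb : Bd (X ⧸ K) b) : Bd X (a * b) :=
  Bd.extend (QuotientGroup.mk' K) (ha.congr (MulEquiv.subgroupCongr (QuotientGroup.ker_mk' K))) hb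

theorem bd_subsingleton [Subsingleton X] : Bd X 1 := fun _ => Finite.card_le_one_iff_subsingleton.mpr
  ⟨fun a b => by
    obtain ⟨a, rfl⟩ := ConjClasses.mk_surjective a
    obtain ⟨b, rfl⟩ := ConjClasses.mk_surjective b
    rw [Subsingleton.elim a b]⟩

theorem Bd.prod [Finite X] {Q : Type v} [Group Q] [Finite Q] {a b : ℕ} (ha : Bd X a) (hb : Bd Q b) :
    Bd (X × Q) (a * b) := by
  refine Bd.extend (MonoidHom.snd X Q) (ha.of_injective ((MonoidHom.fst X Q).comp
    (MonoidHom.snd X Q).ker.subtype) fun y z e => Subtype.ext (Prod.ext e ?_)) hb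
  exact (MonoidHom.mem_ker.mp y.2).trans (MonoidHom.mem_ker.mp z.2).symm

theorem Bd.pi {ι : Type w} [Fintype ι] [DecidableEq ι] {H : ι → Type v} [∀ i, Group (H i)]
    [∀ i, Finite (H i)] {a : ι → ℕ} (h : ∀ i, Bd (H i) (a i)) (s : Finset ι) :
    Bd (∀ i : s, H i) (∏ i ∈ s, a i) := by
  induction s using Finset.induction with
  | empty => exact bd_subsingleton
  | insert i s hi ih =>
    rw [Finset.prod_insert hi]
    let f : (∀ j : (insert i s : Finset ι), H j) →* H i × ∀ j : s, H j :=
      (Pi.evalMonoidHom (fun j : (insert i s : Finset ι) => H j) ⟨i, Finset.mem_insert_self i s⟩).prod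
        (MonoidHom.pi fun j : s => Pi.evalMonoidHom (fun j : (insert i s : Finset ι) => H j)
          ⟨j, Finset.mem_insert_of_mem j.2⟩)
    refine ((h i).prod ih).of_injective f fun x y e => funext fun j => ?_
    obtain ⟨j, hj⟩ := j
    rcases Finset.mem_insert.mp hj with rfl | hj'
    · exact congrArg Prod.fst e
    · exact congrFun (congrArg Prod.snd e) ⟨j, hj'⟩

/-- A family of homomorphisms separating the elements. -/
theorem Bd.of_family [Finite X] {ι : Type w} [Fintype ι] {H : ι → Type v} [∀ i, Group (H i)]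
    [∀ i, Finite (H i)] (f : ∀ i, X →* H i) (hf : ∀ g, (∀ i, f i g = 1) → g = 1) {a : ι → ℕ}
    (h : ∀ i, Bd (H i) (a i)) : Bd X (∏ i, a i) := by
  classical
  refine (Bd.pi h Finset.univ).of_injective (MonoidHom.pi fun i : (Finset.univ : Finset ι) => f i) ?_
  exact (injective_iff_map_eq_one _).mpr fun g hg =>
    hf g fun i => congrFun hg ⟨i, Finset.mem_univ i⟩

end CfsgLib.SolvableLinear
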