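import Mathlib
import Cfsg.Agent.Lib.ClassLower.Monomial
import Cfsg.Agent.Lib.ClassLowerSharp.Prim

/-!
Irreducible linear groups over any field: blocks of idempotents, an extension field, or all abelian
normal subgroups scalar.
-/

set_option autoImplicit false
set_option linter.style.haveILetI false
set_option linter.unusedSectionVars false

namespace CfsgLib.SolvableLinear

open Module CfsgLib.ClassLower CfsgLib.ClassLowerSharp

universe u v w

variable {K : Type w} [Field K] {H : Type u} [Group H] {V : Type v} [AddCommGroup V] [Module K V]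

/-- A system of orthogonal idempotents permuted by the group. -/
structure Blocks (ρ : H →* Module.End K V) (ι : Type v) [Fintype ι] where
  e : ι → Module.End K V
  act : H →* Equiv.Perm ι
  move : ∀ g i, ρ g * e i = e (act g i) * ρ g
  idem : ∀ i, e i * e i = e i
  orth : ∀ i j, i ≠ j → e i * e j = 0
  ne : ∀ i, e i ≠ 0
  sum : ∑ i, e i = 1
  two : 2 ≤ Nat.card ι

/-- A commutative algebra of maps which is a field, normalized by the group. -/
structure Extension (ρ : H →* Module.End K V) where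
  E : Subalgebra K (Module.End K V)
  field : IsField E
  two : 2 ≤ finrank K E
  stable : ∀ g, ∀ x ∈ E, ρ g * x * ρ g⁻¹ ∈ E

variable {ρ : H →* Module.End K V}

theorem rho_inv_mul (ρ : H →* Module.End K V) (g : H) : ρ g⁻¹ * ρ g = 1 := by
  rw [← map_mul, inv_mul_cancel, map_one]

theorem rho_mul_inv (ρ : H →* Module.End K V) (g : H) : ρ g * ρ g⁻¹ = 1 := by
  rw [← map_mul, mul_inv_cancel, map_one]

theorem conj_mul (ρ : H →* Module.End K V) (g : H) (x y : Module.End K V) :
    ρ g * (x * y) * ρ g⁻¹ = ρ g * x * ρ g⁻¹ * (ρ g * y * ρ g⁻¹) := by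
  calc ρ g * (x * y) * ρ g⁻¹ = ρ g * x * (ρ g⁻¹ * ρ g) * y * ρ g⁻¹ := by
        rw [rho_inv_mul]; simp [mul_assoc]
    _ = _ := by simp [mul_assoc]

theorem conj_inv_conj (ρ : H →* Module.End K V) (g : H) (x : Module.End K V) :
    ρ g * (ρ g⁻¹ * x * ρ g) * ρ g⁻¹ = x := by
  calc ρ g * (ρ g⁻¹ * x * ρ g) * ρ g⁻¹ = ρ g * ρ g⁻¹ * x * (ρ g * ρ g⁻¹) := by simp [mul_assoc]
    _ = x := by rw [rho_mul_inv, one_mul, mul_one]

/-- In an irreducible representation, a non-scalar commutative algebra normalized by the group gives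
blocks or a field. -/
theorem blocks_or_extension [FiniteDimensional K V] (hirr : IsIrr ρ)
    (E : Subalgebra K (Module.End K V)) (hc : ∀ x ∈ E, ∀ y ∈ E, x * y = y * x)
    (hst : ∀ g, ∀ x ∈ E, ρ g * x * ρ g⁻¹ ∈ E) (hns : ∃ x ∈ E, ∀ c : K, x ≠ c • 1) :
    (∃ (ι : Type v) (_ : Fintype ι), Nonempty (Blocks ρ ι)) ∨
      Nonempty (Extension ρ) := by
  classical
  have := hirr.1
  -- no nilpotents
  have hred : ∀ x ∈ E, IsNilpotent x → x = 0 := by
    obtain ⟨z, ⟨hzE, hz0⟩, hzmin⟩ := (measure fun z : Module.End K V =>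
      finrank K (LinearMap.range z)).wf.has_min {z | z ∈ E ∧ z ≠ 0} ⟨1, one_mem E, one_ne_zero⟩
    have hann : ∀ x ∈ E, IsNilpotent x → ∀ v, x (z v) = 0 := by
      intro x hx hxn
      by_contra! hv
      obtain ⟨v, hv⟩ := hv
      have hxz : x * z ≠ 0 := fun h => hv (by rw [← Module.End.mul_apply, h]; rfl)
      have hle : LinearMap.range (x * z) ≤ LinearMap.range z := by
        rintro _ ⟨w, rfl⟩
        exact ⟨x w, by rw [← Module.End.mul_apply, hc x hx z hzE]⟩
      have heq : LinearMap.range (x * z) = LinearMap.range z :=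
        Submodule.eq_of_le_of_finrank_le hle
          (not_lt.mp (hzmin (x * z) ⟨mul_mem hx hzE, hxz⟩))
      have hall : ∀ j, ∀ w, ∃ w', z w = (x ^ j) (z w') := by
        intro j
        induction j with
        | zero => exact fun w => ⟨w, rfl⟩
        | succ j ih =>
          intro w
          obtain ⟨w', hw'⟩ := ih w
          obtain ⟨w'', hw''⟩ := heq.ge (LinearMap.mem_range_self z w')
          exact ⟨w'', by rw [hw', ← hw'', pow_succ]; rfl⟩
      obtain ⟨j, hj⟩ := hxn
      obtain ⟨w', hw'⟩ := hall j v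
      rw [hj, LinearMap.zero_apply] at hw'
      exact hv (by rw [hw', map_zero])
    let W : Submodule K V := ⨅ (x) (_ : x ∈ E ∧ IsNilpotent x), LinearMap.ker x
    have hW : ∀ v, v ∈ W ↔ ∀ x, x ∈ E → IsNilpotent x → x v = 0 := fun v => by
      simp [W, Submodule.mem_iInf, and_imp]
    have hinv : ∀ g, ∀ v ∈ W, ρ g v ∈ W := by
      intro g v hv
      rw [hW] at hv ⊢
      intro x hx hxn
      have h1 : ρ g⁻¹ * x * ρ g ∈ E := by simpa using hst g⁻¹ x hx
      have hp : ∀ j, (ρ g⁻¹ * x * ρ g) ^ j = ρ g⁻¹ * x ^ j * ρ g := by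
        intro j
        induction j with
        | zero => rw [pow_zero, pow_zero, mul_one, rho_inv_mul]
        | succ j ih =>
          rw [pow_succ, ih, pow_succ]
          have h := conj_mul ρ g⁻¹ (x ^ j) x
          rw [inv_inv] at h
          exact h.symm
      have h2 : IsNilpotent (ρ g⁻¹ * x * ρ g) := by
        obtain ⟨j, hj⟩ := hxn
        exact ⟨j, by rw [hp, hj, mul_zero, zero_mul]⟩
      have h3 := congrArg (ρ g) (hv _ h1 h2)
      rw [map_zero, ← Module.End.mul_apply, ← mul_assoc, ← mul_assoc, rho_mul_inv, one_mul,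
        Module.End.mul_apply] at h3
      exact h3
    have htop : W = ⊤ := (hirr.2 W hinv).resolve_left fun h => by
      refine hz0 (LinearMap.ext fun v => ?_)
      have hm : z v ∈ W := (hW _).mpr fun x hx hxn => hann x hx hxn v
      rw [h] at hm
      exact (Submodule.mem_bot K).mp hm
    exact fun x hx hxn => LinearMap.ext fun v => (hW v).mp (htop ▸ Submodule.mem_top) x hx hxn
  -- every element yields an idempotent
  have hfit : ∀ x ∈ E, x ≠ 0 → ∃ e ∈ E, e * e = e ∧ e ≠ 0 ∧ ∃ y ∈ E, x * y = e := by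
    intro x hx hx0
    let r : ℕ → Submodule K (Module.End K V) := fun j => E.toSubmodule.map (LinearMap.mulLeft K (x ^ j))
    obtain ⟨j, -, hjmin⟩ := (measure fun j : ℕ => finrank K (r j)).wf.has_min {j : ℕ | 1 ≤ j} ⟨1, le_refl (1 : ℕ)⟩
    have hj1 : 1 ≤ j + 1 := Nat.le_add_left 1 j
    have hle : r (2 * (j + 1)) ≤ r (j + 1) := by
      rintro _ ⟨y, hy, rfl⟩
      refine ⟨x ^ (j + 1) * y, show _ ∈ E from mul_mem (pow_mem hx _) hy, ?_⟩
      simp only [LinearMap.mulLeft_apply]
      rw [← mul_assoc, ← pow_add]; congr 2; omega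
    have hle1 : r (j + 1) ≤ r j := by
      rintro _ ⟨y, hy, rfl⟩
      refine ⟨x * y, show _ ∈ E from mul_mem hx hy, ?_⟩
      simp only [LinearMap.mulLeft_apply]
      rw [← mul_assoc, ← pow_succ]
    have heq : r (2 * (j + 1)) = r (j + 1) := Submodule.eq_of_le_of_finrank_le hle
      ((Submodule.finrank_mono hle1).trans (not_lt.mp (hjmin (2 * (j + 1)) (by show 1 ≤ _; omega))))
    obtain ⟨y, hy, hxy⟩ := heq.ge (show x ^ (j + 1) ∈ r (j + 1) from
      ⟨1, one_mem E, by simp⟩)
    simp only [LinearMap.mulLeft_apply] at hxy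
    set a := x ^ (j + 1) with ha
    have haE : a ∈ E := pow_mem hx _
    have hxy' : a * a * y = a := by
      rw [ha, ← pow_add, show j + 1 + (j + 1) = 2 * (j + 1) by omega]; exact hxy
    refine ⟨a * y, mul_mem haE hy, ?_, fun h => hx0 (hred x hx ⟨j + 1, ?_⟩),
      x ^ j * y, mul_mem (pow_mem hx _) hy, by rw [← mul_assoc, ← pow_succ']⟩
    · calc a * y * (a * y) = a * (y * a) * y := by simp [mul_assoc]
        _ = a * a * y * y := by rw [hc y hy a haE]; simp [mul_assoc]
        _ = a * y := by rw [hxy']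
    · rw [← ha, ← hxy', mul_assoc, h, mul_zero]
  let Atom : Module.End K V → Prop := fun e => e ∈ E ∧ e ≠ 0 ∧ e * e = e ∧
    ∀ f ∈ E, f * f = f → e * f = 0 ∨ e * f = e
  have hatom : ∀ e ∈ E, e * e = e → e ≠ 0 → ∃ a, Atom a ∧ a * e = a := by
    intro e he hee he0
    obtain ⟨a, ⟨haE, ha0, haa, hae⟩, hamin⟩ := (measure fun z : Module.End K V =>
      finrank K (LinearMap.range z)).wf.has_min {a | a ∈ E ∧ a ≠ 0 ∧ a * a = a ∧ a * e = a}
        ⟨e, he, he0, hee, hee⟩
    refine ⟨a, ⟨haE, ha0, haa, fun f hf hff => ?_⟩, hae⟩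
    by_cases h0 : a * f = 0
    · exact Or.inl h0
    right
    have hsq : a * f * (a * f) = a * f := by
      calc a * f * (a * f) = a * (f * a) * f := by simp [mul_assoc]
        _ = a * a * (f * f) := by rw [hc f hf a haE]; simp [mul_assoc]
        _ = a * f := by rw [haa, hff]
    have he' : a * f * e = a * f := by
      rw [mul_assoc, hc f hf e he, ← mul_assoc, hae]
    have hrange : LinearMap.range (a * f) = LinearMap.range a :=
      Submodule.eq_of_le_of_finrank_le (LinearMap.range_comp_le_range f a)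
        (not_lt.mp (hamin _ ⟨mul_mem haE hf, h0, hsq, he'⟩))
    refine LinearMap.ext fun v => ?_
    obtain ⟨w, hw⟩ := hrange.ge (LinearMap.mem_range_self a v)
    calc (a * f) v = (f * a) v := by rw [hc f hf a haE]
      _ = f ((a * f) w) := by rw [Module.End.mul_apply, hw]
      _ = (f * (a * f)) w := rfl
      _ = (a * (f * f)) w := by rw [← mul_assoc, hc f hf a haE, mul_assoc]
      _ = a v := by rw [hff, hw]
  by_cases hidem : ∀ f ∈ E, f * f = f → f = 0 ∨ f = 1
  · -- a field
    right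
    refine ⟨⟨E, ⟨exists_pair_ne _, fun x y => Subtype.ext (hc x x.2 y y.2), fun {x} hx => ?_⟩,
      ?_, hst⟩⟩
    · obtain ⟨e, he, hee, he0, y, hy, hxy⟩ := hfit x x.2 fun h => hx (Subtype.ext h)
      rcases hidem e he hee with h | h
      · exact absurd h he0
      · exact ⟨⟨y, hy⟩, Subtype.ext (hxy.trans h)⟩
    · by_contra! h
      obtain ⟨x, hx, hxs⟩ := hns
      have hbot : E = ⊥ := Subalgebra.eq_bot_of_finrank_one (le_antisymm (by omega) Module.finrank_pos)
      rw [hbot, Algebra.mem_bot] at hx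
      obtain ⟨c, rfl⟩ := hx
      exact hxs c (Algebra.algebraMap_eq_smul_one c)
  -- blocks
  left
  push Not at hidem
  obtain ⟨f, hfE, hff, hf0, hf1⟩ := hidem
  let ι := {e : Module.End K V // Atom e}
  have horth : ∀ i j : ι, i ≠ j → i.1 * j.1 = 0 := by
    intro i j hij
    rcases i.2.2.2.2 j.1 j.2.1 j.2.2.2.1 with h | h
    · exact h
    rcases j.2.2.2.2 i.1 i.2.1 i.2.2.2.1 with h' | h'
    · rw [hc i.1 i.2.1 j.1 j.2.1]; exact h'
    · exact absurd (Subtype.ext (by rw [← h', hc j.1 j.2.1 i.1 i.2.1, h])) hij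
  have hli : LinearIndependent K (fun i : ι => i.1) := by
    rw [linearIndependent_iff']
    intro s c hs i hi
    have h := congrArg (fun z => z * i.1) hs
    simp only [Finset.sum_mul, smul_mul_assoc, zero_mul] at h
    rw [Finset.sum_eq_single_of_mem i hi fun j _ hj => by rw [horth j i hj, smul_zero],
      i.2.2.2.1] at h
    exact (smul_eq_zero.mp h).resolve_right i.2.2.1
  have : Finite ι := hli.finite
  let _ : Fintype ι := Fintype.ofFinite ι
  have hsum : ∑ i : ι, i.1 = 1 := by
    by_contra hne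
    set s := ∑ i : ι, i.1
    have hsE : s ∈ E := sum_mem fun i _ => i.2.1
    have hmul : ∀ i : ι, i.1 * s = i.1 := fun i => by
      rw [Finset.mul_sum, Finset.sum_eq_single_of_mem i (Finset.mem_univ i)
        fun j _ hj => horth i j hj.symm, i.2.2.2.1]
    have hss : s * s = s := by
      conv_lhs => rw [Finset.sum_mul]
      exact Finset.sum_congr rfl fun i _ => hmul i
    obtain ⟨a, ha, hae⟩ := hatom (1 - s) (sub_mem (one_mem E) hsE)
      (by rw [sub_mul, one_mul, mul_sub, mul_one, hss, sub_self, sub_zero])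
      (sub_ne_zero.mpr (Ne.symm hne))
    rw [mul_sub, mul_one, hmul ⟨a, ha⟩, sub_self] at hae
    exact ha.2.1 hae.symm
  have hconj : ∀ g, ∀ e, Atom e → Atom (ρ g * e * ρ g⁻¹) := by
    intro g e he
    refine ⟨hst g e he.1, fun h => he.2.1 ?_, ?_, fun x hx hxx => ?_⟩
    · have h' := congrArg (fun z => ρ g⁻¹ * z * ρ g) h
      simp only [mul_zero, zero_mul] at h'
      rw [← h']
      have := conj_inv_conj ρ g⁻¹ e
      rwa [inv_inv, eq_comm] at this
    · rw [← conj_mul, he.2.2.1]
    · have h1 : ρ g⁻¹ * x * ρ g ∈ E := by simpa using hst g⁻¹ x hx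
      have h2 : ρ g⁻¹ * x * ρ g * (ρ g⁻¹ * x * ρ g) = ρ g⁻¹ * x * ρ g := by
        have h := conj_mul ρ g⁻¹ x x
        rw [inv_inv] at h
        rw [← h, hxx]
      have h3 : ρ g * (e * (ρ g⁻¹ * x * ρ g)) * ρ g⁻¹ = ρ g * e * ρ g⁻¹ * x := by
        rw [conj_mul, conj_inv_conj]
      rcases he.2.2.2 _ h1 h2 with h | h <;> rw [h] at h3
      · exact Or.inl (by rw [← h3, mul_zero, zero_mul])
      · exact Or.inr h3.symm
  let π : H → ι → ι := fun g i => ⟨ρ g * i.1 * ρ g⁻¹, hconj g _ i.2⟩
  have hπ1 : ∀ i, π 1 i = i := fun i => Subtype.ext (by simp [π])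
  have hπm : ∀ g h i, π (g * h) i = π g (π h i) := fun g h i =>
    Subtype.ext (by simp [π, map_mul, mul_inv_rev, mul_assoc])
  refine ⟨ι, ‹Fintype ι›, ⟨{
    e := fun i => i.1
    act :=
      { toFun := fun g =>
          { toFun := π g
            invFun := π g⁻¹
            left_inv := fun i => by rw [← hπm, inv_mul_cancel, hπ1]
            right_inv := fun i => by rw [← hπm, mul_inv_cancel, hπ1] }
        map_one' := Equiv.ext hπ1
        map_mul' := fun g h => Equiv.ext (hπm g h) }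
    move := fun g i => by
      show ρ g * i.1 = ρ g * i.1 * ρ g⁻¹ * ρ g
      rw [mul_assoc, rho_inv_mul, mul_one]
    idem := fun i => i.2.2.2.1
    orth := horth
    ne := fun i => i.2.2.1
    sum := hsum
    two := ?_ }⟩⟩
  by_contra! hlt
  have : Subsingleton ι := Finite.card_le_one_iff_subsingleton.mp (by omega)
  obtain ⟨a, ha, -⟩ := hatom f hfE hff hf0
  rw [Fintype.sum_subsingleton _ (⟨a, ha⟩ : ι)] at hsum
  change a = 1 at hsum
  rcases ha.2.2.2 f hfE hff with h | h <;> rw [hsum, one_mul] at h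
  · exact hf0 h
  · exact hf1 h

/-- The three cases. -/
theorem irr_cases [Finite H] [FiniteDimensional K V] (hinj : Function.Injective ρ) (hirr : IsIrr ρ)
    [hs : Group.IsSolvable H] :
    IsPrim ρ ∨ (∃ (ι : Type v) (_ : Fintype ι), Nonempty (Blocks ρ ι)) ∨
      Nonempty (Extension ρ) := by
  by_cases h : ∀ A : Subgroup H, A.Normal → (∀ a ∈ A, ∀ b ∈ A, a * b = b * a) →
      ∀ g ∈ A, ∃ c : K, ρ g = c • 1
  · exact Or.inl ⟨hinj, hirr.1, h, hs⟩
  refine Or.inr ?_
  push Not at h
  obtain ⟨A, hA, hAc, g0, hg0, hg0c⟩ := h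
  have := Algebra.isMulCommutative_adjoin K (s := (fun a => ρ a) '' (A : Set H)) (by
    rintro _ ⟨a, ha, rfl⟩ _ ⟨b, hb, rfl⟩
    show ρ a * ρ b = ρ b * ρ a
    rw [← map_mul, hAc a ha b hb, map_mul])
  refine blocks_or_extension hirr (Algebra.adjoin K ((fun a => ρ a) '' (A : Set H)))
    (fun x hx y hy => setLike_mul_comm hx hy) (fun g x hx => ?_)
    ⟨ρ g0, Algebra.subset_adjoin ⟨g0, hg0, rfl⟩, hg0c⟩
  induction hx using Algebra.adjoin_induction with
  | mem x hx =>
    obtain ⟨a, ha, rfl⟩ := hx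
    refine Algebra.subset_adjoin ⟨g * a * g⁻¹, hA.conj_mem a ha g, ?_⟩
    show ρ (g * a * g⁻¹) = _
    rw [map_mul, map_mul]
  | algebraMap r =>
    rw [← Algebra.commutes r (ρ g), mul_assoc, rho_mul_inv, mul_one]
    exact Subalgebra.algebraMap_mem _ r
  | add x y _ _ ihx ihy => rw [mul_add, add_mul]; exact add_mem ihx ihy
  | mul x y _ _ ihx ihy => rw [conj_mul]; exact mul_mem ihx ihy

end CfsgLib.SolvableLinear
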