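import Mathlib
import Cfsg.Agent.Lib.SolvableLinear.Trichotomy
import Cfsg.Agent.Lib.SolvableLinear.Bd
import Cfsg.Agent.Lib.ClassLowerSharp.Perm

/-!
The representations on the blocks, and the linear part of the semilinear case.
-/

set_option autoImplicit false
set_option linter.style.haveILetI false
set_option linter.unusedSectionVars false

namespace CfsgLib.SolvableLinear

open Module CfsgLib.ClassLower CfsgLib.ClassLowerSharp

universe u v w

variable {K : Type w} [Field K] {H : Type u} [Group H] {V : Type v} [AddCommGroup V] [Module K V]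
  {ρ : H →* Module.End K V}

theorem rho_injective (ρ : H →* Module.End K V) (g : H) : Function.Injective (ρ g) := by
  intro x y h
  have h' := congrArg (ρ g⁻¹) h
  rwa [← Module.End.mul_apply, ← Module.End.mul_apply, rho_inv_mul, Module.End.one_apply,
    Module.End.one_apply] at h'

namespace Blocks

variable {ι : Type v} [Fintype ι] (B : Blocks ρ ι)

/-- A block. -/
def space (i : ι) : Submodule K V := LinearMap.range (B.e i)

theorem apply_eq_self {i : ι} {x : V} (hx : x ∈ B.space i) : B.e i x = x := by
  obtain ⟨y, rfl⟩ := hx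
  rw [← Module.End.mul_apply, B.idem]

theorem apply_mem (g : H) {i : ι} {x : V} (hx : x ∈ B.space i) :
    ρ g x ∈ B.space (B.act g i) := by
  rw [← B.apply_eq_self hx, ← Module.End.mul_apply, B.move, Module.End.mul_apply]
  exact LinearMap.mem_range_self _ _

theorem decomp (x : V) : ∑ i, B.e i x = x := by
  have h := congrArg (fun f : Module.End K V => f x) B.sum
  simpa using h

theorem space_ne (i : ι) : B.space i ≠ ⊥ := fun h => B.ne i (LinearMap.range_eq_bot.mp h)

theorem stable (g : B.act.ker) (i : ι) : ∀ x ∈ B.space i, ρ (g : H) x ∈ B.space i := fun x hx => by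
  have h := B.apply_mem (g : H) hx
  rwa [MonoidHom.mem_ker.mp g.2] at h

/-- The representation of the kernel on a block. -/
def rep (i : ι) : B.act.ker →* Module.End K (B.space i) where
  toFun g := (ρ (g : H)).restrict (B.stable g i)
  map_one' := LinearMap.ext fun x => Subtype.ext (by simp)
  map_mul' g h := LinearMap.ext fun x => Subtype.ext (by simp)

theorem rep_apply (i : ι) (g : B.act.ker) (x : B.space i) :
    (B.rep i g x : V) = ρ (g : H) x := rfl

theorem separating (hinj : Function.Injective ρ) (g : B.act.ker) (h : ∀ i, B.rep i g = 1) :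
    g = 1 := by
  refine Subtype.ext (hinj ?_)
  rw [OneMemClass.coe_one, map_one]
  refine LinearMap.ext fun x => ?_
  rw [Module.End.one_apply]
  conv_lhs => rw [← B.decomp x]
  rw [map_sum]
  refine (Finset.sum_congr rfl fun i _ => ?_).trans (B.decomp x)
  exact (B.rep_apply i g ⟨B.e i x, LinearMap.mem_range_self _ _⟩).symm.trans (by rw [h i]; rfl)

theorem sum_finrank [FiniteDimensional K V] : ∑ i, finrank K (B.space i) = finrank K V := by
  classical
  rw [← Module.finrank_pi_fintype K]
  refine (LinearEquiv.finrank_eq
    { toFun := fun x i => ⟨B.e i x, LinearMap.mem_range_self _ _⟩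
      map_add' := fun x y => funext fun i => Subtype.ext (map_add _ x y)
      map_smul' := fun c x => funext fun i => Subtype.ext (map_smul _ c x)
      invFun := fun f => ∑ i, (f i : V)
      left_inv := fun x => B.decomp x
      right_inv := fun f => funext fun i => Subtype.ext ?_ }).symm
  show B.e i (∑ j, (f j : V)) = f i
  rw [map_sum, Finset.sum_eq_single_of_mem i (Finset.mem_univ i) fun j _ hj => ?_,
    B.apply_eq_self (f i).2]
  rw [← B.apply_eq_self (f j).2, ← Module.End.mul_apply, B.orth i j hj.symm, LinearMap.zero_apply]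

theorem one_le_finrank [FiniteDimensional K V] (i : ι) : 1 ≤ finrank K (B.space i) :=
  Submodule.one_le_finrank_iff.mpr (B.space_ne i)

theorem finrank_lt [FiniteDimensional K V] (i : ι) : finrank K (B.space i) < finrank K V := by
  classical
  rw [← B.sum_finrank]
  have h2 : 1 < Fintype.card ι := by rw [← Nat.card_eq_fintype_card]; exact B.two
  obtain ⟨j, hj⟩ := Fintype.exists_ne_of_one_lt_card h2 i
  exact Finset.single_lt_sum (f := fun k => finrank K (B.space k)) hj (Finset.mem_univ i) (Finset.mem_univ j) (B.one_le_finrank j)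
    fun k _ _ => Nat.zero_le _

theorem transitive (hirr : IsIrr ρ) (i j : ι) : ∃ g, B.act g i = j := by
  classical
  by_contra! hne
  have := hirr.1
  let O : Finset ι := {k | ∃ g, B.act g i = k}
  have hO : ∀ g k, k ∈ O → B.act g k ∈ O := by
    intro g k hk
    obtain ⟨h, rfl⟩ := (Finset.mem_filter.mp hk).2
    exact Finset.mem_filter.mpr ⟨Finset.mem_univ _, g * h, by rw [map_mul]; rfl⟩
  let T : Submodule K V := ⨆ k ∈ O, B.space k
  have hT : T = ⊤ := by
    refine (hirr.2 T fun g x hx => ?_).resolve_left fun h => B.space_ne i ?_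
    · induction hx using Submodule.iSup_induction' with
      | mem k y hy =>
        by_cases hk : k ∈ O
        · rw [iSup_pos hk] at hy
          exact Submodule.mem_iSup_of_mem (B.act g k)
            (by rw [iSup_pos (hO g k hk)]; exact B.apply_mem g hy)
        · rw [iSup_neg hk, Submodule.mem_bot] at hy
          rw [hy, map_zero]; exact zero_mem _
      | zero => rw [map_zero]; exact zero_mem _
      | add y z _ _ ihy ihz => rw [map_add]; exact add_mem ihy ihz
    · rw [eq_bot_iff, ← h]
      exact le_iSup₂_of_le (f := fun k (_ : k ∈ O) => B.space k) i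
        (Finset.mem_filter.mpr ⟨Finset.mem_univ _, 1, by rw [map_one]; rfl⟩) le_rfl
  have hle : T ≤ LinearMap.ker (B.e j) := iSup₂_le fun k hk x hx => by
    rw [LinearMap.mem_ker, ← B.apply_eq_self hx, ← Module.End.mul_apply, B.orth j k ?_,
      LinearMap.zero_apply]
    rintro rfl
    obtain ⟨g, hg⟩ := (Finset.mem_filter.mp hk).2
    exact hne g hg
  exact B.ne j (LinearMap.ker_eq_top.mp (top_le_iff.mp (hT.ge.trans hle)))

theorem finrank_eq [FiniteDimensional K V] (hirr : IsIrr ρ) (i j : ι) :
    finrank K (B.space i) = finrank K (B.space j) := by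
  have key : ∀ i j, finrank K (B.space i) ≤ finrank K (B.space j) := by
    intro i j
    obtain ⟨g, rfl⟩ := B.transitive hirr i j
    exact LinearMap.finrank_le_finrank_of_injective (f := (ρ g).restrict fun x hx => B.apply_mem g hx)
      fun x y e => Subtype.ext (rho_injective ρ g (congrArg Subtype.val e))
  exact le_antisymm (key i j) (key j i)

theorem range_solvable [Group.IsSolvable H] : Group.IsSolvable B.act.range :=
  Group.isSolvable_of_surjective (MonoidHom.rangeRestrict_surjective B.act)

theorem card_range_le_three [Group.IsSolvable H] :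
    Nat.card B.act.range ≤ 3 ^ (Nat.card ι - 1) := by
  have := B.range_solvable
  exact card_le_three_pow_of_solvable_action B.act.range.subtype Subtype.val_injective

theorem card_range_le_factorial : Nat.card B.act.range ≤ (Nat.card ι).factorial := by
  rw [← Nat.card_perm]
  exact Nat.card_le_card_of_injective _ Subtype.val_injective

theorem exponent_sum [FiniteDimensional K V] :
    ∑ i, (finrank K (B.space i) - 1) + (Nat.card ι - 1) = finrank K V - 1 := by
  classical
  have h : ∑ i, (finrank K (B.space i) - 1) + Nat.card ι = finrank K V := by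
    rw [← B.sum_finrank, Nat.card_eq_fintype_card, ← Finset.card_univ, Finset.card_eq_sum_ones,
      ← Finset.sum_add_distrib]
    exact Finset.sum_congr rfl fun i _ => Nat.sub_add_cancel (B.one_le_finrank i)
  have := B.two
  omega

end Blocks

namespace Extension

variable (X : Extension ρ)

/-- The action on the field. -/
noncomputable def toAut : H →* (X.E ≃ₐ[K] X.E) where
  toFun g := AlgEquiv.ofAlgHom
    { toFun := fun x => ⟨ρ g * x.1 * ρ g⁻¹, X.stable g x x.2⟩
      map_one' := Subtype.ext (show ρ g * 1 * ρ g⁻¹ = 1 by rw [mul_one, rho_mul_inv])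
      map_mul' := fun x y => Subtype.ext (conj_mul ρ g x y)
      map_zero' := Subtype.ext (show ρ g * 0 * ρ g⁻¹ = 0 by rw [mul_zero, zero_mul])
      map_add' := fun x y => Subtype.ext (show ρ g * (x.1 + y.1) * ρ g⁻¹ = _ by
        rw [mul_add, add_mul]; rfl)
      commutes' := fun r => Subtype.ext (show ρ g * algebraMap K _ r * ρ g⁻¹ = algebraMap K _ r by
        rw [← Algebra.commutes r (ρ g), mul_assoc, rho_mul_inv, mul_one]) }
    { toFun := fun x => ⟨ρ g⁻¹ * x.1 * ρ g, by simpa using X.stable g⁻¹ x x.2⟩
      map_one' := Subtype.ext (show ρ g⁻¹ * 1 * ρ g = 1 by rw [mul_one, rho_inv_mul])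
      map_mul' := fun x y => Subtype.ext (show ρ g⁻¹ * (x.1 * y.1) * ρ g = _ by
        have h := conj_mul ρ g⁻¹ x.1 y.1
        rw [inv_inv] at h
        exact h)
      map_zero' := Subtype.ext (show ρ g⁻¹ * 0 * ρ g = 0 by rw [mul_zero, zero_mul])
      map_add' := fun x y => Subtype.ext (show ρ g⁻¹ * (x.1 + y.1) * ρ g = _ by
        rw [mul_add, add_mul]; rfl)
      commutes' := fun r => Subtype.ext (show ρ g⁻¹ * algebraMap K _ r * ρ g = algebraMap K _ r by
        rw [← Algebra.commutes r (ρ g⁻¹), mul_assoc, rho_inv_mul, mul_one]) }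
    (AlgHom.ext fun x => Subtype.ext (conj_inv_conj ρ g x.1))
    (AlgHom.ext fun x => Subtype.ext (by
      have h := conj_inv_conj ρ g⁻¹ x.1
      rw [inv_inv] at h
      exact h))
  map_one' := AlgEquiv.ext fun x => Subtype.ext (show ρ 1 * x.1 * ρ 1⁻¹ = x.1 by simp)
  map_mul' g h := AlgEquiv.ext fun x => Subtype.ext
    (show ρ (g * h) * x.1 * ρ (g * h)⁻¹ = ρ g * (ρ h * x.1 * ρ h⁻¹) * ρ g⁻¹ by
      simp [map_mul, mul_inv_rev, mul_assoc])

theorem toAut_apply (g : H) (x : X.E) : (X.toAut g x : Module.End K V) = ρ g * x * ρ g⁻¹ := rfl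

theorem card_range_le [FiniteDimensional K V] :
    Nat.card X.toAut.range ≤ finrank K X.E := by
  let _ : Field X.E := X.field.toField
  have h := AlgEquiv.card_le (F := K) (K := X.E)
  rw [← Nat.card_eq_fintype_card] at h
  exact (Nat.card_le_card_of_injective _ Subtype.val_injective).trans h

theorem commute_of_mem_ker {g : H} (hg : g ∈ X.toAut.ker) {x : Module.End K V} (hx : x ∈ X.E) :
    ρ g * x = x * ρ g := by
  have h := congrArg (fun σ : X.E ≃ₐ[K] X.E => (σ ⟨x, hx⟩ : Module.End K V))
    (MonoidHom.mem_ker.mp hg)
  simp only [toAut_apply, AlgEquiv.one_apply] at h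
  conv_rhs => rw [← h]
  rw [mul_assoc, rho_inv_mul, mul_one]

/-- The linear part over the field. -/
noncomputable def rep : X.toAut.ker →* Module.End X.E V where
  toFun g :=
    { toFun := fun v => ρ (g : H) v
      map_add' := fun v w => map_add _ v w
      map_smul' := fun x v => show (ρ (g : H) * x.1) v = (x.1 * ρ (g : H)) v by
        rw [X.commute_of_mem_ker g.2 x.2] }
  map_one' := LinearMap.ext fun v => show ρ 1 v = v by rw [map_one]; rfl
  map_mul' g h := LinearMap.ext fun v => show ρ ((g : H) * h) v = ρ (g : H) (ρ (h : H) v) by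
    rw [map_mul]; rfl

theorem rep_injective (hinj : Function.Injective ρ) : Function.Injective X.rep := fun _ _ h =>
  Subtype.ext (hinj (LinearMap.ext fun v => (LinearMap.congr_fun h v :)))

theorem finrank_mul [FiniteDimensional K V] : finrank K X.E * finrank X.E V = finrank K V := by
  let _ : Field X.E := X.field.toField
  exact Module.finrank_mul_finrank K X.E V

theorem finiteDimensional [FiniteDimensional K V] : Module.Finite X.E V := by
  exact Module.Finite.of_restrictScalars_finite K X.E V

end Extension

end CfsgLib.SolvableLinear
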