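import Mathlib
import Cfsg.Agent.Lib.ClassLowerSharp.Bound

/-!
The index bound of the primitive case against powers of three.
-/

set_option autoImplicit false

namespace CfsgLib.SolvableLinear

open CfsgLib.ClassLowerSharp

theorem qb_three_table : ∀ s < 256, 10 ≤ s → s ≠ 16 → s ≠ 32 →
    (s * s - 1) * gqf 16 (s * s / radical' (s * s)) ≤ 3 ^ (s - 1) := by
  decide +kernel

theorem qb_three_small : ∀ s ∈ [6, 7], (s * s - 1) * gqf 16 (s * s / radical' (s * s)) ≤ 3 ^ (s - 1) := by
  decide +kernel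

/-- Outside a few degrees the index bound is at most a power of three. -/
theorem qb_le_three {s : ℕ} (hs : 6 ≤ s) (h8 : s ≠ 8) (h9 : s ≠ 9) (h16 : s ≠ 16) (h32 : s ≠ 32) :
    qb (s * s) ≤ s * s * 3 ^ (s - 1) := by
  have hss : 2 ≤ s * s := by nlinarith
  rcases Nat.lt_or_ge s 256 with h | h
  · rw [qb_eq_gqf (f := 16) hss (by nlinarith)]
    refine Nat.mul_le_mul_left _ ?_
    rcases Nat.lt_or_ge s 10 with h10 | h10
    · exact qb_three_small s (by simp; omega)
    · exact qb_three_table s h h10 h16 h32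
  · set M := Nat.log 2 s with hM
    have hM8 : 8 ≤ M := Nat.le_log_of_pow_le (by norm_num) (by omega)
    have h2 : 2 ^ M ≤ s := Nat.pow_log_le_self 2 (by omega)
    have h3 : s < 2 ^ (M + 1) := Nat.lt_pow_succ_log_self (by norm_num) s
    have hN : s * s < 2 ^ (2 * M + 2) := by
      rw [show 2 * M + 2 = (M + 1) + (M + 1) by ring, pow_add]
      exact Nat.mul_lt_mul'' (by omega) (by omega)
    rw [qb_eq_gqf hss hN]
    refine Nat.mul_le_mul_left _ ?_
    have hq : gqf (2 * M + 2) (s * s / radical' (s * s)) ≤ (s * s) ^ (2 * M + 2) :=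
      (gqf_le _ _ (Nat.div_pos (Nat.le_of_dvd (by omega) (Nat.prod_primeFactors_dvd _))
        (radical'_pos _))).trans (Nat.pow_le_pow_left (Nat.div_le_self _ _) _)
    have hexp : 2 * ((2 * M + 2) * (2 * M + 3)) ≤ 3 * (s - 1) := by
      have : ∀ j, 8 ≤ j → 2 * ((2 * j + 2) * (2 * j + 3)) + 3 ≤ 3 * 2 ^ j := by
        intro j hj
        induction j, hj using Nat.le_induction with
        | base => norm_num
        | succ i hi ih => rw [pow_succ]; nlinarith
      have := this M hM8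
      omega
    refine (Nat.pow_le_pow_iff_left (n := 2) (by norm_num)).mp ?_
    calc ((s * s - 1) * gqf (2 * M + 2) (s * s / radical' (s * s))) ^ 2
        ≤ ((s * s) ^ (2 * M + 3)) ^ 2 := Nat.pow_le_pow_left (by
          rw [pow_succ' (s * s) (2 * M + 2)]
          exact Nat.mul_le_mul (Nat.sub_le _ _) hq) 2
      _ ≤ ((2 ^ (2 * M + 2)) ^ (2 * M + 3)) ^ 2 :=
          Nat.pow_le_pow_left (Nat.pow_le_pow_left hN.le _) _
      _ = 2 ^ (2 * ((2 * M + 2) * (2 * M + 3))) := by rw [← pow_mul, ← pow_mul]; congr 1; ring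
      _ ≤ 2 ^ (3 * (s - 1)) := Nat.pow_le_pow_right (by norm_num) hexp
      _ = 8 ^ (s - 1) := by rw [pow_mul]; norm_num
      _ ≤ 9 ^ (s - 1) := Nat.pow_le_pow_left (by norm_num) _
      _ = (3 ^ (s - 1)) ^ 2 := by rw [← pow_mul, mul_comm, pow_mul]; norm_num

end CfsgLib.SolvableLinear
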