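import Mathlib
import Cfsg.Agent.Lib.SolvableLinear.BlocksAPI
import Cfsg.Agent.Lib.ClassLower.Linear
import Cfsg.Agent.Lib.ClassLowerSharp.DegSmall

/-!
Orders of solvable linear groups over small fields without normal unipotent subgroups.
-/

set_option autoImplicit false
set_option linter.style.haveILetI false
set_option linter.unusedSectionVars false

namespace CfsgLib.SolvableLinear

open Module Cfsg CfsgLib.ClassLower CfsgLib.ClassLowerSharp
open scoped commutatorElement

universe u v w

/-- The bounds in characteristic two. -/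
def tbTwo : List (List ℕ) :=
  [[1], [1, 1, 6, 21, 72, 155, 1296, 5040, 40320, 362880, 3628800], [1, 3, 30, 648, 1944, 29160],
    [1, 7, 126, 2058], [1, 15, 510], [1, 31, 2046], [1, 63], [1, 127], [1, 255], [1, 511],
    [1, 1023]]

/-- The bounds in characteristic three. -/
def tbThree : List (List ℕ) := [[1], [1, 2, 48, 96, 4608], [1, 8, 192], [1, 26], [1, 80]]

/-- The bound for dimension `m` over the field with `p ^ e` elements. -/
def tb (p e m : ℕ) : ℕ :=
  if p = 2 then (tbTwo.getD e []).getD m 1 else (tbThree.getD e []).getD m 1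

/-- The range of the table. -/
def lim (p : ℕ) : ℕ := if p = 2 then 10 else if p = 3 then 4 else 0

/-- The index of the scalars in the primitive case. -/
def pr (s : ℕ) : ℕ :=
  if s = 1 then 1 else if s = 2 then 24 else if s = 3 then 216 else if s = 4 then 2304 else 0

theorem tb_red : ∀ p ∈ [2, 3], ∀ e < 11, ∀ m < 11, e * m ≤ lim p → ∀ a < 11, 1 ≤ a → a < m →
    tb p e a * tb p e (m - a) ≤ tb p e m := by
  decide +kernel

theorem tb_blocks : ∀ p ∈ [2, 3], ∀ e < 11, ∀ n < 11, ∀ b < 11, (1 ≤ e ∧ 2 ≤ n ∧ 1 ≤ b ∧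
    e * (n * b) ≤ lim p) → n.factorial * tb p e b ^ n ≤ tb p e (n * b) := by
  decide +kernel

theorem tb_ext : ∀ p ∈ [2, 3], ∀ e < 11, ∀ n < 11, ∀ b < 11, (1 ≤ e ∧ 2 ≤ n ∧ 1 ≤ b ∧
    e * (n * b) ≤ lim p) → n * tb p (e * n) b ≤ tb p e (n * b) := by
  decide +kernel

set_option synthInstance.maxSize 4096 in
set_option synthInstance.maxHeartbeats 400000 in
theorem tb_prim : ∀ p ∈ [2, 3], ∀ e < 11, ∀ m < 11, (1 ≤ e ∧ 1 ≤ m ∧ e * m ≤ lim p) →
    ∀ s < m + 1, 1 ≤ s →
    (∀ q < s + 1, Nat.Prime q → q ∣ s → q ∣ m ∧ q ∣ p ^ e - 1) →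
    (s ≤ 3 ∨ s = 4 ∧ p = 3) ∧ (p ^ e - 1) * pr s ≤ tb p e m := by
  decide +kernel

theorem qb_small : qb (1 * 1) = 1 ∧ qb (2 * 2) = 24 ∧ qb (3 * 3) = 216 := by
  refine ⟨by rw [qb, if_pos (by norm_num)], ?_, ?_⟩
  · rw [qb_eq_gqf (f := 3) (by norm_num) (by norm_num)]; decide +kernel
  · rw [qb_eq_gqf (f := 4) (by norm_num) (by norm_num)]; decide +kernel

variable {K : Type w} [Field K] {H : Type u} [Group H] {V : Type v} [AddCommGroup V] [Module K V]
  {ρ : H →* Module.End K V}

/-- A normal `p`-subgroup of an irreducible group in characteristic `p` is trivial. -/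
theorem core_trivial [Finite H] [FiniteDimensional K V] [Finite K] {p : ℕ} [Fact p.Prime] [CharP K p]
    (hinj : Function.Injective ρ) (hirr : IsIrr ρ) (U : Subgroup H) (hU : U.Normal)
    (hp : IsPGroup p U) : U = ⊥ := by
  classical
  have := hirr.1
  have : Finite V := Module.finite_of_finite K
  let _ : MulAction U V :=
    { smul := fun u x => ρ (u : H) x
      one_smul := fun x => show ρ 1 x = x by rw [map_one]; rfl
      mul_smul := fun a b x => show ρ ((a : H) * b) x = _ by rw [map_mul]; rfl }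
  let W : Submodule K V := ⨅ u : U, LinearMap.ker (ρ (u : H) - 1)
  have hW : ∀ x, x ∈ W ↔ ∀ u : U, ρ (u : H) x = x := fun x => by
    simp [W, Submodule.mem_iInf, sub_eq_zero]
  have hdvd : p ∣ Nat.card V := by
    obtain ⟨x, hx⟩ := exists_ne (0 : V)
    have hpx : p • x = 0 := by
      rw [← Nat.cast_smul_eq_nsmul K, CharP.cast_eq_zero K p, zero_smul]
    rw [← addOrderOf_eq_prime hpx hx]
    exact addOrderOf_dvd_natCard x
  obtain ⟨x, hx, hx0⟩ := hp.exists_fixed_point_of_prime_dvd_card_of_fixed_point V hdvd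
    (a := (0 : V)) (fun u => map_zero _)
  have htop : W = ⊤ := (hirr.2 W fun g y hy => by
    rw [hW] at hy ⊢
    intro u
    have h := hy ⟨g⁻¹ * u * g, by simpa using hU.conj_mem u u.2 g⁻¹⟩
    have h' := congrArg (ρ g) h
    rwa [← Module.End.mul_apply, ← map_mul, ← mul_assoc, ← mul_assoc, mul_inv_cancel, one_mul,
      map_mul, Module.End.mul_apply] at h').resolve_left fun h => hx0 (by
    have hm : x ∈ W := (hW x).mpr fun u => hx u
    rw [h, Submodule.mem_bot] at hm
    exact hm.symm)
  rw [eq_bot_iff]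
  intro g hg
  refine Subgroup.mem_bot.mpr (hinj ?_)
  rw [map_one]
  exact LinearMap.ext fun y => (hW y).mp (htop ▸ Submodule.mem_top) ⟨g, hg⟩

/-- Scalars in a finite field. -/
theorem card_scalars_dvd_units [Finite H] [Finite K] [Nontrivial V] (hinj : Function.Injective ρ) :
    Nat.card (scalars ρ) ∣ Nat.card K - 1 := by
  classical
  choose c hc using fun z : scalars ρ => mem_scalars.mp z.2
  have hcu : ∀ a b : K, a • (1 : Module.End K V) = b • 1 → a = b := fun a b h =>
    smul_left_injective K one_ne_zero h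
  have hm : ∀ a b, c (a * b) = c a * c b := fun a b => hcu _ _ (by
    rw [← hc, Subgroup.coe_mul, map_mul, hc, hc, smul_mul_smul_comm, one_mul])
  have h1 : c 1 = 1 := hcu _ _ (by rw [← hc, OneMemClass.coe_one, map_one, one_smul])
  let f : scalars ρ →* K := { toFun := c, map_one' := h1, map_mul' := hm }
  have hf : Function.Injective f.toHomUnits := fun a b h => by
    refine Subtype.ext (hinj ?_)
    have h' : c a = c b := congrArg (fun z : Kˣ => (z : K)) h
    rw [hc, hc, h']
  rw [← Nat.card_units]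
  exact Subgroup.card_dvd_of_injective f.toHomUnits hf

/-- The primes dividing the order of the Fitting subgroup modulo scalars divide the number of
scalars. -/
theorem prime_dvd_card_scalars [Finite H] (hρ : IsPrim ρ) {q : ℕ} (hq : q.Prime)
    (hdvd : q ∣ (scalars ρ).relIndex (fittingSubgroup H)) : q ∣ Nat.card (scalars ρ) := by
  have := Fact.mk hq
  set F := fittingSubgroup H with hF
  obtain ⟨u, hu⟩ := exists_prime_orderOf_dvd_card' (G := FitQ ρ) q hdvd
  obtain ⟨x, rfl⟩ := QuotientGroup.mk_surjective u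
  have hxq : (x : H) ^ q ∈ scalars ρ := by
    have h := pow_orderOf_eq_one (QuotientGroup.mk x : FitQ ρ)
    rw [hu, ← QuotientGroup.mk_pow, QuotientGroup.eq_one_iff, Subgroup.mem_subgroupOf] at h
    simpa using h
  have hxn : (x : H) ∉ scalars ρ := fun h => hq.ne_one (by
    rw [← hu, (QuotientGroup.eq_one_iff x).mpr (Subgroup.mem_subgroupOf.mpr h), orderOf_one])
  obtain ⟨e, he, hne⟩ : ∃ e ∈ F, (x : H) * e ≠ e * x := by
    by_contra! h
    exact hxn (hρ.centralizer_fitting_le
      (Subgroup.mem_centralizer_iff.mpr fun e he => (h e he).symm))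
  have hz : ⁅e, (x : H)⁆ ∈ scalars ρ := hρ.commutator_mem he x.2
  have hzc := Subgroup.mem_center_iff.mp (hρ.scalars_le_center hz)
  have hzq : ⁅e, (x : H)⁆ ^ q = 1 := by
    have hce : e * x * e⁻¹ = (x : H) * ⁅e, (x : H)⁆ := by rw [hzc (x : H)]; group
    have h1 : (e * x * e⁻¹) ^ q = (x : H) ^ q * ⁅e, (x : H)⁆ ^ q := by
      rw [hce, (show Commute (x : H) ⁅e, (x : H)⁆ from hzc x).mul_pow]
    rw [conj_pow, Subgroup.mem_center_iff.mp (hρ.scalars_le_center hxq) e,
      mul_inv_cancel_right, left_eq_mul] at h1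
    exact h1
  have hz1 : ⁅e, (x : H)⁆ ≠ 1 := fun h =>
    hne (commutatorElement_eq_one_iff_mul_comm.mp h).symm
  rw [← orderOf_eq_prime hzq hz1]
  exact Subgroup.orderOf_dvd_natCard _ hz

/-- The primitive case of the table. -/
theorem prim_table [Finite H] [FiniteDimensional K V] [Finite K] {p e : ℕ} (hρ : IsPrim ρ)
    (hp : p ∈ [2, 3]) (hK : Nat.card K = p ^ e) (he : 1 ≤ e) (hlim : e * finrank K V ≤ lim p) :
    Nat.card H ≤ tb p e (finrank K V) := by
  have := hρ.nt
  have hm1 : 1 ≤ finrank K V := Module.finrank_pos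
  obtain ⟨s, hs, hs1, hs2, hs3⟩ := hρ.relIndex_facts
  have hlim10 : lim p ≤ 10 := by
    rcases (by simpa using hp : p = 2 ∨ p = 3) with rfl | rfl <;> simp [lim]
  have he' : e < 11 := by nlinarith
  have hm' : finrank K V < 11 := by nlinarith
  have hcond : ∀ q < s + 1, Nat.Prime q → q ∣ s → q ∣ finrank K V ∧ q ∣ p ^ e - 1 :=
    fun q _ hq hqs => by
      refine ⟨hs3 q (Nat.mem_primeFactors.mpr ⟨hq, hqs, by omega⟩), ?_⟩
      rw [← hK]
      exact (prime_dvd_card_scalars hρ hq (hs ▸ dvd_mul_of_dvd_left hqs s)).trans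
        (card_scalars_dvd_units hρ.inj)
  obtain ⟨hsmall, hle⟩ := tb_prim p hp e he' _ hm' ⟨he, hm1, hlim⟩ s (by omega) hs1 hcond
  refine le_trans ?_ hle
  rw [← (scalars ρ).card_mul_index]
  refine Nat.mul_le_mul ?_ ?_
  · rw [← hK]
    refine Nat.le_of_dvd ?_ (card_scalars_dvd_units hρ.inj)
    have : 1 < Nat.card K := Finite.one_lt_card
    omega
  · rcases hsmall with h | ⟨rfl, rfl⟩
    · obtain ⟨q1, q2, q3⟩ := qb_small
      have hq := hρ.index_le_qb_value hs
      interval_cases s <;> simp only [pr] <;> norm_num at * <;> omega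
    · have := hρ.fitting_normal
      have hs' : (scalars ρ).relIndex (fittingSubgroup H) = 2 ^ 4 := by rw [hs]; norm_num
      obtain ⟨f, hf⟩ := hρ.exists_end_two hs' (N := 4) le_rfl
      have : Group.IsSolvable H := hρ.solv
      have h144 := card_le_of_four f hf (hρ.quot_no_two hs')
      rw [hρ.index_scalars_eq, hs']
      have hi : Nat.card (H ⧸ fittingSubgroup H) = (fittingSubgroup H).index := rfl
      simp only [pr]
      norm_num
      omega

/-- The table, with the unipotent subgroup. -/
theorem table_aux {p : ℕ} [Fact p.Prime] (hp : p ∈ [2, 3]) (m : ℕ) :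
    ∀ (K : Type w) [Field K] [Finite K] [CharP K p] (e : ℕ), Nat.card K = p ^ e → 1 ≤ e →
    e * m ≤ lim p →
    ∀ (V : Type w) [AddCommGroup V] [Module K V] [FiniteDimensional K V], finrank K V = m →
    ∀ (H : Type u) [Group H] [Finite H] [Group.IsSolvable H] (ρ : H →* Module.End K V), 1 ≤ m →
    ∃ U : Subgroup H, ∃ _ : U.Normal, (∀ g ∈ U, ∃ a, ρ g ^ p ^ a = 1) ∧ U.index ≤ tb p e m := by
  induction m using Nat.strong_induction_on with
  | _ m IH =>
  intro K _ _ _ e hK he hlim V _ _ _ hm H _ _ _ ρ hm1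
  classical
  have hlim10 : lim p ≤ 10 := by
    rcases (by simpa using hp : p = 2 ∨ p = 3) with rfl | rfl <;> simp [lim]
  have he' : e < 11 := by nlinarith
  have hm' : m < 11 := by nlinarith
  have : Nontrivial V := Module.nontrivial_of_finrank_pos (R := K) (by omega)
  by_cases hirr : IsIrr ρ
  · refine ⟨ρ.ker, inferInstance, fun g hg => ⟨0, by rw [MonoidHom.mem_ker.mp hg, one_pow]⟩, ?_⟩
    obtain ⟨σ, hσ, hinj⟩ : ∃ σ : H ⧸ ρ.ker →* Module.End K V,
        (∀ g : H, σ (QuotientGroup.mk g) = ρ g) ∧ Function.Injective σ := by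
      refine ⟨QuotientGroup.lift ρ.ker ρ le_rfl, fun g => rfl, ?_⟩
      rw [injective_iff_map_eq_one]
      intro q hq
      induction q using QuotientGroup.induction_on with | _ g =>
      exact (QuotientGroup.eq_one_iff _).mpr (MonoidHom.mem_ker.mpr hq)
    have hirr' : IsIrr σ := ⟨hirr.1, fun W hW => hirr.2 W fun g x hx => by
      rw [← hσ]; exact hW _ x hx⟩
    show Nat.card (H ⧸ ρ.ker) ≤ _
    have hcore : ∀ L : Subgroup (H ⧸ ρ.ker), L.Normal → IsPGroup p L → L = ⊥ :=
      core_trivial hinj hirr'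
    have hsolve : ∀ (L : Subgroup (H ⧸ ρ.ker)), L.Normal → ∀ U : Subgroup L, U.Normal →
        IsPGroup p U → U = ⊥ := by
      intro L hL U hU hUp
      have h1 : U ≤ pCore p L := Cores.le_pCore (hN := hU) hUp
      have h2 : pCore p L = ⊥ := by
        have hchar : (pCore p L).Characteristic := Cores.pCore_characteristic p L
        have h3 := hcore ((pCore p L).map L.subtype) inferInstance
          ((Cores.isPGroup_pCore p L).map _)
        exact (Subgroup.map_eq_bot_iff_of_injective _ L.subtype_injective).mp h3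
      exact eq_bot_iff.mpr (h1.trans h2.le)
    rcases irr_cases hinj hirr' with hP | ⟨ι, _, hB⟩ | hX
    · rw [← hm]
      exact prim_table hP hp hK he (hm ▸ hlim)
    · obtain ⟨B⟩ := hB
      have hdim := B.finrank_eq hirr'
      obtain ⟨i0⟩ : Nonempty ι := (Nat.card_pos_iff.mp (by have := B.two; omega)).1
      set b := finrank K (B.space i0) with hb
      have hsum : Nat.card ι * b = m := by
        rw [← hm, ← B.sum_finrank, Finset.sum_congr rfl fun i _ => hdim i i0, Finset.sum_const,
          smul_eq_mul, Finset.card_univ, Nat.card_eq_fintype_card]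
      have hb1 : 1 ≤ b := B.one_le_finrank i0
      have hbm : b < m := hm ▸ B.finrank_lt i0
      have hU : ∀ i, ∃ U : Subgroup B.act.ker, ∃ _ : U.Normal,
          (∀ g ∈ U, ∃ a, B.rep i g ^ p ^ a = 1) ∧ U.index ≤ tb p e b := fun i =>
        IH b hbm K e hK he (le_trans (Nat.mul_le_mul_left _ hbm.le) hlim) (B.space i) (hdim i i0)
          B.act.ker (B.rep i) hb1
      choose U hUn hUa hUi using hU
      let P : Subgroup B.act.ker := ⨅ i, U i
      have hPn : P.Normal := Subgroup.normal_iInf_normal hUn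
      have hP : P = ⊥ := by
        refine hsolve B.act.ker inferInstance P hPn fun g => ?_
        choose a ha using fun i => hUa i g ((Subgroup.mem_iInf.mp g.2) i)
        refine ⟨∑ i, a i, Subtype.ext (B.separating hinj _ fun i => ?_)⟩
        show B.rep i ((g : B.act.ker) ^ p ^ ∑ i, a i) = 1
        rw [map_pow, ← Finset.add_sum_erase _ _ (Finset.mem_univ i), pow_add, pow_mul, ha i,
          one_pow]
      have hK' : Nat.card B.act.ker ≤ tb p e b ^ Nat.card ι := by
        rw [← Subgroup.index_bot, ← hP]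
        refine (Subgroup.index_iInf_le U).trans ?_
        refine (Finset.prod_le_prod' fun i _ => hUi i).trans ?_
        rw [Finset.prod_const, Finset.card_univ, Nat.card_eq_fintype_card]
      rw [← B.act.ker.card_mul_index, Subgroup.index_ker]
      refine (Nat.mul_le_mul hK' B.card_range_le_factorial).trans ?_
      rw [mul_comm, ← hsum]
      exact tb_blocks p hp e he' _ (by nlinarith [B.two]) b (by omega) ⟨he, B.two, hb1, hsum ▸ hlim⟩
    · obtain ⟨X⟩ := hX
      let _ : Field X.E := X.field.toField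
      have := X.finiteDimensional
      have hmul := X.finrank_mul
      set n := finrank K X.E with hn
      set b := finrank X.E V with hb
      rw [hm] at hmul
      have hb1 : 1 ≤ b := Nat.pos_of_ne_zero fun h => by rw [h, mul_zero] at hmul; omega
      have hn2 := X.two
      have hbm : b < m := by nlinarith
      have hn11 : n < 11 := by nlinarith
      have : Finite X.E := Module.finite_of_finite K
      have : CharP X.E p := charP_of_injective_algebraMap (algebraMap K X.E).injective p
      have hcard : Nat.card X.E = p ^ (e * n) := by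
        rw [Module.natCard_eq_pow_finrank (K := K), hK, ← pow_mul]
      obtain ⟨U, hUn, hUa, hUi⟩ := IH b hbm X.E (e * n) hcard (Nat.one_le_iff_ne_zero.mpr
        (by positivity)) (by rw [mul_assoc, hmul]; exact hlim) V rfl X.toAut.ker X.rep hb1
      have hU : U = ⊥ := by
        refine hsolve X.toAut.ker inferInstance U hUn fun g => ?_
        obtain ⟨a, ha⟩ := hUa g g.2
        refine ⟨a, Subtype.ext (X.rep_injective hinj ?_)⟩
        show X.rep ((g : X.toAut.ker) ^ p ^ a) = X.rep 1
        rw [map_pow, ha, map_one]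
      rw [hU, Subgroup.index_bot] at hUi
      rw [← X.toAut.ker.card_mul_index, Subgroup.index_ker]
      refine (Nat.mul_le_mul hUi X.card_range_le).trans ?_
      rw [mul_comm, ← hmul]
      exact tb_ext p hp e he' n hn11 b (by omega) ⟨he, hn2, hb1, hmul ▸ hlim⟩
  · obtain ⟨W, hWinv, hW0, hW1⟩ : ∃ W : Submodule K V, (∀ g, ∀ x ∈ W, ρ g x ∈ W) ∧
        W ≠ ⊥ ∧ W ≠ ⊤ := by
      unfold IsIrr at hirr
      push Not at hirr
      exact hirr inferInstance
    let ρ1 : H →* Module.End K W :=
      { toFun := fun g => (ρ g).restrict (hWinv g)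
        map_one' := LinearMap.ext fun x => Subtype.ext (by simp)
        map_mul' := fun g h => LinearMap.ext fun x => Subtype.ext (by simp) }
    let ρ2 : H →* Module.End K (V ⧸ W) :=
      { toFun := fun g => W.mapQ W (ρ g) (hWinv g)
        map_one' := Submodule.linearMap_qext _ (LinearMap.ext fun x => by simp)
        map_mul' := fun g h => Submodule.linearMap_qext _ (LinearMap.ext fun x => by simp) }
    have hsum := W.finrank_quotient_add_finrank
    have hWpos : 1 ≤ finrank K W := Submodule.one_le_finrank_iff.mpr hW0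
    have hWlt := Submodule.finrank_lt hW1
    rw [hm] at hsum hWlt
    have hQ : finrank K (V ⧸ W) = m - finrank K W := by omega
    obtain ⟨U1, hU1n, hU1, hB1⟩ := IH (finrank K W) hWlt K e hK he
      (le_trans (Nat.mul_le_mul_left _ hWlt.le) hlim) W rfl H ρ1 hWpos
    obtain ⟨U2, hU2n, hU2, hB2⟩ := IH (m - finrank K W) (by omega) K e hK he
      (le_trans (Nat.mul_le_mul_left _ (Nat.sub_le _ _)) hlim) (V ⧸ W) hQ H ρ2 (by omega)
    have hnt : Nontrivial (Module.End K V) := inferInstance
    have : CharP (Module.End K V) p :=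
      charP_of_injective_algebraMap (algebraMap K (Module.End K V)).injective p
    refine ⟨U1 ⊓ U2, inferInstance, fun g hg => ?_, ?_⟩
    · obtain ⟨a, ha⟩ := hU1 g hg.1
      obtain ⟨b, hb⟩ := hU2 g hg.2
      have ha' : ρ1 (g ^ p ^ (a + b)) = 1 := by
        rw [map_pow, pow_add, pow_mul, ha, one_pow]
      have hb' : ρ2 (g ^ p ^ (a + b)) = 1 := by
        rw [map_pow, pow_add, mul_comm, pow_mul, hb, one_pow]
      refine ⟨a + b + 1, ?_⟩
      rw [pow_succ, pow_mul, ← map_pow]
      refine unipotent_of_two_steps p (LinearMap.ext fun x => ?_)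
      have h2 : ρ (g ^ p ^ (a + b)) x - x ∈ W := by
        rw [← Submodule.Quotient.eq]
        exact LinearMap.congr_fun hb' (Submodule.Quotient.mk x)
      have h1 : ρ (g ^ p ^ (a + b)) (ρ (g ^ p ^ (a + b)) x - x) = ρ (g ^ p ^ (a + b)) x - x :=
        congrArg Subtype.val (LinearMap.congr_fun ha' ⟨_, h2⟩)
      rw [Module.End.mul_apply, LinearMap.sub_apply, LinearMap.sub_apply, Module.End.one_apply,
        Module.End.one_apply, h1, sub_self, LinearMap.zero_apply]
    · refine (Subgroup.index_inf_le (H := U1) (K := U2)).trans ((Nat.mul_le_mul hB1 hB2).trans ?_)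
      exact tb_red p hp e he' m hm' hlim _ (by omega) hWpos hWlt

/-- The table. -/
theorem card_le_table {p : ℕ} [Fact p.Prime] (hp : p ∈ [2, 3]) {K : Type w} [Field K] [Finite K]
    [CharP K p] {e m : ℕ} (hK : Nat.card K = p ^ e) (he : 1 ≤ e) (hlim : e * m ≤ lim p) (hm : 1 ≤ m)
    {H : Type u} [Group H] [Finite H] [Group.IsSolvable H] (ρ : H →* Module.End K (Fin m → K))
    (hinj : Function.Injective ρ) (hcore : ∀ U : Subgroup H, U.Normal → IsPGroup p U → U = ⊥) :
    Nat.card H ≤ tb p e m := by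
  obtain ⟨U, hUn, hUa, hUi⟩ := table_aux.{u, w} hp m K e hK he hlim (Fin m → K)
    (Module.finrank_fin_fun K) H ρ hm
  have hU : U = ⊥ := hcore U hUn fun g => by
    obtain ⟨a, ha⟩ := hUa g g.2
    exact ⟨a, Subtype.ext (hinj (by push_cast; rw [map_pow, map_one, ha]))⟩
  rwa [hU, Subgroup.index_bot] at hUi

end CfsgLib.SolvableLinear
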