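import Mathlib
import Cfsg.Agent.Lib.SolvableLinear.Table

/-!
Class numbers of subgroups of two-dimensional linear groups and of solvable groups on a
four-dimensional binary space.
-/

set_option autoImplicit false
set_option linter.style.haveILetI false
set_option linter.unusedSectionVars false

namespace CfsgLib.SolvableLinear

open Module Cfsg CfsgLib.ClassLowerSharp

universe u

/-- The number of classes times the order is the sum of the centralizer orders. -/
theorem sum_centralizer {Y : Type u} [Group Y] [Fintype Y] :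
    ∑ y : Y, Nat.card (Subgroup.centralizer ({y} : Set Y)) =
      Nat.card (ConjClasses Y) * Nat.card Y := by
  rw [← card_comm_eq_card_conjClasses_mul_card, ← Nat.card_sigma]
  exact Nat.card_congr
    { toFun := fun p => ⟨(p.1, p.2.1), (Subgroup.mem_centralizer_singleton_iff.mp p.2.2).symm⟩
      invFun := fun p => ⟨p.1.1, p.1.2, Subgroup.mem_centralizer_singleton_iff.mpr p.2.symm⟩
      left_inv := fun p => rfl
      right_inv := fun p => rfl }

theorem class_count_of_centralizers {Y : Type u} [Group Y] [Finite Y] (Z : Subgroup Y) {c : ℕ}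
    (hc : 1 ≤ c) (h : ∀ y ∉ Z, Nat.card (Subgroup.centralizer ({y} : Set Y)) ≤ c) :
    Nat.card (ConjClasses Y) < Nat.card Z + c := by
  classical
  let _ := Fintype.ofFinite Y
  have h1 := sum_centralizer (Y := Y)
  rw [← Finset.sum_filter_add_sum_filter_not Finset.univ (fun y => y ∈ Z)] at h1
  have hz : (Finset.univ.filter fun y => y ∈ Z).card = Nat.card Z := by
    rw [← Fintype.card_subtype, ← Nat.card_eq_fintype_card]
  have hn : (Finset.univ.filter fun y => y ∉ Z).card + Nat.card Z = Nat.card Y := by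
    rw [← hz, add_comm, Finset.card_filter_add_card_filter_not, Finset.card_univ,
      Nat.card_eq_fintype_card]
  have ha : ∑ y ∈ Finset.univ.filter (fun y => y ∈ Z),
      Nat.card (Subgroup.centralizer ({y} : Set Y)) ≤ Nat.card Z * Nat.card Y := by
    rw [← hz]
    exact Finset.sum_le_card_nsmul _ _ _ fun y _ => Subgroup.card_le_card_group _
  have hb : ∑ y ∈ Finset.univ.filter (fun y => y ∉ Z),
      Nat.card (Subgroup.centralizer ({y} : Set Y)) ≤
        (Finset.univ.filter fun y => y ∉ Z).card * c :=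
    Finset.sum_le_card_nsmul _ _ _ fun y hy => h y (Finset.mem_filter.mp hy).2
  have hY : 1 ≤ Nat.card Y := Nat.card_pos
  have hZ : 1 ≤ Nat.card Z := Nat.card_pos
  refine Nat.lt_of_mul_lt_mul_right (a := Nat.card Y) ?_
  rw [← h1, Nat.add_mul]
  refine lt_of_le_of_lt (Nat.add_le_add ha hb) (Nat.add_lt_add_left ?_ _)
  rw [mul_comm c]
  exact Nat.mul_lt_mul_of_pos_right (by omega) hc

/-- Subgroups of two-dimensional linear groups. -/
theorem card_conjClasses_two {q : ℕ} [Fact q.Prime] {Y : Type u} [Group Y] [Finite Y]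
    (f : Y →* Module.End (ZMod q) (Fin 2 → ZMod q)) (hf : Function.Injective f) :
    Nat.card (ConjClasses Y) < (q - 1) + (q ^ 2 - 1) := by
  classical
  have hq : 2 ≤ q := (Fact.out : q.Prime).two_le
  let Z : Subgroup Y :=
    { carrier := {y | ∃ c : ZMod q, f y = c • 1}
      one_mem' := ⟨1, by simp⟩
      mul_mem' := fun {a b} ⟨c, hc⟩ ⟨d, hd⟩ => ⟨c * d, by
        rw [map_mul, hc, hd, smul_mul_smul_comm, one_mul]⟩
      inv_mem' := fun {a} ⟨c, hc⟩ => ⟨c⁻¹, by
        have h : f a * f a⁻¹ = 1 := by rw [← map_mul, mul_inv_cancel, map_one]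
        rw [hc, smul_mul_assoc, one_mul] at h
        have hc0 : c ≠ 0 := by
          rintro rfl
          rw [zero_smul] at h
          exact zero_ne_one h
        rw [← h, inv_smul_smul₀ hc0]⟩ }
  have hinjv : ∀ y : Y, Function.Injective (f y) := fun y => rho_injective f y
  have hv : ∀ y ∉ Z, ∃ v : Fin 2 → ZMod q, LinearIndependent (ZMod q) ![v, f y v] := by
    intro y hy
    by_contra! h
    exact hy (LinearMap.exists_eq_smul_id_of_forall_notLinearIndependent h)
  have hcard : Nat.card {w : Fin 2 → ZMod q // w ≠ 0} = q ^ 2 - 1 := by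
    let _ := Fintype.ofFinite (Fin 2 → ZMod q)
    rw [Nat.card_eq_fintype_card, Fintype.card_subtype_compl, Fintype.card_subtype_eq,
      ← Nat.card_eq_fintype_card, Nat.card_fun, Nat.card_zmod, Nat.card_fin]
  have hcent : ∀ y ∉ Z, Nat.card (Subgroup.centralizer ({y} : Set Y)) ≤ q ^ 2 - 1 := by
    intro y hy
    obtain ⟨v, hli⟩ := hv y hy
    have hv0 : v ≠ 0 := by simpa using hli.ne_zero 0
    rw [← hcard]
    refine Nat.card_le_card_of_injective (fun x => (⟨f (x : Y) v, fun h => hv0 (hinjv x
      (h.trans (map_zero _).symm))⟩ : {w : Fin 2 → ZMod q // w ≠ 0})) fun a b hab => ?_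
    have h1 : f (a : Y) v = f (b : Y) v := congrArg Subtype.val hab
    refine Subtype.ext (hf ((LinearIndependent.span_eq_top_of_card_eq_finrank hli (by simp)
      |> fun hspan => LinearMap.ext_on_range (v := ![v, f y v]) hspan) fun i => ?_))
    fin_cases i
    · exact h1
    · have e : ∀ x : Subgroup.centralizer ({y} : Set Y), f (x : Y) (f y v) = f y (f (x : Y) v) :=
        fun x => by
          rw [← Module.End.mul_apply, ← map_mul, Subgroup.mem_centralizer_singleton_iff.mp x.2,
            map_mul, Module.End.mul_apply]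
      show f (a : Y) (f y v) = f (b : Y) (f y v)
      rw [e a, e b, h1]
  have hZ : Nat.card Z ≤ q - 1 := by
    have hu : Nat.card (ZMod q)ˣ = q - 1 := by rw [Nat.card_units, Nat.card_zmod]
    rw [← hu]
    choose c hc using fun z : Z => z.2
    have hc0 : ∀ z, c z ≠ 0 := fun z h => by
      have := hinjv z
      rw [hc, h, zero_smul] at this
      exact one_ne_zero (congrFun (this (a₁ := fun _ => 1) (a₂ := 0) rfl) 0 : (1 : ZMod q) = 0)
    refine Nat.card_le_card_of_injective (fun z => Units.mk0 (c z) (hc0 z)) fun a b hab => ?_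
    exact Subtype.ext (hf (by rw [hc, hc, show c a = c b from congrArg Units.val hab]))
  have hq2 : 1 ≤ q ^ 2 - 1 := by
    have : 4 ≤ q ^ 2 := Nat.pow_le_pow_left hq 2
    omega
  exact lt_of_lt_of_le (class_count_of_centralizers Z hq2 hcent) (Nat.add_le_add_right hZ _)

theorem bd_two {q : ℕ} [Fact q.Prime] {X : Type u} [Group X] [Finite X]
    (f : X →* Module.End (ZMod q) (Fin 2 → ZMod q)) (hf : Function.Injective f) :
    Bd X ((q - 1) + (q ^ 2 - 1) - 1) := fun Y => by
  have := card_conjClasses_two (f.comp Y.subtype) (hf.comp Subtype.val_injective)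
  omega

/-- A group with a self-centralizing abelian normal subgroup of prime index or more. -/
theorem class_count_of_abelian {Y : Type u} [Group Y] [Finite Y] (N : Subgroup Y) [N.Normal]
    {c : ℕ}
    (hfix : ∀ y ∉ N, Nat.card (Subgroup.centralizer ({y} : Set Y) ⊓ N : Subgroup Y) ≤ c)
    (hN : N ≠ ⊤) :
    2 * Nat.card (ConjClasses Y) ≤ Nat.card N + c + 2 * ((N.index - 1) * c) := by
  classical
  let _ := Fintype.ofFinite Y
  set n := Nat.card N
  set j := N.index
  have hcard : Nat.card Y = n * j := N.card_mul_index.symm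
  let T : Subgroup Y := Subgroup.center Y ⊓ N
  obtain ⟨y0, hy0⟩ : ∃ y, y ∉ N := by
    by_contra! h
    exact hN ((Subgroup.eq_top_iff' N).mpr h)
  have hT : Nat.card T ≤ c := by
    refine le_trans (Subgroup.card_le_of_le (inf_le_inf_right N fun z hz => ?_)) (hfix y0 hy0)
    exact Subgroup.mem_centralizer_singleton_iff.mpr (Subgroup.mem_center_iff.mp hz y0).symm
  have hout : ∀ y ∉ N, Nat.card (Subgroup.centralizer ({y} : Set Y)) ≤ c * j := by
    intro y hy
    set C := Subgroup.centralizer ({y} : Set Y)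
    rw [← (N.subgroupOf C).card_mul_index,
      Nat.card_congr ((N.subgroupOf C).equivMapOfInjective C.subtype C.subtype_injective).toEquiv,
      Subgroup.subgroupOf_map_subtype, inf_comm]
    exact Nat.mul_le_mul (hfix y hy) (Nat.le_of_dvd (Nat.pos_of_ne_zero
      Subgroup.index_ne_zero_of_finite) (Subgroup.relIndex_dvd_index_of_normal N C))
  have hin : ∀ y ∈ N, y ∉ T → 2 * Nat.card (Subgroup.centralizer ({y} : Set Y)) ≤ Nat.card Y := by
    intro y hy hyT
    have h := (Subgroup.centralizer ({y} : Set Y)).card_mul_index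
    have h2 : 2 ≤ (Subgroup.centralizer ({y} : Set Y)).index := by
      by_contra! h2
      refine hyT ⟨Subgroup.mem_center_iff.mpr fun g => ?_, hy⟩
      have h1 : (Subgroup.centralizer ({y} : Set Y)).index = 1 := by
        have := Subgroup.index_ne_zero_of_finite (H := Subgroup.centralizer ({y} : Set Y))
        omega
      exact Subgroup.mem_centralizer_singleton_iff.mp
        ((Subgroup.index_eq_one.mp h1).ge (Subgroup.mem_top g))
    rw [← h, mul_comm 2]
    exact Nat.mul_le_mul_left _ h2
  let F : Finset Y := Finset.univ.filter fun y => y ∈ N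
  let T' : Finset Y := Finset.univ.filter fun y => y ∈ T
  have hT'F : T' ⊆ F := fun y hy => by
    simp only [F, T', Finset.mem_filter] at hy ⊢
    exact ⟨hy.1, hy.2.2⟩
  have hFc : F.card = n := by rw [← Fintype.card_subtype, ← Nat.card_eq_fintype_card]
  have hTc : T'.card = Nat.card T := by rw [← Fintype.card_subtype, ← Nat.card_eq_fintype_card]
  have e := sum_centralizer (Y := Y)
  rw [← Finset.sum_add_sum_compl F, ← Finset.sum_sdiff hT'F] at e
  have h1 : 2 * ∑ y ∈ F \ T', Nat.card (Subgroup.centralizer ({y} : Set Y)) ≤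
      (n - Nat.card T) * Nat.card Y := by
    rw [Finset.mul_sum, ← hFc, ← hTc, ← Finset.card_sdiff_of_subset hT'F]
    refine Finset.sum_le_card_nsmul _ _ _ fun y hy => ?_
    simp only [F, T', Finset.mem_sdiff, Finset.mem_filter, Finset.mem_univ, true_and] at hy
    exact hin y hy.1 hy.2
  have h2 : ∑ y ∈ T', Nat.card (Subgroup.centralizer ({y} : Set Y)) ≤ Nat.card T * Nat.card Y := by
    rw [← hTc]
    exact Finset.sum_le_card_nsmul _ _ _ fun y _ => Subgroup.card_le_card_group _
  have h3 : ∑ y ∈ Fᶜ, Nat.card (Subgroup.centralizer ({y} : Set Y)) ≤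
      (j - 1) * c * Nat.card Y := by
    refine (Finset.sum_le_card_nsmul _ _ (c * j) fun y hy => hout y (by
      simpa [F] using hy)).trans ?_
    rw [Finset.card_compl, hFc, ← Nat.card_eq_fintype_card, hcard, smul_eq_mul]
    rw [show n * j - n = n * (j - 1) by rw [Nat.mul_sub, mul_one]]
    exact le_of_eq (by ring)
  have hTn : Nat.card T ≤ n := Subgroup.card_le_of_le inf_le_right
  refine Nat.le_of_mul_le_mul_right ?_ (Nat.card_pos : 0 < Nat.card Y)
  calc 2 * Nat.card (ConjClasses Y) * Nat.card Y
      ≤ (n - Nat.card T) * Nat.card Y + 2 * (Nat.card T * Nat.card Y) +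
          2 * ((j - 1) * c * Nat.card Y) := by rw [mul_assoc, ← e]; omega
    _ = ((n - Nat.card T) + 2 * Nat.card T + 2 * ((j - 1) * c)) * Nat.card Y := by ring
    _ ≤ _ := Nat.mul_le_mul_right _ (by omega)

/-- The Fitting subgroup of a solvable group on a four-dimensional binary space. -/
theorem fitting_card_four {X : Type u} [Group X] [Finite X]
    (f : X →* Module.End (ZMod 2) (Fin 4 → ZMod 2)) (hf : Function.Injective f)
    (hO : ∀ U : Subgroup X, U.Normal → IsPGroup 2 U → U = ⊥) :
    (Nat.card (fittingSubgroup X) = 1 ∨ Nat.card (fittingSubgroup X) = 3 ∨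
      Nat.card (fittingSubgroup X) = 5 ∨ Nat.card (fittingSubgroup X) = 7 ∨
      Nat.card (fittingSubgroup X) = 9 ∨ Nat.card (fittingSubgroup X) = 15) ∧
      ∀ a ∈ fittingSubgroup X, ∀ b ∈ fittingSubgroup X, a * b = b * a := by
  classical
  have hX : Nat.card X ∣ 20160 := by
    have h := card_dvd_GL f hf
    simpa [Fin.prod_univ_succ] using h
  set F := fittingSubgroup X with hF
  have hFn : F.Normal := Cores.fittingSubgroup_normal X
  have hnil : Group.IsNilpotent F := Cores.isNilpotent_fittingSubgroup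
  have hsyl : ∀ {q : ℕ} [Fact q.Prime] (P : Sylow q F), (P : Subgroup F).Normal := fun P => by
    have := hnil
    infer_instance
  have hodd : ¬ 2 ∣ Nat.card F := by
    intro h2
    obtain ⟨P⟩ : Nonempty (Sylow 2 F) := inferInstance
    have hPn := hsyl P
    have : (P : Subgroup F).Characteristic := P.characteristic_of_normal hPn
    have h := hO ((P : Subgroup F).map F.subtype) inferInstance (P.isPGroup'.map _)
    exact P.ne_bot_of_dvd_card h2 ((Subgroup.map_eq_bot_iff_of_injective _ F.subtype_injective).mp h)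
  have hcomm : ∀ {a b : F} {q r : ℕ}, q.Prime → r.Prime → q ≠ r →
      (∃ i, a ^ q ^ i = 1) → (∃ i, b ^ r ^ i = 1) → Commute a b := by
    intro a b q r hq hr hqr ha hb
    have := Fact.mk hq; have := Fact.mk hr
    obtain ⟨P⟩ : Nonempty (Sylow q F) := inferInstance
    obtain ⟨R⟩ : Nonempty (Sylow r F) := inferInstance
    have hP := hsyl P; have hR := hsyl R
    have mem : ∀ {s : ℕ} [Fact s.Prime] (S : Sylow s F), (S : Subgroup F).Normal →
        ∀ x : F, (∃ i, x ^ s ^ i = 1) → x ∈ (S : Subgroup F) := by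
      intro s _ S hS x hx
      have hz : IsPGroup s (Subgroup.zpowers x) := by
        obtain ⟨i, hi⟩ := hx
        intro y
        obtain ⟨n, hn⟩ := Subgroup.mem_zpowers_iff.mp y.2
        refine ⟨i, Subtype.ext ?_⟩
        show (y : F) ^ s ^ i = 1
        rw [← hn, ← zpow_natCast, ← zpow_mul, mul_comm, zpow_mul, zpow_natCast, hi, one_zpow]
      have : Subgroup.zpowers x ⊔ (S : Subgroup F) = S :=
        S.is_maximal' (hz.to_sup_of_normal_right S.isPGroup') le_sup_right
      exact (le_sup_left.trans this.le) (Subgroup.mem_zpowers x)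
    exact Subgroup.commute_of_normal_of_disjoint _ _ hP hR
      (IsPGroup.disjoint_of_ne q r hqr _ _ P.isPGroup' R.isPGroup') a b (mem P hP a ha) (mem R hR b hb)
  have hdvd : Nat.card F ∣ 315 := by
    have h1 := (F.card_subgroup_dvd_card).trans hX
    refine Nat.Coprime.dvd_of_dvd_mul_left ?_ (show Nat.card F ∣ 64 * 315 from h1)
    exact Nat.Coprime.pow_right 6 ((Nat.coprime_two_right).mpr (Nat.odd_iff.mpr (by omega)))
  have h7 : 7 ∣ Nat.card F → Nat.card F = 7 := by
    intro h
    have : Fact (Nat.Prime 7) := ⟨by norm_num⟩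
    obtain ⟨g, hg⟩ := exists_prime_orderOf_dvd_card' (G := F) 7 h
    have hno : ∀ m, m.Prime → 3 ≤ m → m ≠ 7 → ¬ m ∣ Nat.card F := by
      intro m hm hm3 hm7 hmd
      have := Fact.mk hm
      obtain ⟨c, hc⟩ := exists_prime_orderOf_dvd_card' (G := F) m hmd
      refine not_commute_seven f hf (g := (g : X)) (c := (c : X)) ?_ ?_ hm hm3 hm7 ?_ ?_
        (congrArg Subtype.val (hcomm (a := g) (b := c) (q := 7) (r := m) (by norm_num) hm hm7.symm
          ⟨1, by rw [pow_one, ← hg, pow_orderOf_eq_one]⟩
          ⟨1, by rw [pow_one, ← hc, pow_orderOf_eq_one]⟩).eq :)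
      · rw [← SubmonoidClass.coe_pow, ← hg, pow_orderOf_eq_one, OneMemClass.coe_one]
      · intro e; rw [show g = 1 from Subtype.ext e, orderOf_one] at hg; norm_num at hg
      · rw [← SubmonoidClass.coe_pow, ← hc, pow_orderOf_eq_one, OneMemClass.coe_one]
      · intro e; rw [show c = 1 from Subtype.ext e, orderOf_one] at hc; omega
    have h3 := hno 3 (by norm_num) le_rfl (by norm_num)
    have h5 := hno 5 (by norm_num) (by norm_num) (by norm_num)
    obtain ⟨t, ht⟩ := h
    rw [ht] at hdvd h3 h5 ⊢
    have ht45 : t ∣ 45 := Nat.dvd_of_mul_dvd_mul_left (by norm_num : 0 < 7) (hdvd.trans (dvd_of_eq rfl))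
    have : t ≤ 45 := Nat.le_of_dvd (by norm_num) ht45
    interval_cases t <;> omega
  have h45 : Nat.card F ≠ 45 := by
    intro h
    have : Fact (Nat.Prime 5) := ⟨by norm_num⟩
    have : Fact (Nat.Prime 3) := ⟨by norm_num⟩
    obtain ⟨g, hg⟩ := exists_prime_orderOf_dvd_card' (G := F) 5 (by rw [h]; norm_num)
    obtain ⟨P⟩ : Nonempty (Sylow 3 F) := inferInstance
    have hP : Nat.card (P : Subgroup F) = 9 := by
      rw [P.card_eq_multiplicity, h]
      rw [show (45 : ℕ) = 3 ^ 2 * 5 by norm_num, Nat.factorization_mul (by norm_num) (by norm_num),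
        Nat.Prime.factorization_pow (by norm_num), Nat.Prime.factorization (by norm_num : Nat.Prime 5)]
      simp
    have h3 := card_commuting_five f hf (g := (g : X))
      (by rw [← SubmonoidClass.coe_pow, ← hg, pow_orderOf_eq_one, OneMemClass.coe_one])
      (fun e => by rw [show g = 1 from Subtype.ext e, orderOf_one] at hg; norm_num at hg)
      ((P : Subgroup F).map F.subtype)
      (by
        rintro _ ⟨c, hc, rfl⟩
        have : (⟨c, hc⟩ : (P : Subgroup F)) ^ 9 = 1 := by rw [← hP]; exact pow_card_eq_one'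
        rw [← map_pow, show c ^ 9 = 1 from congrArg Subtype.val this, map_one])
      (by
        rintro _ ⟨c, hc, rfl⟩
        refine congrArg Subtype.val (hcomm (a := g) (b := c) (q := 5) (r := 3) (by norm_num)
          (by norm_num) (by norm_num) ⟨1, by rw [pow_one, ← hg, pow_orderOf_eq_one]⟩ ?_).eq
        obtain ⟨i, hi⟩ := P.isPGroup' ⟨c, hc⟩
        exact ⟨i, congrArg Subtype.val hi⟩)
    rw [Subgroup.card_map_of_injective F.subtype_injective, hP] at h3
    omega
  have hcases : Nat.card F = 1 ∨ Nat.card F = 3 ∨ Nat.card F = 5 ∨ Nat.card F = 7 ∨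
      Nat.card F = 9 ∨ Nat.card F = 15 := by
    obtain ⟨n, hn⟩ : ∃ n, n = Nat.card F := ⟨_, rfl⟩
    have hmem : n ∈ Nat.divisors 315 := Nat.mem_divisors.mpr ⟨hn ▸ hdvd, by norm_num⟩
    rw [show Nat.divisors 315 = {1, 3, 5, 7, 9, 15, 21, 35, 45, 63, 105, 315} by decide +kernel]
      at hmem
    rw [← hn] at h7 h45 ⊢
    simp only [Finset.mem_insert, Finset.mem_singleton] at hmem
    omega
  refine ⟨hcases, fun a ha b hb => ?_⟩
  suffices hab : ∀ x y : F, x * y = y * x from congrArg Subtype.val (hab ⟨a, ha⟩ ⟨b, hb⟩)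
  intro x y
  have hpr : ∀ r, r.Prime → Nat.card F = r → x * y = y * x := fun r hr h => by
    have := Fact.mk hr
    have := isCyclic_of_prime_card (p := r) h
    exact (IsCyclic.commGroup (α := F)).mul_comm x y
  rcases hcases with h | h | h | h | h | h
  · have := (Nat.card_eq_one_iff_unique.mp h).1
    rw [Subsingleton.elim x y]
  · exact hpr 3 (by norm_num) h
  · exact hpr 5 (by norm_num) h
  · exact hpr 7 (by norm_num) h
  · have : Fact (Nat.Prime 3) := ⟨by norm_num⟩
    exact (IsPGroup.isMulCommutative_of_card_eq_prime_sq (p := 3) (by rw [h]; norm_num)).is_comm.comm x y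
  · have : Fact (Nat.Prime 5) := ⟨by norm_num⟩
    have : Fact (Nat.Prime 3) := ⟨by norm_num⟩
    obtain ⟨a', ha'⟩ := exists_prime_orderOf_dvd_card' (G := F) 3 (by rw [h]; norm_num)
    obtain ⟨b', hb'⟩ := exists_prime_orderOf_dvd_card' (G := F) 5 (by rw [h]; norm_num)
    have hab : Commute a' b' := hcomm (q := 3) (r := 5) (by norm_num) (by norm_num) (by norm_num)
      ⟨1, by rw [pow_one, ← ha', pow_orderOf_eq_one]⟩ ⟨1, by rw [pow_one, ← hb', pow_orderOf_eq_one]⟩
    have := isCyclic_of_orderOf_eq_card (a' * b') (by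
      rw [hab.orderOf_mul_eq_mul_orderOf_of_coprime (by rw [ha', hb']; norm_num), ha', hb', h])
    exact (IsCyclic.commGroup (α := F)).mul_comm x y

/-- Subgroups of solvable groups on a four-dimensional binary space. -/
theorem bd_four {X : Type u} [Group X] [Finite X] [Group.IsSolvable X]
    (f : X →* Module.End (ZMod 2) (Fin 4 → ZMod 2)) (hf : Function.Injective f)
    (hO : ∀ U : Subgroup X, U.Normal → IsPGroup 2 U → U = ⊥) : Bd X 27 := by
  classical
  have : Fact (Nat.Prime 2) := ⟨Nat.prime_two⟩
  have h72 : Nat.card X ≤ 72 :=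
    (card_le_table (p := 2) (by simp) (K := ZMod 2) (e := 1) (m := 4) (by simp) le_rfl
      (by simp [lim]) (by norm_num) f hf hO).trans (by decide)
  obtain ⟨hcases, hab⟩ := fitting_card_four f hf hO
  set F := fittingSubgroup X with hF
  have hFn : F.Normal := Cores.fittingSubgroup_normal X
  have hC : Subgroup.centralizer (F : Set X) ≤ F := Cores.centralizer_fittingSubgroup_le
  have hidx : F.index ∣ Nat.card (MulAut F) := by
    have h := index_centralizer_dvd_mulAut F
    rwa [le_antisymm hC (fun a ha => Subgroup.mem_centralizer_iff.mpr fun b hb => hab b hb a ha)] at h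
  have hcX := F.card_mul_index
  have hprime : ∀ r, r.Prime → Nat.card F = r → F.index ≤ r - 1 := fun r hr h => by
    have := Fact.mk hr
    have := isCyclic_of_prime_card (p := r) h
    have h1 := Nat.le_of_dvd Nat.card_pos hidx
    rwa [IsCyclic.card_mulAut, h, Nat.totient_prime hr] at h1
  intro Y
  by_cases hY : Nat.card Y ≤ 27
  · exact card_conjClasses_le_card.trans hY
  push Not at hY
  have hYX : Nat.card Y ≤ Nat.card X := Y.card_le_card_group
  have hF7 : Nat.card F = 7 ∧ F.index ≤ 6 ∨ Nat.card F = 9 ∨ Nat.card F = 15 := by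
    rcases hcases with h | h | h | h | h | h
    · have : IsCyclic F := @isCyclic_of_subsingleton _ _ (Nat.card_eq_one_iff_unique.mp h).1
      have h1 := Nat.le_of_dvd Nat.card_pos hidx
      rw [IsCyclic.card_mulAut, h, Nat.totient_one] at h1
      rw [h] at hcX; omega
    · have := hprime 3 (by norm_num) h; rw [h] at hcX; omega
    · have := hprime 5 (by norm_num) h; rw [h] at hcX; omega
    · exact Or.inl ⟨h, hprime 7 (by norm_num) h⟩
    · exact Or.inr (Or.inl h)
    · exact Or.inr (Or.inr h)
  have hYn : Nat.card Y = Nat.card (F.subgroupOf Y) * (F.subgroupOf Y).index :=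
    (F.subgroupOf Y).card_mul_index.symm
  have hj : (F.subgroupOf Y).index ≤ F.index :=
    Nat.le_of_dvd (Nat.pos_of_ne_zero Subgroup.index_ne_zero_of_finite)
      (Subgroup.relIndex_dvd_index_of_normal F Y)
  have hFY : F ≤ Y := by
    by_contra hne
    have hlt : Nat.card (F.subgroupOf Y) < Nat.card F := by
      rw [Nat.card_congr ((F.subgroupOf Y).equivMapOfInjective _ Y.subtype_injective).toEquiv,
        Subgroup.subgroupOf_map_subtype]
      refine lt_of_le_of_ne (Subgroup.card_le_of_le inf_le_left) fun h => hne ?_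
      exact inf_eq_left.mp (Subgroup.eq_of_le_of_card_ge inf_le_left h.ge)
    have hd : Nat.card (F.subgroupOf Y) ∣ Nat.card F := by
      rw [Nat.card_congr ((F.subgroupOf Y).equivMapOfInjective _ Y.subtype_injective).toEquiv,
        Subgroup.subgroupOf_map_subtype]
      exact Subgroup.card_dvd_of_le inf_le_left
    have hmul := Nat.mul_le_mul_left (Nat.card (F.subgroupOf Y)) hj
    rcases hF7 with ⟨h, h6⟩ | h | h <;> rw [h] at hlt hd hcX <;>
      interval_cases hh : Nat.card (F.subgroupOf Y) <;> omega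
  set N := F.subgroupOf Y with hN
  have hNc : Nat.card N = Nat.card F := Nat.card_congr (Subgroup.subgroupOfEquivOfLe hFY).toEquiv
  have hCN : Subgroup.centralizer (N : Set Y) = N := by
    refine le_antisymm (fun y hy => ?_) fun y hy => Subgroup.mem_centralizer_iff.mpr fun b hb =>
      Subtype.ext (hab b hb y hy)
    refine Subgroup.mem_subgroupOf.mpr (hC (Subgroup.mem_centralizer_iff.mpr fun b hb => ?_))
    exact congrArg Subtype.val (Subgroup.mem_centralizer_iff.mp hy ⟨b, hFY hb⟩ hb)
  have hNtop : N ≠ ⊤ := fun h => by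
    rw [h, Subgroup.index_top, mul_one] at hYn
    rw [h] at hNc
    rcases hF7 with ⟨h', -⟩ | h' | h' <;> omega
  have hfix : ∀ y ∉ N, Nat.card (Subgroup.centralizer ({y} : Set Y) ⊓ N : Subgroup Y) ≤
      if Nat.card F = 7 then 1 else if Nat.card F = 9 then 3 else 5 := by
    intro y hy
    have hd := Subgroup.card_dvd_of_le
      (inf_le_right : Subgroup.centralizer ({y} : Set Y) ⊓ N ≤ N)
    have hne : Nat.card (Subgroup.centralizer ({y} : Set Y) ⊓ N : Subgroup Y) ≠ Nat.card N := by
      intro h
      have h' := Subgroup.eq_of_le_of_card_ge inf_le_right h.ge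
      refine hy (hCN.le (Subgroup.mem_centralizer_iff.mpr fun b hb => ?_))
      exact Subgroup.mem_centralizer_singleton_iff.mp (h'.ge hb).1
    have hle := Nat.le_of_dvd Nat.card_pos hd
    rw [hNc] at hd hne hle
    generalize Nat.card (Subgroup.centralizer ({y} : Set Y) ⊓ N : Subgroup Y) = e at hd hne hle ⊢
    rcases hF7 with ⟨h', -⟩ | h' | h' <;> rw [h'] at hd hne hle ⊢ <;>
      interval_cases e <;> first | omega | norm_num at *
  have hk := class_count_of_abelian N hfix hNtop
  have hjle : N.index ≤ F.index := hj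
  rw [hNc] at hk hYn
  rcases hF7 with ⟨h', h6⟩ | h' | h' <;> rw [h'] at hk hYn hcX <;> simp at hk <;> omega

end CfsgLib.SolvableLinear
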