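import Mathlib
import Cfsg.Agent.Lib.SolvableLinear.Small
import Cfsg.Agent.Lib.SolvableLinear.IndexBound

/-!
Primitive solvable linear groups: class numbers of subgroups of the quotient by the Fitting
subgroup.
-/

set_option autoImplicit false
set_option linter.style.haveILetI false
set_option linter.unusedSectionVars false

namespace CfsgLib.SolvableLinear

open Module Cfsg CfsgLib.ClassLower CfsgLib.ClassLowerSharp

universe u v w

variable {k : Type w} [Field k] {H : Type u} [Group H] [Finite H] {V : Type v} [AddCommGroup V]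
  [Module k V] {ρ : H →* Module.End k V}

/-- If the Fitting subgroup modulo scalars is a `q`-group, the quotient by the Fitting subgroup has
no normal `q`-subgroup. -/
theorem quot_no_prime (hρ : IsPrim ρ) {q i : ℕ} (hq : q.Prime)
    (hN : (scalars ρ).relIndex (fittingSubgroup H) = q ^ i) [(fittingSubgroup H).Normal] :
    ∀ U : Subgroup (H ⧸ fittingSubgroup H), U.Normal → IsPGroup q U → U = ⊥ := by
  intro U hU hUp
  obtain ⟨φ, -, hpow, -⟩ := hρ.exists_act
  have hle : U.comap (QuotientGroup.mk' (fittingSubgroup H)) ≤ fittingSubgroup H := by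
    refine hρ.le_fitting_of_pGroup hq _ fun g hg => ?_
    obtain ⟨j, hj⟩ := hUp ⟨_, hg⟩
    have hF : g ^ q ^ j ∈ fittingSubgroup H := by
      rw [← QuotientGroup.eq_one_iff, QuotientGroup.mk_pow]
      exact congrArg Subtype.val hj
    refine ⟨j + i, ?_⟩
    rw [pow_add, pow_mul]
    refine (hpow ⟨_, hF⟩ (q ^ i)).mp ?_
    rw [← hN]
    exact pow_card_eq_one' (G := FitQ ρ)
  rw [eq_bot_iff]
  intro u hu
  obtain ⟨g, rfl⟩ := QuotientGroup.mk_surjective u
  exact Subgroup.mem_bot.mpr ((QuotientGroup.eq_one_iff g).mpr (hle hu))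

/-- The quotient by the Fitting subgroup acts faithfully on the elements of order dividing `q`. -/
theorem exists_end_prime (hρ : IsPrim ρ) {q i : ℕ} [hq : Fact q.Prime]
    (hN : (scalars ρ).relIndex (fittingSubgroup H) = q ^ i) [(fittingSubgroup H).Normal] :
    ∃ f : H ⧸ fittingSubgroup H →* Module.End (ZMod q) (Fin i → ZMod q),
      Function.Injective f := by
  obtain ⟨φ, hker, -, -⟩ := hρ.exists_act
  letI : CommGroup (FitQ ρ) := { (inferInstance : Group (FitQ ρ)) with mul_comm := hρ.fitQ_comm }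
  let W : Subgroup (FitQ ρ) := (powMonoidHom q).ker
  let res : MulAut (FitQ ρ) →* MulAut W :=
    { toFun := fun σ =>
        { toFun := fun w => ⟨σ w, by
            show σ (w : FitQ ρ) ^ q = 1
            rw [← map_pow, show (w : FitQ ρ) ^ q = 1 from w.2, map_one]⟩
          invFun := fun w => ⟨σ.symm w, by
            show σ.symm (w : FitQ ρ) ^ q = 1
            rw [← map_pow, show (w : FitQ ρ) ^ q = 1 from w.2, map_one]⟩
          left_inv := fun w => Subtype.ext (σ.symm_apply_apply w)
          right_inv := fun w => Subtype.ext (σ.apply_symm_apply w)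
          map_mul' := fun a b => Subtype.ext (map_mul σ (a : FitQ ρ) b) }
      map_one' := MulEquiv.ext fun w => rfl
      map_mul' := fun a b => MulEquiv.ext fun w => rfl }
  have hcard : Nat.card (FitQ ρ) = q ^ i := hN
  obtain ⟨g, hg⟩ := exists_hom_end (q := q) (W := W) (fun w => Subtype.ext w.2) (N := i)
    ((Subgroup.card_le_card_group W).trans hcard.le)
  let ψ : H ⧸ fittingSubgroup H →* MulAut (FitQ ρ) :=
    QuotientGroup.lift _ φ (fun x hx => by rwa [hker])
  have hψ : Function.Injective ψ := by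
    rw [injective_iff_map_eq_one]
    intro z hz
    obtain ⟨x, rfl⟩ := QuotientGroup.mk_surjective z
    exact (QuotientGroup.eq_one_iff x).mpr (hker ▸ MonoidHom.mem_ker.mpr hz)
  refine ⟨g.comp (res.comp ψ), hg.comp ?_⟩
  rw [← MonoidHom.ker_eq_bot_iff]
  refine quot_no_prime hρ hq.out hN _ inferInstance ?_
  rintro ⟨x, hx⟩
  obtain ⟨j, n, hn, hjn⟩ := Nat.exists_eq_pow_mul_and_not_dvd (orderOf_pos x).ne' q hq.out.ne_one
  refine ⟨j, Subtype.ext ?_⟩
  show x ^ q ^ j = 1
  have hxn : (x ^ q ^ j) ^ n = 1 := by rw [← pow_mul, ← hjn, pow_orderOf_eq_one]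
  have hfix : ∀ w : FitQ ρ, w ^ q = 1 → ψ (x ^ q ^ j) w = w := fun w hw => by
    have h1 : res (ψ x) = 1 := hx
    have h2 : res (ψ (x ^ q ^ j)) = 1 := by rw [map_pow, map_pow, h1, one_pow]
    exact congrArg Subtype.val (congrArg (fun σ : MulAut W => σ ⟨w, hw⟩) h2)
  refine hψ ?_
  rw [map_one]
  generalize hσ : ψ (x ^ q ^ j) = σ at hfix
  have hσn : σ ^ n = 1 := by rw [← hσ, ← map_pow, hxn, map_one]
  have key : ∀ l : ℕ, ∀ a : FitQ ρ, a ^ q ^ l = 1 → σ a = a := by
    intro l
    induction l with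
    | zero => intro a ha; rw [pow_zero, pow_one] at ha; rw [ha, map_one]
    | succ l ih =>
      intro a ha
      have h2 : σ (a ^ q) = a ^ q := ih _ (by rw [← pow_mul, ← pow_succ']; exact ha)
      obtain ⟨w, hw⟩ : ∃ w, w = a⁻¹ * σ a := ⟨_, rfl⟩
      have hwq : w ^ q = 1 := by rw [hw, mul_pow, ← map_pow, h2, inv_pow, inv_mul_cancel]
      have hpow : ∀ t : ℕ, (σ ^ t) a = a * w ^ t := by
        intro t
        induction t with
        | zero => simp
        | succ t iht =>
          rw [pow_succ', MulAut.mul_apply, iht, map_mul, map_pow, hfix w hwq, hw, ← hw,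
            pow_succ', ← mul_assoc, hw, mul_inv_cancel_left]
      have h := hpow n
      rw [hσn, MulAut.one_apply, left_eq_mul] at h
      have hg1 := pow_gcd_eq_one.mpr ⟨hwq, h⟩
      rw [((Nat.Prime.coprime_iff_not_dvd hq.out).mpr hn).gcd_eq_one, pow_one, hw,
        inv_mul_eq_one] at hg1
      exact hg1.symm
  exact MulEquiv.ext fun a => key i a (by rw [← hcard]; exact pow_card_eq_one')

/-- The bound for the quotient by the Fitting subgroup. -/
theorem bd_quot_fitting [FiniteDimensional k V] (hρ : IsPrim ρ) [(fittingSubgroup H).Normal] :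
    Bd (H ⧸ fittingSubgroup H) (3 ^ (finrank k V - 1)) := by
  classical
  have : Group.IsSolvable H := hρ.solv
  obtain ⟨s, hs, hs1, hs2, -⟩ := hρ.relIndex_facts
  refine Bd.mono ?_ (Nat.pow_le_pow_right (by norm_num) (show s - 1 ≤ finrank k V - 1 by omega))
  have htab : ∀ (q i B : ℕ), Fact q.Prime → q ∈ [2, 3] → i ≤ lim q → 1 ≤ i → s * s = q ^ i →
      tb q 1 i ≤ B → Bd (H ⧸ fittingSubgroup H) B := by
    intro q i B hq hmem hlim hi hsq hB
    have hN : (scalars ρ).relIndex (fittingSubgroup H) = q ^ i := by rw [hs, hsq]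
    obtain ⟨f, hf⟩ := exists_end_prime hρ hN
    exact Bd.of_card ((card_le_table (p := q) hmem (K := ZMod q) (e := 1) (by rw [Nat.card_zmod,
      pow_one]) le_rfl (by rwa [one_mul]) hi f hf (quot_no_prime hρ hq.out hN)).trans hB)
  have htwo : ∀ (q : ℕ), Fact q.Prime → s = q → (q - 1) + (q ^ 2 - 1) - 1 ≤ 3 ^ (q - 1) →
      Bd (H ⧸ fittingSubgroup H) (3 ^ (q - 1)) := by
    intro q hq hsq hB
    have hN : (scalars ρ).relIndex (fittingSubgroup H) = q ^ 2 := by rw [hs, hsq, pow_two]
    obtain ⟨f, hf⟩ := exists_end_prime hρ hN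
    exact (bd_two f hf).mono hB
  by_cases h2 : s = 2
  · subst h2; exact htwo 2 ⟨Nat.prime_two⟩ rfl (by norm_num)
  by_cases h3 : s = 3
  · subst h3; exact htwo 3 ⟨Nat.prime_three⟩ rfl (by norm_num)
  by_cases h5 : s = 5
  · subst h5; exact htwo 5 ⟨by norm_num⟩ rfl (by norm_num)
  by_cases h4 : s = 4
  · subst h4
    have : Fact (Nat.Prime 2) := ⟨Nat.prime_two⟩
    have hN : (scalars ρ).relIndex (fittingSubgroup H) = 2 ^ 4 := by rw [hs]; norm_num
    obtain ⟨f, hf⟩ := exists_end_prime hρ hN
    exact bd_four f hf (quot_no_prime hρ Nat.prime_two hN)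
  by_cases h8 : s = 8
  · subst h8
    exact htab 2 6 _ ⟨Nat.prime_two⟩ (by simp) (by decide) (by norm_num) (by norm_num) (by decide)
  by_cases h16 : s = 16
  · subst h16
    exact htab 2 8 _ ⟨Nat.prime_two⟩ (by simp) (by decide) (by norm_num) (by norm_num) (by decide)
  by_cases h32 : s = 32
  · subst h32
    exact htab 2 10 _ ⟨Nat.prime_two⟩ (by simp) (by decide) (by norm_num) (by norm_num) (by decide)
  by_cases h9 : s = 9
  · subst h9
    exact htab 3 4 _ ⟨Nat.prime_three⟩ (by simp) (by decide) (by norm_num) (by norm_num) (by decide)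
  refine Bd.of_card ?_
  show (fittingSubgroup H).index ≤ _
  have hq := hρ.index_le_qb_value hs
  rw [hρ.index_scalars_eq, hs] at hq
  rcases eq_or_lt_of_le hs1 with rfl | hs1'
  · rw [qb, if_pos (by norm_num)] at hq
    simpa using hq
  · exact Nat.le_of_mul_le_mul_left (hq.trans (qb_le_three (by omega) h8 h9 h16 h32)) (by positivity)

end CfsgLib.SolvableLinear
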