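import Mathlib
import Cfsg.Agent.Lib.SolvableLinear.Prim

/-!
Solvable linear groups in characteristic zero: class numbers of subgroups of the quotient by the
Fitting subgroup.
-/

set_option autoImplicit false
set_option linter.style.haveILetI false
set_option linter.unusedSectionVars false

namespace CfsgLib.SolvableLinear

open Module Cfsg CfsgLib.ClassLower CfsgLib.ClassLowerSharp

universe u v w

theorem Bd.of_surjective {G : Type u} [Group G] [Finite G] {X : Type v} [Group X] (f : G →* X)
    (hf : Function.Surjective f) {N : ℕ} (h : Bd G N) : Bd X N := fun Y =>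
  (Nat.card_le_card_of_surjective _ (ConjClasses.map_surjective (f := f.subgroupComap Y)
    (f.subgroupComap_surjective_of_surjective Y hf))).trans (h (Y.comap f))

/-- The image of the Fitting subgroup under a surjective homomorphism. -/
theorem fitting_le_comap {H : Type u} [Group H] [Finite H] {Q : Type v} [Group Q] [Finite Q]
    (f : H →* Q) (hf : Function.Surjective f) :
    fittingSubgroup H ≤ (fittingSubgroup Q).comap f := by
  have := Cores.fittingSubgroup_normal H
  have : ((fittingSubgroup H).map f).Normal := Subgroup.Normal.map inferInstance f hf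
  have hnil : Group.IsNilpotent (fittingSubgroup H) := Cores.isNilpotent_fittingSubgroup
  refine Subgroup.map_le_iff_le_comap.mp (Cores.le_fittingSubgroup ?_)
  exact Group.nilpotent_of_surjective (f.subgroupMap (fittingSubgroup H))
    (f.subgroupMap_surjective (fittingSubgroup H))

/-- An extension, in terms of the quotients by the Fitting subgroups. -/
theorem bd_fitting_extend {H : Type u} [Group H] [Finite H] [(fittingSubgroup H).Normal]
    {Q : Type v} [Group Q] [Finite Q] (f : H →* Q) [(fittingSubgroup f.ker).Normal] {a b : ℕ}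
    (ha : Bd (f.ker ⧸ fittingSubgroup f.ker) a) (hb : Bd f.range b) :
    Bd (H ⧸ fittingSubgroup H) (a * b) := by
  have hnil : Group.IsNilpotent (fittingSubgroup f.ker) := Cores.isNilpotent_fittingSubgroup
  have : (fittingSubgroup f.ker).Characteristic := Cores.fittingSubgroup_characteristic f.ker
  have hle : fittingSubgroup f.ker ≤ (fittingSubgroup H).comap f.ker.subtype := by
    refine Subgroup.map_le_iff_le_comap.mp (Cores.le_fittingSubgroup ?_)
    exact Group.nilpotent_of_surjective (f.ker.subtype.subgroupMap (fittingSubgroup f.ker))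
      (f.ker.subtype.subgroupMap_surjective _)
  let π := QuotientGroup.mk' (fittingSubgroup H)
  let K' : Subgroup (H ⧸ fittingSubgroup H) := f.ker.map π
  have : K'.Normal := Subgroup.Normal.map inferInstance π (QuotientGroup.mk'_surjective _)
  refine Bd.extend' K' ?_ ?_
  · refine Bd.of_surjective (QuotientGroup.lift (fittingSubgroup f.ker) (π.subgroupMap f.ker)
      fun x hx => Subtype.ext ((QuotientGroup.eq_one_iff (x : H)).mpr (hle hx))) ?_ ha
    intro y
    obtain ⟨x, rfl⟩ := π.subgroupMap_surjective f.ker y
    exact ⟨QuotientGroup.mk x, rfl⟩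
  · have hb' : Bd (H ⧸ f.ker) b := hb.congr (QuotientGroup.quotientKerEquivRange f)
    refine Bd.of_surjective (QuotientGroup.map f.ker K' π fun x hx =>
      Subgroup.mem_map_of_mem π hx) ?_ hb'
    intro y
    obtain ⟨y, rfl⟩ := QuotientGroup.mk_surjective y
    obtain ⟨x, rfl⟩ := QuotientGroup.mk_surjective y
    exact ⟨QuotientGroup.mk x, rfl⟩

/-- A separating family of surjections. -/
theorem bd_fitting_family {H : Type u} [Group H] [Finite H] [(fittingSubgroup H).Normal]
    {ι : Type w} [Fintype ι] {G : ι → Type v} [∀ i, Group (G i)] [∀ i, Finite (G i)]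
    [∀ i, (fittingSubgroup (G i)).Normal] (f : ∀ i, H →* G i)
    (hf : ∀ i, Function.Surjective (f i)) (hsep : ∀ h, (∀ i, f i h = 1) → h = 1) {a : ι → ℕ}
    (ha : ∀ i, Bd (G i ⧸ fittingSubgroup (G i)) (a i)) :
    Bd (H ⧸ fittingSubgroup H) (∏ i, a i) := by
  let N : Subgroup H := ⨅ i, (fittingSubgroup (G i)).comap (f i)
  have : N.Normal := Subgroup.normal_iInf_normal fun i => inferInstance
  have hN : N = fittingSubgroup H := by
    refine le_antisymm (Cores.le_fittingSubgroup ?_) (le_iInf fun i => fitting_le_comap (f i) (hf i))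
    let φ : N →* ∀ i, fittingSubgroup (G i) := MonoidHom.pi fun i =>
      ((f i).comp N.subtype).codRestrict _ fun x => (Subgroup.mem_iInf.mp x.2) i
    have hφ : Function.Injective φ := (injective_iff_map_eq_one _).mpr fun x hx =>
      Subtype.ext (hsep x fun i => congrArg Subtype.val (congrFun hx i))
    have : ∀ i, Group.IsNilpotent (fittingSubgroup (G i)) := fun i =>
      Cores.isNilpotent_fittingSubgroup
    exact Group.nilpotent_of_mulEquiv (MonoidHom.ofInjective hφ).symm
  let g : ∀ i, H ⧸ fittingSubgroup H →* G i ⧸ fittingSubgroup (G i) := fun i =>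
    QuotientGroup.map _ _ (f i) (fitting_le_comap (f i) (hf i))
  refine Bd.of_family g (fun q hq => ?_) ha
  obtain ⟨h, rfl⟩ := QuotientGroup.mk_surjective q
  refine (QuotientGroup.eq_one_iff h).mpr (hN.le (Subgroup.mem_iInf.mpr fun i => ?_))
  exact (QuotientGroup.eq_one_iff (f i h)).mp (hq i)

/-- A complement of an invariant subspace. -/
theorem exists_invariant_compl {k : Type w} [Field k] [CharZero k] {H : Type u} [Group H] [Finite H]
    {V : Type v} [AddCommGroup V] [Module k V] (ρ : H →* Module.End k V) (W : Submodule k V)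
    (hW : ∀ g, ∀ x ∈ W, ρ g x ∈ W) :
    ∃ W' : Submodule k V, IsCompl W W' ∧ ∀ g, ∀ x ∈ W', ρ g x ∈ W' := by
  classical
  let _ := Fintype.ofFinite H
  obtain ⟨W0, hW0⟩ := Submodule.exists_isCompl W
  let p0 : Module.End k V := W.subtype ∘ₗ W.projectionOnto W0 hW0
  let π : Module.End k V := (Nat.card H : k)⁻¹ • ∑ g : H, ρ g * p0 * ρ g⁻¹
  have hne : (Nat.card H : k) ≠ 0 := Nat.cast_ne_zero.mpr Nat.card_pos.ne'
  have hmem : ∀ x, π x ∈ W := fun x => by
    simp only [π, LinearMap.smul_apply, LinearMap.sum_apply]
    exact W.smul_mem _ (sum_mem fun g _ => hW g _ (Submodule.coe_mem _))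
  have hfix : ∀ x ∈ W, π x = x := fun x hx => by
    have h : ∀ g : H, (ρ g * p0 * ρ g⁻¹) x = x := fun g => by
      rw [Module.End.mul_apply, Module.End.mul_apply]
      have hp : p0 (ρ g⁻¹ x) = ρ g⁻¹ x :=
        congrArg Subtype.val (Submodule.projectionOnto_apply_left hW0 ⟨ρ g⁻¹ x, hW g⁻¹ x hx⟩)
      rw [hp, ← Module.End.mul_apply, rho_mul_inv, Module.End.one_apply]
    simp only [π, LinearMap.smul_apply, LinearMap.sum_apply, h, Finset.sum_const, Finset.card_univ]
    rw [← Nat.card_eq_fintype_card, ← Nat.cast_smul_eq_nsmul k, smul_smul, inv_mul_cancel₀ hne,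
      one_smul]
  have hcomm : ∀ g, ρ g * π = π * ρ g := fun g => by
    simp only [π, mul_smul_comm, smul_mul_assoc, Finset.mul_sum, Finset.sum_mul]
    congr 1
    refine Fintype.sum_equiv (Equiv.mulLeft g) _ _ fun x => ?_
    rw [Equiv.coe_mulLeft]
    simp only [mul_inv_rev, map_mul, mul_assoc, rho_inv_mul, mul_one]
  refine ⟨LinearMap.ker π, ⟨?_, ?_⟩, fun g x hx => ?_⟩
  · rw [Submodule.disjoint_def]
    exact fun x hx hx' => by rw [← hfix x hx]; exact LinearMap.mem_ker.mp hx'
  · rw [codisjoint_iff, eq_top_iff]
    intro x _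
    refine Submodule.mem_sup.mpr ⟨π x, hmem x, x - π x, ?_, by abel⟩
    rw [LinearMap.mem_ker, map_sub, hfix _ (hmem x), sub_self]
  · rw [LinearMap.mem_ker] at hx ⊢
    rw [← Module.End.mul_apply, ← hcomm, Module.End.mul_apply, hx, map_zero]

/-- The induction. -/
theorem bd_fitting_aux {k : Type w} [Field k] [CharZero k] [IsAlgClosed k] (d : ℕ) :
    ∀ (H : Type u) [Group H] [Finite H] [Group.IsSolvable H] [(fittingSubgroup H).Normal]
    (V : Type v) [AddCommGroup V] [Module k V] [FiniteDimensional k V] (ρ : H →* Module.End k V),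
    Function.Injective ρ → finrank k V = d → 1 ≤ d →
      Bd (H ⧸ fittingSubgroup H) (3 ^ (d - 1)) := by
  induction d using Nat.strong_induction_on with
  | _ d IH =>
  intro H _ _ _ _ V _ _ _ ρ hinj hd hd1
  classical
  have : Nontrivial V := Module.nontrivial_of_finrank_pos (R := k) (by omega)
  -- the bound for the image on an invariant subspace
  have hsub : ∀ {L : Type u} [Group L] [Finite L] [Group.IsSolvable L] (W : Submodule k V)
      (σ : L →* Module.End k W) [(fittingSubgroup (L ⧸ σ.ker)).Normal], 1 ≤ finrank k W →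
      finrank k W < d →
      Bd ((L ⧸ σ.ker) ⧸ fittingSubgroup (L ⧸ σ.ker)) (3 ^ (finrank k W - 1)) := by
    intro L _ _ _ W σ _ h1 hlt
    refine IH _ hlt (L ⧸ σ.ker) W (QuotientGroup.lift σ.ker σ le_rfl) ?_ rfl h1
    rw [injective_iff_map_eq_one]
    intro q hq
    induction q using QuotientGroup.induction_on with | _ g =>
    exact (QuotientGroup.eq_one_iff _).mpr (MonoidHom.mem_ker.mpr hq)
  by_cases hirr : IsIrr ρ
  · rcases irr_cases hinj hirr with hP | ⟨ι, _, hB⟩ | hX
    · exact hd ▸ bd_quot_fitting hP
    · obtain ⟨B⟩ := hB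
      have hn : ∀ i, (fittingSubgroup (B.act.ker ⧸ (B.rep i).ker)).Normal := fun i =>
        Cores.fittingSubgroup_normal _
      have : (fittingSubgroup B.act.ker).Normal := Cores.fittingSubgroup_normal _
      have hK : Bd (B.act.ker ⧸ fittingSubgroup B.act.ker)
          (∏ i, 3 ^ (finrank k (B.space i) - 1)) :=
        bd_fitting_family (fun i => QuotientGroup.mk' (B.rep i).ker)
          (fun i => QuotientGroup.mk'_surjective _)
          (fun h hh => B.separating hinj h fun i =>
            MonoidHom.mem_ker.mp ((QuotientGroup.eq_one_iff h).mp (hh i)))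
          fun i => hsub (B.space i) (B.rep i) (B.one_le_finrank i) (hd ▸ B.finrank_lt i)
      refine (bd_fitting_extend B.act hK (Bd.of_card B.card_range_le_three)).mono (le_of_eq ?_)
      rw [Finset.prod_pow_eq_pow_sum, ← pow_add, B.exponent_sum, hd]
    · exfalso
      obtain ⟨X⟩ := hX
      let _ : Field X.E := X.field.toField
      have : Algebra.IsIntegral k X.E := Algebra.IsIntegral.of_finite k X.E
      have h1 : finrank k X.E = 1 := by
        have hb : Function.Bijective (algebraMap k X.E) :=
          IsAlgClosed.algebraMap_bijective_of_isIntegral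
        rw [← (AlgEquiv.ofBijective (Algebra.ofId k X.E) hb).toLinearEquiv.finrank_eq,
          Module.finrank_self]
      have := X.two
      omega
  · obtain ⟨W, hWinv, hW0, hW1⟩ : ∃ W : Submodule k V, (∀ g, ∀ x ∈ W, ρ g x ∈ W) ∧
        W ≠ ⊥ ∧ W ≠ ⊤ := by
      unfold IsIrr at hirr
      push Not at hirr
      exact hirr inferInstance
    obtain ⟨W', hc, hW'⟩ := exists_invariant_compl ρ W hWinv
    have hW'0 : W' ≠ ⊥ := fun h => hW1 (by simpa [h] using hc.sup_eq_top)
    have hW'1 : W' ≠ ⊤ := fun h => hW0 (by simpa [h] using hc.inf_eq_bot)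
    let S : Bool → Submodule k V := fun b => if b then W else W'
    have hS : ∀ b g, ∀ x ∈ S b, ρ g x ∈ S b := by
      intro b
      cases b
      · exact hW'
      · exact hWinv
    let σ : ∀ b, H →* Module.End k (S b) := fun b =>
      { toFun := fun g => (ρ g).restrict (hS b g)
        map_one' := LinearMap.ext fun x => Subtype.ext (by simp)
        map_mul' := fun g h => LinearMap.ext fun x => Subtype.ext (by simp) }
    have hn : ∀ b, (fittingSubgroup (H ⧸ (σ b).ker)).Normal := fun b =>
      Cores.fittingSubgroup_normal _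
    have hS1 : ∀ b, 1 ≤ finrank k (S b) := by
      intro b
      cases b
      · exact Submodule.one_le_finrank_iff.mpr hW'0
      · exact Submodule.one_le_finrank_iff.mpr hW0
    have hS2 : ∀ b, finrank k (S b) < d := by
      intro b
      cases b
      · exact hd ▸ Submodule.finrank_lt hW'1
      · exact hd ▸ Submodule.finrank_lt hW1
    refine Bd.mono (bd_fitting_family (fun b => QuotientGroup.mk' (σ b).ker)
      (fun b => QuotientGroup.mk'_surjective _) (fun h hh => hinj ?_)
      fun b => hsub (S b) (σ b) (hS1 b) (hS2 b)) ?_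
    · rw [map_one]
      refine LinearMap.ext fun x => ?_
      obtain ⟨y, hy, z, hz, rfl⟩ := Submodule.mem_sup.mp (hc.sup_eq_top.ge (Submodule.mem_top (x := x)))
      have e1 := congrArg Subtype.val (LinearMap.congr_fun
        (MonoidHom.mem_ker.mp ((QuotientGroup.eq_one_iff h).mp (hh true))) ⟨y, hy⟩)
      have e2 := congrArg Subtype.val (LinearMap.congr_fun
        (MonoidHom.mem_ker.mp ((QuotientGroup.eq_one_iff h).mp (hh false))) ⟨z, hz⟩)
      rw [map_add]
      exact congrArg₂ (· + ·) e1 e2
    · have hsum := Submodule.finrank_add_eq_of_isCompl hc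
      have h1 := hS1 true
      have h2 := hS1 false
      rw [Fintype.prod_bool, ← pow_add]
      refine Nat.pow_le_pow_right (by norm_num) ?_
      change 1 ≤ finrank k W at h1
      change 1 ≤ finrank k W' at h2
      change finrank k W - 1 + (finrank k W' - 1) ≤ d - 1
      omega

end CfsgLib.SolvableLinear
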