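import Mathlib
import Cfsg.Agent.S4201
import Cfsg.Agent.S4958
import Cfsg.Agent.Lib.SolvableLinear.BlocksAPI
import Cfsg.Agent.Lib.RealChar.MinimalBlock
import Cfsg.Agent.Lib.Cores.Fitting

/-!
Class numbers of `V ⋊ H` for solvable linear groups `H` in characteristic `p` without normal
`p`-subgroups.
-/

set_option autoImplicit false
set_option linter.style.haveILetI false
set_option linter.unusedSectionVars false

namespace CfsgLib.SolvableLinear.KGV

open Module CfsgLib.ClassLower CfsgLib.ClassLowerSharp
open SemidirectProduct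
open scoped commutatorElement

universe u

variable {K : Type} [Field K] {H : Type u} [Group H] {V : Type} [AddCommGroup V] [Module K V]

/-- The action on the multiplicative copy of the space. -/
def act (ρ : H →* Module.End K V) : H →* MulAut (Multiplicative V) where
  toFun g :=
    { toFun := fun x => Multiplicative.ofAdd (ρ g (Multiplicative.toAdd x))
      invFun := fun x => Multiplicative.ofAdd (ρ g⁻¹ (Multiplicative.toAdd x))
      left_inv := fun x => by
        show Multiplicative.ofAdd (ρ g⁻¹ (ρ g (Multiplicative.toAdd x))) = x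
        rw [← Module.End.mul_apply, rho_inv_mul]; rfl
      right_inv := fun x => by
        show Multiplicative.ofAdd (ρ g (ρ g⁻¹ (Multiplicative.toAdd x))) = x
        rw [← Module.End.mul_apply, rho_mul_inv]; rfl
      map_mul' := fun x y => congrArg Multiplicative.ofAdd (map_add (ρ g) _ _) }
  map_one' := MulEquiv.ext fun x => by
    show Multiplicative.ofAdd (ρ 1 (Multiplicative.toAdd x)) = x
    rw [map_one]; rfl
  map_mul' g h := MulEquiv.ext fun x => by
    show Multiplicative.ofAdd (ρ (g * h) (Multiplicative.toAdd x)) =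
      Multiplicative.ofAdd (ρ g (ρ h (Multiplicative.toAdd x)))
    rw [map_mul]; rfl

theorem toAdd_act (ρ : H →* Module.End K V) (g : H) (x : Multiplicative V) :
    Multiplicative.toAdd (act ρ g x) = ρ g (Multiplicative.toAdd x) := rfl

/-- The affine group of a representation. -/
abbrev GV (ρ : H →* Module.End K V) := SemidirectProduct (Multiplicative V) H (act ρ)

theorem finite_GV [Finite H] [Finite V] (ρ : H →* Module.End K V) : Finite (GV ρ) :=
  haveI : Finite (Multiplicative V) := Finite.of_equiv V Multiplicative.ofAdd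
  Finite.of_equiv _ SemidirectProduct.equivProd.symm

/-- The class number of the affine group. -/
noncomputable def kk (ρ : H →* Module.End K V) : ℕ := Nat.card (ConjClasses (GV ρ))

theorem card_GV (ρ : H →* Module.End K V) : Nat.card (GV ρ) = Nat.card V * Nat.card H := by
  rw [Nat.card_congr SemidirectProduct.equivProd, Nat.card_prod, Nat.card_congr Multiplicative.toAdd]

/-- Trivial space and faithful action. -/
theorem kk_le_one [Finite H] [Subsingleton V] (ρ : H →* Module.End K V)
    (hinj : Function.Injective ρ) : kk ρ ≤ 1 := by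
  haveI := finite_GV ρ
  haveI : Subsingleton H := ⟨fun a b => hinj (LinearMap.ext fun x => Subsingleton.elim _ _)⟩
  refine (card_conjClasses_le_card (X := GV ρ)).trans ?_
  rw [card_GV, Nat.card_of_subsingleton (0 : V), Nat.card_of_subsingleton (1 : H)]

theorem card_conjClasses_quotient_ker {A B : Type*} [Group A] [Group B] [Finite A] (f : A →* B)
    (hf : Function.Surjective f) :
    Nat.card (ConjClasses A) ≤ Nat.card (ConjClasses f.ker) * Nat.card (ConjClasses B) := by
  refine (Cfsg.Agent.S4201.result f.ker).trans (Nat.mul_le_mul_left _ (le_of_eq ?_))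
  exact card_conjClasses_congr (QuotientGroup.quotientKerEquivOfSurjective f hf)

/-- A representation of a group, on the quotient by its kernel. -/
def kerRep (σ : H →* Module.End K V) : H ⧸ σ.ker →* Module.End K V :=
  QuotientGroup.lift σ.ker σ le_rfl

theorem kerRep_injective (σ : H →* Module.End K V) : Function.Injective (kerRep σ) := by
  intro a b h
  induction a using QuotientGroup.induction_on with | H a => ?_
  induction b using QuotientGroup.induction_on with | H b => ?_
  have h' : σ a = σ b := h
  refine QuotientGroup.eq.2 (MonoidHom.mem_ker.2 ?_)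
  rw [map_mul, ← h', rho_inv_mul]

/-- An invariant subspace splits the affine group. -/
theorem kk_split [Finite H] [Finite V] {H' : Type u} [Group H'] {V' : Type} [AddCommGroup V']
    [Module K V'] (ρ : H →* Module.End K V) (σ : H' →* Module.End K V') (f : V →ₗ[K] V')
    (hf : Function.Surjective f) (π : H →* H') (hπ : Function.Surjective π)
    (hequiv : ∀ g x, f (ρ g x) = σ (π g) (f x)) (W : Submodule K V) (hW : ∀ x, f x = 0 ↔ x ∈ W)
    (τ : π.ker →* Module.End K W) (hτ : ∀ (g : π.ker) (x : W), ((τ g x : W) : V) = ρ (g : H) x) :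
    kk ρ ≤ kk τ * kk σ := by
  haveI := finite_GV ρ
  let F : GV ρ →* GV σ := SemidirectProduct.map (AddMonoidHom.toMultiplicative f.toAddMonoidHom) π
    fun g => MonoidHom.ext fun x => congrArg Multiplicative.ofAdd (hequiv g (Multiplicative.toAdd x))
  have hFl : ∀ x, Multiplicative.toAdd (F x).left = f (Multiplicative.toAdd x.left) := fun x => rfl
  have hFr : ∀ x, (F x).right = π x.right := fun x => rfl
  have hFsurj : Function.Surjective F := by
    intro y
    obtain ⟨v, hv⟩ := hf (Multiplicative.toAdd y.left)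
    obtain ⟨g, hg⟩ := hπ y.right
    refine ⟨⟨Multiplicative.ofAdd v, g⟩, SemidirectProduct.ext ?_ hg⟩
    exact congrArg Multiplicative.ofAdd hv
  have hmem : ∀ x : F.ker, f (Multiplicative.toAdd x.1.left) = 0 ∧ π x.1.right = 1 := fun x => by
    have h := MonoidHom.mem_ker.1 x.2
    exact ⟨by rw [← hFl, h]; rfl, by rw [← hFr, h]; rfl⟩
  let e : F.ker ≃* GV τ :=
    { toFun := fun x => ⟨Multiplicative.ofAdd ⟨Multiplicative.toAdd x.1.left, (hW _).1 (hmem x).1⟩,
        ⟨x.1.right, (hmem x).2⟩⟩
      invFun := fun y => ⟨⟨Multiplicative.ofAdd ((Multiplicative.toAdd y.left : W) : V), y.right⟩,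
        MonoidHom.mem_ker.2 (SemidirectProduct.ext
          (congrArg Multiplicative.ofAdd ((hW _).2 (Multiplicative.toAdd y.left : W).2)) y.right.2)⟩
      left_inv := fun x => rfl
      right_inv := fun y => rfl
      map_mul' := fun x y => SemidirectProduct.ext (congrArg Multiplicative.ofAdd (Subtype.ext (by
        simp only [Subgroup.coe_mul, SemidirectProduct.mul_left, toAdd_mul, toAdd_act, Submodule.coe_add,
          hτ, toAdd_ofAdd]))) rfl }
  refine (card_conjClasses_quotient_ker F hFsurj).trans (Nat.mul_le_mul_right _ (le_of_eq ?_))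
  exact card_conjClasses_congr e

/-- A quotient of the linear group. -/
theorem kk_le_ker [Finite H] [Finite V] {Q : Type*} [Group Q] (ρ : H →* Module.End K V) (π : H →* Q)
    (hπ : Function.Surjective π) :
    kk ρ ≤ kk (ρ.comp π.ker.subtype) * Nat.card (ConjClasses Q) := by
  haveI := finite_GV ρ
  let F : GV ρ →* Q := π.comp SemidirectProduct.rightHom
  have hFsurj : Function.Surjective F := hπ.comp SemidirectProduct.rightHom_surjective
  let e : F.ker ≃* GV (ρ.comp π.ker.subtype) :=
    { toFun := fun x => ⟨x.1.left, ⟨x.1.right, x.2⟩⟩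
      invFun := fun y => ⟨⟨y.left, y.right⟩, y.right.2⟩
      left_inv := fun x => rfl
      right_inv := fun y => rfl
      map_mul' := fun x y => rfl }
  refine (card_conjClasses_quotient_ker F hFsurj).trans (Nat.mul_le_mul_right _ (le_of_eq ?_))
  exact card_conjClasses_congr e

theorem pCore_normal_bot {p : ℕ} {G : Type*} [Group G] (h : Cfsg.pCore p G = ⊥) {N : Subgroup G}
    [N.Normal] : Cfsg.pCore p N = ⊥ := by
  haveI := Cores.normal_map_subtype N (Cfsg.pCore p N)
  have h1 : (Cfsg.pCore p N).map N.subtype ≤ ⊥ :=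
    h ▸ Cores.le_pCore ((Cores.isPGroup_pCore p N).map N.subtype)
  rwa [le_bot_iff, Subgroup.map_eq_bot_iff_of_injective _ N.subtype_injective] at h1

section CharP

variable {p : ℕ} [hp : Fact p.Prime] [CharP K p]

theorem pCore_bot_of_irr [Finite H] {ρ : H →* Module.End K V} (hinj : Function.Injective ρ)
    (hirr : IsIrr ρ) : Cfsg.pCore p H = ⊥ := by
  set Q := Cfsg.pCore p H with hQ
  let W : Submodule K V := ⨅ q : Q, LinearMap.eqLocus (ρ (q : H)) LinearMap.id
  have hW : ∀ x, x ∈ W ↔ ∀ q : Q, ρ (q : H) x = x := fun x => by simp [W]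
  haveI := hirr.1
  have hinv : ∀ g, ∀ x ∈ W, ρ g x ∈ W := fun g x hx => by
    rw [hW] at hx ⊢
    intro q
    have h := hx ⟨g⁻¹ * (q : H) * g, by
      simpa using (inferInstance : Q.Normal).conj_mem _ q.2 g⁻¹⟩
    have h2 := congrArg (ρ g) h
    rw [← Module.End.mul_apply, ← map_mul] at h2
    rw [← Module.End.mul_apply, ← map_mul]
    simpa [mul_assoc] using h2
  rcases hirr.2 W hinv with hb | ht
  · obtain ⟨w, -, hw0, hw⟩ := CfsgLib.RealChar.MinimalBlock.exists_fixed_ne_zero
      (Cores.isPGroup_pCore p H) (ρ.comp Q.subtype) (W := (⊤ : Submodule K V)) top_ne_bot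
      (fun _ _ _ => trivial)
    exact absurd ((Submodule.mem_bot K).1 (hb ▸ (hW w).2 hw)) hw0
  · refine (Subgroup.eq_bot_iff_forall _).2 fun q hq => hinj ?_
    rw [map_one]
    exact LinearMap.ext fun x => (hW x).1 (ht ▸ Submodule.mem_top) ⟨q, hq⟩

/-- The bound in one dimension. -/
def BoundAt (p m : ℕ) : Prop :=
  ∀ (K : Type) [Field K] [CharP K p] (H : Type u) [Group H] [Finite H] [Group.IsSolvable H]
    (V : Type) [AddCommGroup V] [Module K V] [Finite V] (ρ : H →* Module.End K V),
    finrank K V = m → Function.Injective ρ → Cfsg.pCore p H = ⊥ →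
      kk ρ ≤ 3 ^ (m - 1) * Nat.card V

/-- Restriction to an invariant subspace along a subgroup. -/
def subRep (ρ : H →* Module.End K V) (A : Subgroup H) (W : Submodule K V)
    (hW : ∀ g ∈ A, ∀ x ∈ W, ρ g x ∈ W) : A →* Module.End K W where
  toFun g := (ρ (g : H)).restrict (hW g g.2)
  map_one' := LinearMap.ext fun x => Subtype.ext (by simp)
  map_mul' g h := LinearMap.ext fun x => Subtype.ext (by simp)

theorem subRep_apply (ρ : H →* Module.End K V) (A : Subgroup H) (W : Submodule K V)
    (hW : ∀ g ∈ A, ∀ x ∈ W, ρ g x ∈ W) (g : A) (x : W) :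
    ((subRep ρ A W hW g x : W) : V) = ρ (g : H) x := rfl

/-- The action on a quotient space. -/
def quotRep (ρ : H →* Module.End K V) (W : Submodule K V) (hW : ∀ g, ∀ x ∈ W, ρ g x ∈ W) :
    H →* Module.End K (V ⧸ W) where
  toFun g := W.mapQ W (ρ g) (hW g)
  map_one' := by
    refine Submodule.linearMap_qext W (LinearMap.ext fun x => ?_)
    simp
  map_mul' g h := by
    refine Submodule.linearMap_qext W (LinearMap.ext fun x => ?_)
    simp

theorem quotRep_mk (ρ : H →* Module.End K V) (W : Submodule K V)
    (hW : ∀ g, ∀ x ∈ W, ρ g x ∈ W) (g : H) (x : V) :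
    quotRep ρ W hW g (Submodule.Quotient.mk x) = Submodule.Quotient.mk (ρ g x) := rfl

/-- Splitting by a subspace, with bounds on both parts. -/
theorem kk_le_of_sub [Finite H] [Group.IsSolvable H] [Finite V] (ρ : H →* Module.End K V)
    (W : Submodule K V) (hW : ∀ g, ∀ x ∈ W, ρ g x ∈ W) {a b : ℕ}
    (ha : kk (subRep ρ (quotRep ρ W hW).ker W fun g _ => hW g) ≤ a)
    (hb : kk (kerRep (quotRep ρ W hW)) ≤ b) : kk ρ ≤ a * b := by
  set π := QuotientGroup.mk' (quotRep ρ W hW).ker with hπdef
  have hker : π.ker = (quotRep ρ W hW).ker := QuotientGroup.ker_mk' _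
  have h := kk_split ρ (kerRep (quotRep ρ W hW)) W.mkQ W.mkQ_surjective π
    (QuotientGroup.mk'_surjective _) (fun g x => rfl) W
    (fun x => Submodule.Quotient.mk_eq_zero W)
    (subRep ρ π.ker W fun g _ => hW g) (fun g x => rfl)
  rw [hker] at h
  exact h.trans (Nat.mul_le_mul ha hb)

theorem card_split [Finite V] (W : Submodule K V) :
    Nat.card V = Nat.card W * Nat.card (V ⧸ W) := by
  rw [Submodule.card_eq_card_quotient_mul_card W, mul_comm]

theorem p_smul_eq_zero (K : Type) [Field K] [CharP K p] [Module K V] (x : V) : p • x = 0 := by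
  rw [← Nat.cast_smul_eq_nsmul K, CharP.cast_eq_zero K p, zero_smul]

theorem three_pow_split {a b m : ℕ} (ha : 1 ≤ a) (hb : 1 ≤ b) (hab : a + b = m) :
    3 ^ (a - 1) * 3 ^ (b - 1) ≤ 3 ^ (m - 1) := by
  rw [← pow_add]; exact Nat.pow_le_pow_right (by norm_num) (by omega)

/-- The reducible case. -/
theorem bound_reducible [Finite H] [Group.IsSolvable H] [Finite V] {m : ℕ}
    (IH : ∀ j < m, BoundAt.{u} p j) (ρ : H →* Module.End K V) (hm : finrank K V = m)
    (hinj : Function.Injective ρ) (hcore : Cfsg.pCore p H = ⊥) [Nontrivial V] (hred : ¬ IsIrr ρ) :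
    kk ρ ≤ 3 ^ (m - 1) * Nat.card V := by
  haveI : Module.Finite K V := Module.Finite.of_finite
  haveI : Finite (Submodule K V) := Finite.of_injective _ SetLike.coe_injective
  obtain ⟨W0, hW0, hW0b, hW0t⟩ : ∃ W : Submodule K V, (∀ g, ∀ x ∈ W, ρ g x ∈ W) ∧ W ≠ ⊥ ∧ W ≠ ⊤ := by
    by_contra h
    push Not at h
    exact hred ⟨inferInstance, fun W hW => or_iff_not_imp_left.2 (h W hW)⟩
  obtain ⟨W, hW0W, ⟨hW, hWt⟩, hmax⟩ :=
    Set.Finite.exists_le_maximal (s := {W : Submodule K V | (∀ g, ∀ x ∈ W, ρ g x ∈ W) ∧ W ≠ ⊤})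
      (Set.toFinite _) (a := W0) ⟨hW0, hW0t⟩
  have hWb : W ≠ ⊥ := fun h => hW0b (le_bot_iff.1 (h ▸ hW0W))
  have ha1 : 1 ≤ finrank K W := Submodule.one_le_finrank_iff.2 hWb
  have hsum := Submodule.finrank_quotient_add_finrank W
  have hb1 : 1 ≤ finrank K (V ⧸ W) := by
    have := Submodule.finrank_lt hWt
    omega
  set σ := quotRep ρ W hW with hσ
  -- the kernel is faithful on the subspace
  haveI hLn : ∀ g : H, ∀ k : H, (k ∈ σ.ker ∧ ∀ x ∈ W, ρ k x = x) →
      (g * k * g⁻¹ ∈ σ.ker ∧ ∀ x ∈ W, ρ (g * k * g⁻¹) x = x) := fun g k hk =>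
    ⟨(inferInstance : σ.ker.Normal).conj_mem k hk.1 g, fun x hx => by
      rw [map_mul, map_mul, Module.End.mul_apply, Module.End.mul_apply, hk.2 _ (hW g⁻¹ x hx),
        ← Module.End.mul_apply, rho_mul_inv, Module.End.one_apply]⟩
  have hfaith : ∀ k ∈ σ.ker, (∀ x ∈ W, ρ k x = x) → k = 1 := by
    intro k hk hkW
    let L : Subgroup H :=
      { carrier := {k | k ∈ σ.ker ∧ ∀ x ∈ W, ρ k x = x}
        one_mem' := ⟨one_mem _, fun x _ => by simp⟩
        mul_mem' := fun {a b} ha hb => ⟨mul_mem ha.1 hb.1, fun x hx => by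
          rw [map_mul, Module.End.mul_apply, hb.2 x hx, ha.2 x hx]⟩
        inv_mem' := fun {a} ha => ⟨inv_mem ha.1, fun x hx => by
          conv_lhs => rw [← ha.2 x hx]
          rw [← Module.End.mul_apply, rho_inv_mul, Module.End.one_apply]⟩ }
    haveI : L.Normal := ⟨fun k hk g => hLn g k hk⟩
    have hL : IsPGroup p L := by
      intro g
      refine ⟨1, Subtype.ext (hinj (LinearMap.ext fun x => ?_))⟩
      have hd : ρ (g : H) x - x ∈ W := by
        have h := LinearMap.congr_fun (MonoidHom.mem_ker.1 g.2.1) (Submodule.Quotient.mk x)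
        rw [hσ, quotRep_mk] at h
        exact (Submodule.Quotient.eq W).1 h
      have hj : ∀ j : ℕ, ρ ((g : H) ^ j) x = x + j • (ρ (g : H) x - x) := by
        intro j
        induction j with
        | zero => simp
        | succ j ih =>
          rw [pow_succ', map_mul, Module.End.mul_apply, ih, map_add, map_nsmul, g.2.2 _ hd, succ_nsmul]
          abel
      rw [pow_one, Subgroup.coe_pow, hj, p_smul_eq_zero K, add_zero, OneMemClass.coe_one,
        map_one, Module.End.one_apply]
    have : L ≤ ⊥ := hcore ▸ Cores.le_pCore hL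
    exact Subgroup.mem_bot.1 (this ⟨hk, hkW⟩)
  have hirr : IsIrr (kerRep σ) := by
    refine ⟨Submodule.Quotient.nontrivial_iff.2 hWt, fun U hU => ?_⟩
    have hUinv : ∀ g, ∀ x ∈ U.comap W.mkQ, ρ g x ∈ U.comap W.mkQ := fun g x hx =>
      hU (QuotientGroup.mk g) _ hx
    by_cases htop : U.comap W.mkQ = ⊤
    · right
      rw [← Submodule.map_comap_eq_of_surjective W.mkQ_surjective U, htop, Submodule.map_top,
        W.range_mkQ]
    · left
      have := hmax ⟨hUinv, htop⟩ (W.le_comap_mkQ U)
      rw [← Submodule.map_comap_eq_of_surjective W.mkQ_surjective U, eq_bot_iff,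
        Submodule.map_le_iff_le_comap]
      simpa [Submodule.ker_mkQ] using this
  have h1 := IH (finrank K W) (by omega) K σ.ker W (subRep ρ σ.ker W fun g _ => hW g) rfl
    (fun a b h => by
      have h1 : a⁻¹ * b = 1 := Subtype.ext (hfaith _ (a⁻¹ * b).2 fun x hx => by
        have h2 := congrArg Subtype.val (LinearMap.congr_fun h ⟨x, hx⟩)
        rw [subRep_apply, subRep_apply] at h2
        rw [Subgroup.coe_mul, Subgroup.coe_inv, map_mul, Module.End.mul_apply, ← h2,
          ← Module.End.mul_apply, rho_inv_mul, Module.End.one_apply])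
      exact inv_mul_eq_one.1 h1)
    (pCore_normal_bot hcore)
  haveI : Finite (V ⧸ W) := Finite.of_surjective _ W.mkQ_surjective
  have h2 := IH (finrank K (V ⧸ W)) (by omega) K (H ⧸ σ.ker) (V ⧸ W) (kerRep σ) rfl
    (kerRep_injective σ)
    (pCore_bot_of_irr (kerRep_injective σ) hirr)
  refine (kk_le_of_sub ρ W hW h1 h2).trans ?_
  rw [card_split W, mul_mul_mul_comm]
  exact Nat.mul_le_mul_right _ (three_pow_split ha1 hb1 (by omega))

/-- The condition on the blocks: no normal subgroup induces a non-trivial `p`-group on a block. -/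
def FreeOn (p : ℕ) (ρ : H →* Module.End K V) (e : Module.End K V) : Prop :=
  ∀ Q : Subgroup H, Q.Normal → (∀ x ∈ Q, ∃ k : ℕ, ρ (x ^ p ^ k) * e = e) → ∀ x ∈ Q, ρ x * e = e

/-- Several invariant blocks. -/
theorem bound_blocks {m : ℕ} (IH : ∀ j < m, BoundAt.{u} p j) :
    ∀ (n : ℕ) (H : Type u) [Group H] [Finite H] [Group.IsSolvable H] (V : Type) [AddCommGroup V]
      [Module K V] [Finite V] (ρ : H →* Module.End K V) (ι : Type) [Fintype ι]
      (e : ι → Module.End K V), Fintype.card ι = n → Function.Injective ρ →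
      (∀ i, e i * e i = e i) → (∀ i j, i ≠ j → e i * e j = 0) → (∑ i, e i = 1) →
      (∀ i, e i ≠ 0) → (∀ g i, ρ g * e i = e i * ρ g) → (∀ i, FreeOn p ρ (e i)) →
      (∀ i, finrank K (LinearMap.range (e i)) < m) →
      n ≤ finrank K V ∧ kk ρ ≤ 3 ^ (finrank K V - n) * Nat.card V := by
  classical
  intro n
  induction n with
  | zero =>
    intro H _ _ _ V _ _ _ ρ ι _ e hn hinj _ _ hsum _ _ _ _
    haveI : IsEmpty ι := Fintype.card_eq_zero_iff.1 hn
    have hsub : Subsingleton V := ⟨fun x y => by
      have h := fun z : V => LinearMap.congr_fun hsum z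
      simp only [Finset.univ_eq_empty, Finset.sum_empty, LinearMap.zero_apply, Module.End.one_apply] at h
      rw [← h x, ← h y]⟩
    exact ⟨Nat.zero_le _, (kk_le_one ρ hinj).trans
      (Nat.one_le_iff_ne_zero.2 (mul_ne_zero (pow_ne_zero _ (by norm_num)) Nat.card_pos.ne'))⟩
  | succ n ih =>
    intro H _ _ _ V _ _ _ ρ ι _ e hn hinj hidem horth hsum hne hcomm hfree hdim
    haveI : Module.Finite K V := Module.Finite.of_finite
    obtain ⟨i⟩ : Nonempty ι := Fintype.card_pos_iff.1 (by omega)
    set W := LinearMap.range (e i) with hWdef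
    have hW : ∀ g, ∀ x ∈ W, ρ g x ∈ W := by
      rintro g _ ⟨y, rfl⟩
      exact ⟨ρ g y, by rw [← Module.End.mul_apply, ← hcomm, Module.End.mul_apply]⟩
    have hdec : ∀ x, ∑ j, e j x = x := fun x => by
      have h := congrArg (fun f : Module.End K V => f x) hsum
      simpa using h
    have heW : ∀ j, j ≠ i → ∀ x ∈ W, e j x = 0 := by
      rintro j hj _ ⟨y, rfl⟩
      rw [← Module.End.mul_apply, horth j i hj, LinearMap.zero_apply]
    have hcore : Cfsg.pCore p H = ⊥ := by
      refine (Subgroup.eq_bot_iff_forall _).2 fun q hq => hinj ?_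
      rw [map_one, ← mul_one (ρ q), ← hsum, Finset.mul_sum]
      refine Finset.sum_congr rfl fun j _ => hfree j _ inferInstance (fun x hx => ?_) q hq
      obtain ⟨k, hk⟩ := Cores.isPGroup_pCore p H ⟨x, hx⟩
      exact ⟨k, by rw [show x ^ p ^ k = 1 from congrArg Subtype.val hk, map_one, one_mul]⟩
    set σ := quotRep ρ W hW with hσ
    have hfaith : ∀ k ∈ σ.ker, (∀ x ∈ W, ρ k x = x) → k = 1 := by
      intro k hk hkW
      refine hinj (LinearMap.ext fun x => ?_)
      have hd : ρ k x - x ∈ W := by
        have h := LinearMap.congr_fun (MonoidHom.mem_ker.1 hk) (Submodule.Quotient.mk x)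
        rw [hσ, quotRep_mk] at h
        exact (Submodule.Quotient.eq W).1 h
      rw [map_one, Module.End.one_apply, ← hdec (ρ k x)]
      refine (Finset.sum_congr rfl fun j _ => ?_).trans (hdec x)
      by_cases hj : j = i
      · subst hj
        rw [← Module.End.mul_apply, ← hcomm, Module.End.mul_apply, hkW _ (LinearMap.mem_range_self _ _)]
      · exact sub_eq_zero.1 (by rw [← map_sub]; exact heW j hj _ hd)
    have hsum2 := Submodule.finrank_quotient_add_finrank W
    have ha1 : 1 ≤ finrank K W := Submodule.one_le_finrank_iff.2 fun h => hne i (LinearMap.range_eq_bot.1 h)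
    have h1 := IH (finrank K W) (hdim i) K σ.ker W (subRep ρ σ.ker W fun g _ => hW g) rfl
      (fun a b h => by
        have h1 : a⁻¹ * b = 1 := Subtype.ext (hfaith _ (a⁻¹ * b).2 fun x hx => by
          have h2 := congrArg Subtype.val (LinearMap.congr_fun h ⟨x, hx⟩)
          rw [subRep_apply, subRep_apply] at h2
          rw [Subgroup.coe_mul, Subgroup.coe_inv, map_mul, Module.End.mul_apply, ← h2,
            ← Module.End.mul_apply, rho_inv_mul, Module.End.one_apply])
        exact inv_mul_eq_one.1 h1)
      (pCore_normal_bot hcore)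
    -- the quotient
    let ι' := {j : ι // j ≠ i}
    have hst : ∀ j : ι', W ≤ W.comap (e j) := fun j x hx => by
      show e j x ∈ W
      rw [heW j j.2 x hx]; exact zero_mem _
    let e' : ι' → Module.End K (V ⧸ W) := fun j => W.mapQ W (e j) (hst j)
    have he' : ∀ (j : ι') x, e' j (Submodule.Quotient.mk x) = Submodule.Quotient.mk (e j x) :=
      fun j x => rfl
    have hσmk : ∀ (g : H) x, kerRep σ (g : H ⧸ σ.ker) (Submodule.Quotient.mk x) =
      Submodule.Quotient.mk (ρ g x) := fun g x => rfl
    have hn' : Fintype.card ι' = n := by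
      show Fintype.card {j : ι // j ≠ i} = n
      rw [Fintype.card_subtype_compl, Fintype.card_subtype_eq]; omega
    haveI : Finite (V ⧸ W) := Finite.of_surjective _ W.mkQ_surjective
    obtain ⟨hle, h2⟩ := ih (H ⧸ σ.ker) (V ⧸ W) (kerRep σ) ι' e' hn'
      (kerRep_injective σ)
      (fun j => Submodule.linearMap_qext W (LinearMap.ext fun x => by
        simp only [LinearMap.comp_apply, Submodule.mkQ_apply, Module.End.mul_apply, he']
        rw [← Module.End.mul_apply, hidem]))
      (fun j k hjk => Submodule.linearMap_qext W (LinearMap.ext fun x => by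
        simp only [LinearMap.comp_apply, Submodule.mkQ_apply, Module.End.mul_apply, he',
          LinearMap.zero_apply]
        rw [← Module.End.mul_apply, horth _ _ fun h => hjk (Subtype.ext h), LinearMap.zero_apply,
          Submodule.Quotient.mk_zero]))
      (Submodule.linearMap_qext W (LinearMap.ext fun x => by
        simp only [LinearMap.comp_apply, Submodule.mkQ_apply, LinearMap.sum_apply, he',
          Module.End.one_apply]
        show ∑ j : ι', W.mkQ (e j x) = W.mkQ x
        conv_rhs => rw [← hdec x, map_sum, ← Finset.add_sum_erase _ _ (Finset.mem_univ i),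
          show W.mkQ (e i x) = 0 from (Submodule.Quotient.mk_eq_zero W).2 (LinearMap.mem_range_self _ _),
          zero_add]
        exact (Finset.sum_subtype _ (fun j => by simp) fun j => W.mkQ (e j x)).symm))
      (fun j h => hne j (LinearMap.ext fun x => by
        have h' := LinearMap.congr_fun h (Submodule.Quotient.mk x)
        rw [he', LinearMap.zero_apply, Submodule.Quotient.mk_eq_zero] at h'
        rw [LinearMap.zero_apply, ← hidem, Module.End.mul_apply]
        exact heW j j.2 _ h'))
      (fun q j => QuotientGroup.induction_on q fun g => Submodule.linearMap_qext W (LinearMap.ext fun x => by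
        simp only [LinearMap.comp_apply, Submodule.mkQ_apply, Module.End.mul_apply, he', hσmk]
        rw [← Module.End.mul_apply, hcomm, Module.End.mul_apply]))
      (fun j Q hQ hpow q hq => by
        obtain ⟨g, rfl⟩ := QuotientGroup.mk'_surjective σ.ker q
        have key : ∀ x : H, kerRep σ (x : H ⧸ σ.ker) * e' j = e' j → ρ x * e j = e j := by
          intro x hx
          refine LinearMap.ext fun v => ?_
          have h' := LinearMap.congr_fun hx (Submodule.Quotient.mk v)
          rw [Module.End.mul_apply, he', hσmk, Submodule.Quotient.eq] at h'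
          have h3 := heW j j.2 _ h'
          rw [map_sub, ← Module.End.mul_apply, ← hcomm, Module.End.mul_apply,
            ← Module.End.mul_apply (e j), hidem, sub_eq_zero] at h3
          exact h3
        have h := hfree j (Q.comap (QuotientGroup.mk' σ.ker)) (hQ.comap _) (fun x hx => by
          obtain ⟨k, hk⟩ := hpow _ hx
          exact ⟨k, key _ hk⟩) g hq
        refine Submodule.linearMap_qext W (LinearMap.ext fun x => ?_)
        simp only [LinearMap.comp_apply, Submodule.mkQ_apply, Module.End.mul_apply, he']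
        show kerRep σ (g : H ⧸ σ.ker) _ = _
        rw [hσmk, ← Module.End.mul_apply, h])
      (fun j => by
        refine lt_of_le_of_lt ?_ (hdim j)
        have : LinearMap.range (e' j) = (LinearMap.range (e j)).map W.mkQ := by
          rw [← LinearMap.range_comp, ← LinearMap.range_comp_of_range_eq_top (e' j) W.range_mkQ]
          rfl
        rw [this]
        exact Submodule.finrank_map_le _ _)
    refine ⟨by omega, (kk_le_of_sub ρ W hW h1 h2).trans ?_⟩
    rw [card_split W, mul_mul_mul_comm, ← pow_add]
    exact Nat.mul_le_mul_right _ (Nat.pow_le_pow_right (by norm_num) (by omega))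

/-- Nilpotent normal subgroups have order prime to `p`. -/
theorem not_dvd_card_fitting [Finite H] (hcore : Cfsg.pCore p H = ⊥) :
    ¬ p ∣ Nat.card (Cfsg.fittingSubgroup H) := by
  intro hd
  haveI := Cores.isNilpotent_fittingSubgroup (G := H)
  set F := Cfsg.fittingSubgroup H
  obtain ⟨P⟩ := (inferInstance : Nonempty (Sylow p F))
  haveI hPn : (P : Subgroup F).Normal := inferInstance
  haveI := P.characteristic_of_normal hPn
  haveI := Cores.normal_map_subtype F (P : Subgroup F)
  have h : (P : Subgroup F).map F.subtype ≤ ⊥ := hcore ▸ Cores.le_pCore (P.2.map F.subtype)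
  rw [le_bot_iff, Subgroup.map_eq_bot_iff_of_injective _ F.subtype_injective] at h
  exact P.ne_bot_of_dvd_card hd h

/-- An abelian stabiliser gives at most `|V|` classes. -/
theorem kk_le_card_of_abelian [Finite H] [Finite V] (ρ : H →* Module.End K V)
    (hinj : Function.Injective ρ) (hH : ¬ p ∣ Nat.card H) (v : V)
    (hab : ∀ a b : H, ρ a v = v → ρ b v = v → a * b = b * a) : kk ρ ≤ Nat.card V := by
  haveI := finite_GV ρ
  set N : Subgroup (GV ρ) := SemidirectProduct.inl.range with hN
  set G : Subgroup (GV ρ) := SemidirectProduct.inr.range with hG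
  haveI : N.Normal := by
    rw [hN, SemidirectProduct.range_inl_eq_ker_rightHom]; infer_instance
  have hcardN : Nat.card N = Nat.card V :=
    (Nat.card_congr (MonoidHom.ofInjective SemidirectProduct.inl_injective).toEquiv).symm.trans
      (Nat.card_congr Multiplicative.toAdd)
  have hidx : N.index = Nat.card H := by
    have h := N.card_mul_index
    rw [hcardN, card_GV] at h
    exact Nat.eq_of_mul_eq_mul_left Nat.card_pos h
  have hmem : ∀ x : GV ρ, x ∈ N ↔ x.right = 1 := fun x => by
    rw [hN, SemidirectProduct.range_inl_eq_ker_rightHom, MonoidHom.mem_ker]; rfl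
  have hcompl : Subgroup.IsComplement' N G := by
    refine Subgroup.isComplement'_of_disjoint_and_mul_eq_univ ?_ ?_
    · rw [Subgroup.disjoint_def]
      rintro x hx ⟨g, rfl⟩
      rw [hmem, SemidirectProduct.right_inr] at hx
      rw [hx, map_one]
    · refine Set.eq_univ_of_forall fun x => ?_
      exact ⟨_, ⟨x.left, rfl⟩, _, ⟨x.right, rfl⟩, SemidirectProduct.inl_left_mul_inr_right x⟩
  have hexp : ∀ a ∈ N, a ^ p = 1 := by
    rintro _ ⟨w, rfl⟩
    rw [← map_pow]
    refine (congrArg _ ?_).trans (map_one _)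
    exact Multiplicative.toAdd.injective (by rw [toAdd_pow, toAdd_one, p_smul_eq_zero K])
  have hself : Subgroup.centralizer (N : Set (GV ρ)) = N := by
    refine le_antisymm (fun x hx => (hmem x).2 (hinj (LinearMap.ext fun w => ?_))) fun x hx => ?_
    · have h := congrArg (fun y : GV ρ => Multiplicative.toAdd y.left)
        (Subgroup.mem_centralizer_iff.1 hx (SemidirectProduct.inl (Multiplicative.ofAdd w)) ⟨_, rfl⟩)
      simp only [SemidirectProduct.mul_left, SemidirectProduct.left_inl, SemidirectProduct.right_inl,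
        map_one, MulAut.one_apply, toAdd_mul, toAdd_act, toAdd_ofAdd] at h
      rw [map_one, Module.End.one_apply]
      have h' : w + Multiplicative.toAdd x.left = Multiplicative.toAdd x.left + ρ x.right w := h
      rw [add_comm w] at h'
      exact (add_left_cancel h').symm
    · obtain ⟨a, rfl⟩ := hx
      refine Subgroup.mem_centralizer_iff.2 ?_
      rintro _ ⟨b, rfl⟩
      rw [← map_mul, ← map_mul, mul_comm]
  have h := Cfsg.Agent.S4958.result p N hexp (hidx ▸ hH) hself G hcompl
    (SemidirectProduct.inl (Multiplicative.ofAdd v)) ⟨_, rfl⟩ ?_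
  · exact h.trans hcardN.le
  have hfix : ∀ a : H, (SemidirectProduct.inr a : GV ρ) ∈
      Subgroup.centralizer ({SemidirectProduct.inl (Multiplicative.ofAdd v)} : Set (GV ρ)) → ρ a v = v := by
    intro a ha
    have h := congrArg (fun y : GV ρ => Multiplicative.toAdd y.left)
      (Subgroup.mem_centralizer_singleton_iff.1 ha)
    simpa [toAdd_act] using h
  rintro _ ⟨⟨a, rfl⟩, ha⟩ _ ⟨⟨b, rfl⟩, hb⟩
  rw [← map_mul, ← map_mul, hab a b (hfix a ha) (hfix b hb)]

/-- The linear structure being primitive gives the bound on the Fitting quotient. -/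
def PrimBound : Prop :=
  ∀ (K : Type) [Field K] (H : Type u) [Group H] [Finite H] (V : Type) [AddCommGroup V] [Module K V]
    [FiniteDimensional K V] (ρ : H →* Module.End K V) [(Cfsg.fittingSubgroup H).Normal],
    IsPrim ρ → Bd (H ⧸ Cfsg.fittingSubgroup H) (3 ^ (finrank K V - 1))

theorem bound_prim [Finite H] [Finite V] (hPB : PrimBound.{u}) {ρ : H →* Module.End K V}
    (hρ : IsPrim ρ) (hcore : Cfsg.pCore p H = ⊥) :
    kk ρ ≤ 3 ^ (finrank K V - 1) * Nat.card V := by
  haveI : Module.Finite K V := Module.Finite.of_finite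
  haveI := hρ.nt
  obtain ⟨v, hv⟩ := exists_ne (0 : V)
  set F := Cfsg.fittingSubgroup H
  haveI : F.Normal := inferInstance
  have h := kk_le_ker ρ (QuotientGroup.mk' F) (QuotientGroup.mk'_surjective F)
  have hker : (QuotientGroup.mk' F).ker = F := QuotientGroup.ker_mk' F
  have hF : ¬ p ∣ Nat.card (QuotientGroup.mk' F).ker := by
    rw [hker]; exact not_dvd_card_fitting hcore
  have h1 := kk_le_card_of_abelian (ρ.comp (QuotientGroup.mk' F).ker.subtype)
    (hρ.inj.comp Subtype.val_injective) hF v fun a b ha hb => by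
      have hc := hρ.commutator_mem (hker.le a.2) (hker.le b.2)
      obtain ⟨c, hc'⟩ := hc
      have ha' : ρ (a : H)⁻¹ v = v := by
        conv_lhs => rw [← show ρ (a : H) v = v from ha]
        rw [← Module.End.mul_apply, rho_inv_mul, Module.End.one_apply]
      have hb' : ρ (b : H)⁻¹ v = v := by
        conv_lhs => rw [← show ρ (b : H) v = v from hb]
        rw [← Module.End.mul_apply, rho_inv_mul, Module.End.one_apply]
      have hfix : ρ ⁅(a : H), (b : H)⁆ v = v := by
        rw [commutatorElement_def, map_mul, map_mul, map_mul, Module.End.mul_apply,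
          Module.End.mul_apply, Module.End.mul_apply, hb', ha', show ρ (b : H) v = v from hb,
          show ρ (a : H) v = v from ha]
      rw [hc', LinearMap.smul_apply, Module.End.one_apply] at hfix
      have hc1 : c = 1 := smul_left_injective K hv (hfix.trans (one_smul K v).symm)
      refine Subtype.ext (commutatorElement_eq_one_iff_mul_comm.1 (hρ.inj ?_))
      rw [hc', hc1, one_smul, map_one]
  refine h.trans ?_
  rw [mul_comm]
  exact Nat.mul_le_mul (hPB K H V ρ hρ).self h1

theorem bound_of_blocks [Finite H] [Group.IsSolvable H] [Finite V] {m : ℕ}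
    (IH : ∀ j < m, BoundAt.{u} p j) {ρ : H →* Module.End K V} (hm : finrank K V = m)
    (hinj : Function.Injective ρ) (hirr : IsIrr ρ) {ι : Type} [Fintype ι] (B : Blocks ρ ι) :
    kk ρ ≤ 3 ^ (m - 1) * Nat.card V := by
  classical
  haveI : Module.Finite K V := Module.Finite.of_finite
  set π := B.act.rangeRestrict with hπdef
  have hπ : ∀ g ∈ π.ker, ∀ i, B.act g i = i := fun g hg i => by
    have h : B.act g = 1 := congrArg Subtype.val (MonoidHom.mem_ker.1 hg)
    rw [h]; rfl
  have hstab : ∀ j, ∀ g ∈ π.ker, ∀ x ∈ B.space j, ρ g x ∈ B.space j := fun j g hg x hx => by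
    have h := B.apply_mem g hx
    rwa [hπ g hg j] at h
  set ρA := ρ.comp π.ker.subtype with hρA
  -- the vectors fixed on all blocks by the relevant subgroups
  let Good : ι → Subgroup π.ker → Prop := fun j Q =>
    Q.Normal ∧ ∀ x ∈ Q, ∃ k : ℕ, ρA (x ^ p ^ k) * B.e j = B.e j
  let U : Submodule K V :=
    { carrier := {v | ∀ j Q, Good j Q → ∀ x ∈ Q, ρA x (B.e j v) = B.e j v}
      zero_mem' := fun j Q _ x _ => by simp
      add_mem' := fun {a b} ha hb j Q hQ x hx => by
        rw [map_add, map_add, ha j Q hQ x hx, hb j Q hQ x hx]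
      smul_mem' := fun c a ha j Q hQ x hx => by rw [map_smul, map_smul, ha j Q hQ x hx] }
  have hU : ∀ g, ∀ v ∈ U, ρ g v ∈ U := by
    intro g v hv j Q hQ x hx
    set i := B.act g⁻¹ j with hi
    have hgi : B.act g i = j := by
      rw [hi, ← Equiv.Perm.mul_apply, ← map_mul, mul_inv_cancel, map_one]; rfl
    have hej : B.e j * ρ g = ρ g * B.e i := by rw [B.move, hgi]
    let Q' : Subgroup π.ker := Q.comap (MulAut.conjNormal g).toMonoidHom
    have hei : ρ g⁻¹ * B.e j * ρ g = B.e i := by
      rw [mul_assoc, hej, ← mul_assoc, rho_inv_mul, one_mul]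
    have hQ' : Good i Q' := by
      refine ⟨hQ.1.comap _, fun y hy => ?_⟩
      obtain ⟨k, hk⟩ := hQ.2 _ hy
      refine ⟨k, ?_⟩
      have hk' : ρ (g * ((y ^ p ^ k : π.ker) : H) * g⁻¹) * B.e j = B.e j := by
        rw [← map_pow] at hk
        exact hk
      rw [map_mul, map_mul] at hk'
      show ρ ((y ^ p ^ k : π.ker) : H) * B.e i = B.e i
      conv_rhs => rw [← hei, ← hk']
      calc ρ ((y ^ p ^ k : π.ker) : H) * B.e i
          = ρ g⁻¹ * ρ g * ρ ((y ^ p ^ k : π.ker) : H) * (ρ g⁻¹ * B.e j * ρ g) := by
            rw [rho_inv_mul, one_mul, hei]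
        _ = _ := by simp only [mul_assoc]
    have hy : (⟨g⁻¹ * (x : H) * g, by
        simpa using (inferInstance : π.ker.Normal).conj_mem _ x.2 g⁻¹⟩ : π.ker) ∈ Q' := by
      show MulAut.conjNormal g _ ∈ Q
      convert hx using 1
      apply Subtype.ext
      simp [mul_assoc]
    have h := hv i Q' hQ' _ hy
    have h2 := congrArg (ρ g) h
    show ρ (x : H) (B.e j (ρ g v)) = B.e j (ρ g v)
    rw [← Module.End.mul_apply (B.e j), hej, Module.End.mul_apply]
    refine Eq.trans ?_ h2
    show _ = ρ g (ρ (g⁻¹ * (x : H) * g) (B.e i v))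
    rw [← Module.End.mul_apply (ρ g) (ρ (g⁻¹ * (x : H) * g)), ← map_mul, ← Module.End.mul_apply (ρ (x : H)),
      ← map_mul]
    simp [mul_assoc]
  have hUne : U ≠ ⊥ := by
    obtain ⟨j0⟩ : Nonempty ι := Fintype.card_pos_iff.1 (by
      have := B.two
      rw [Nat.card_eq_fintype_card] at this
      omega)
    set σ := subRep ρ π.ker (B.space j0) (hstab j0) with hσ
    haveI : Finite (B.space j0) := inferInstance
    obtain ⟨w, -, hw0, hw⟩ := CfsgLib.RealChar.MinimalBlock.exists_fixed_ne_zero
      (Cores.isPGroup_pCore p (π.ker ⧸ σ.ker)) ((kerRep σ).comp (Cfsg.pCore p (π.ker ⧸ σ.ker)).subtype)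
      (W := (⊤ : Submodule K (B.space j0)))
      (by
        haveI := Submodule.nontrivial_iff_ne_bot.2 (B.space_ne j0)
        exact top_ne_bot)
      (fun _ _ _ => trivial)
    refine (Submodule.ne_bot_iff _).2 ⟨(w : V), fun j Q hQ x hx => ?_, fun h => hw0 (Subtype.ext h)⟩
    by_cases hj : j = j0
    · subst hj
      rw [B.apply_eq_self w.2]
      haveI := hQ.1
      haveI : (Q.map (QuotientGroup.mk' σ.ker)).Normal :=
        hQ.1.map _ (QuotientGroup.mk'_surjective _)
      have hle : Q.map (QuotientGroup.mk' σ.ker) ≤ Cfsg.pCore p (π.ker ⧸ σ.ker) := by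
        refine Cores.le_pCore fun q => ?_
        obtain ⟨y, hy, hyq⟩ := Subgroup.mem_map.1 q.2
        obtain ⟨k, hk⟩ := hQ.2 y hy
        refine ⟨k, Subtype.ext ?_⟩
        rw [Subgroup.coe_pow, OneMemClass.coe_one, ← hyq, ← map_pow]
        refine (QuotientGroup.eq_one_iff _).2 (MonoidHom.mem_ker.2 (LinearMap.ext fun z => Subtype.ext ?_))
        have h := LinearMap.congr_fun hk (z : V)
        rw [Module.End.mul_apply, B.apply_eq_self z.2] at h
        exact h
      exact congrArg Subtype.val (hw ⟨_, hle ⟨x, hx, rfl⟩⟩)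
    · have h0 : B.e j (w : V) = 0 := by
        rw [← B.apply_eq_self w.2, ← Module.End.mul_apply, B.orth j j0 hj, LinearMap.zero_apply]
      rw [h0, map_zero]
  have htop : U = ⊤ := (hirr.2 U hU).resolve_left hUne
  have hb := bound_blocks IH (Fintype.card ι) π.ker V ρA ι B.e rfl (hinj.comp Subtype.val_injective)
    B.idem B.orth B.sum B.ne (fun g i => by
      show ρ (g : H) * B.e i = B.e i * ρ (g : H)
      rw [B.move, hπ _ g.2 i])
    (fun j Q hQn hQp x hx => LinearMap.ext fun v =>
      (show v ∈ U from htop ▸ Submodule.mem_top) j Q ⟨hQn, hQp⟩ x hx)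
    (fun i => hm ▸ B.finrank_lt i)
  haveI : Finite B.act.range := Finite.of_surjective _ (MonoidHom.rangeRestrict_surjective B.act)
  refine (kk_le_ker ρ π (MonoidHom.rangeRestrict_surjective B.act)).trans ?_
  refine (Nat.mul_le_mul hb.2 (card_conjClasses_le_card.trans B.card_range_le_three)).trans ?_
  rw [hm, Nat.card_eq_fintype_card (α := ι), mul_right_comm, ← pow_add]
  refine Nat.mul_le_mul_right _ (Nat.pow_le_pow_right (by norm_num) ?_)
  have h2 := hm ▸ hb.1
  have := B.two
  rw [Nat.card_eq_fintype_card] at this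
  omega

theorem bound_of_extension [Finite H] [Group.IsSolvable H] [Finite V] [Nontrivial V] {m : ℕ}
    (IH : ∀ j < m, BoundAt.{u} p j) {ρ : H →* Module.End K V} (hm : finrank K V = m)
    (hinj : Function.Injective ρ) (hcore : Cfsg.pCore p H = ⊥) (X : Extension ρ) :
    kk ρ ≤ 3 ^ (m - 1) * Nat.card V := by
  haveI : Module.Finite K V := Module.Finite.of_finite
  letI : Field X.E := X.field.toField
  haveI : CharP X.E p := charP_of_injective_algebraMap (algebraMap K X.E).injective p
  haveI : Module.Finite X.E V := X.finiteDimensional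
  set π := X.toAut.rangeRestrict with hπ
  let σ : π.ker →* Module.End X.E V :=
    X.rep.comp (MulEquiv.subgroupCongr (MonoidHom.ker_rangeRestrict X.toAut)).toMonoidHom
  have hmul := X.finrank_mul
  have hpos : 0 < finrank X.E V := Module.finrank_pos
  have htwo := X.two
  have hlt : finrank X.E V < m := by nlinarith
  have h1 := IH _ hlt X.E π.ker V σ rfl
    ((X.rep_injective hinj).comp (MulEquiv.injective _)) (pCore_normal_bot hcore)
  have heq : kk (ρ.comp π.ker.subtype) = kk σ := card_conjClasses_congr
    (show GV (ρ.comp π.ker.subtype) ≃* GV σ from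
      { toFun := fun x => ⟨x.left, x.right⟩
        invFun := fun x => ⟨x.left, x.right⟩
        left_inv := fun x => rfl
        right_inv := fun x => rfl
        map_mul' := fun x y => rfl })
  haveI : Finite X.toAut.range := Finite.of_surjective _ (MonoidHom.rangeRestrict_surjective X.toAut)
  refine (kk_le_ker ρ π (MonoidHom.rangeRestrict_surjective X.toAut)).trans ?_
  rw [heq]
  refine (Nat.mul_le_mul h1 (card_conjClasses_le_card.trans X.card_range_le)).trans ?_
  rw [mul_right_comm]
  refine Nat.mul_le_mul_right _ ?_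
  have he : finrank K X.E ≤ 3 ^ (finrank K X.E - 1) := by
    have := Nat.lt_pow_self (n := finrank K X.E - 1) (show 1 < 3 by norm_num)
    omega
  refine (Nat.mul_le_mul_left _ he).trans ?_
  rw [← pow_add]
  refine Nat.pow_le_pow_right (by norm_num) ?_
  have : finrank X.E V + finrank K X.E ≤ m + 1 := by nlinarith
  omega

/-- The bound. -/
theorem bound (hPB : PrimBound.{u}) : ∀ m, BoundAt.{u} p m := by
  intro m
  induction m using Nat.strong_induction_on with
  | _ m IH =>
    intro K _ _ H _ _ _ V _ _ _ ρ hm hinj hcore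
    haveI : Module.Finite K V := Module.Finite.of_finite
    rcases subsingleton_or_nontrivial V with hV | hV
    · exact (kk_le_one ρ hinj).trans
        (Nat.one_le_iff_ne_zero.2 (mul_ne_zero (pow_ne_zero _ (by norm_num)) Nat.card_pos.ne'))
    by_cases hirr : IsIrr ρ
    · rcases irr_cases hinj hirr with h | ⟨ι, hι, ⟨B⟩⟩ | hX
      · exact hm ▸ bound_prim hPB h hcore
      · exact bound_of_blocks IH hm hinj hirr B
      · obtain ⟨X⟩ := hX
        exact bound_of_extension IH hm hinj hcore X
    · exact bound_reducible IH ρ hm hinj hcore hirr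

end CharP

end CfsgLib.SolvableLinear.KGV
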