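import Mathlib
import Cfsg.Agent.S4965
import Cfsg.Agent.Lib.SolvableLinear.KGV
import Cfsg.Agent.Lib.PGroups.Frattini
import Cfsg.Agent.Lib.ThompsonJ.StableNormal
import Cfsg.Agent.Lib.CharDegreesTheory.HeightBound
import Cfsg.Agent.Lib.SmallBlocks.NormalDef.Count

/-!
The number of characters in a block of a solvable group, bounded by the defect.
-/

set_option autoImplicit false
set_option linter.style.haveILetI false
set_option linter.unusedSectionVars false

noncomputable section

namespace CfsgLib.SolvableLinear.Fong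

open Cfsg CfsgLib CfsgLib.CharTheory
open scoped commutatorElement

universe u

variable {p : ℕ} [hp : Fact p.Prime]

/-- Coordinates of a space over the prime field. -/
theorem exists_equiv_fun_of_module (p : ℕ) [Fact p.Prime] (A : Type u) [AddCommGroup A] [Finite A]
    [Module (ZMod p) A] : ∃ n, Nonempty (A ≃+ (Fin n → ZMod p)) := by
  haveI : Module.Finite (ZMod p) A := Module.Finite.of_finite
  exact ⟨_, ⟨(Module.finBasis (ZMod p) A).equivFun.toAddEquiv⟩⟩

/-- Coordinates. -/
theorem exists_equiv_fun (p : ℕ) [Fact p.Prime] (A : Type u) [AddCommGroup A] [Finite A]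
    (h : ∀ x : A, p • x = 0) : ∃ n, Nonempty (A ≃+ (Fin n → ZMod p)) := by
  letI : Module (ZMod p) A := AddCommGroup.zmodModule h
  exact exists_equiv_fun_of_module p A

/-- An elementary abelian self-centralizing normal subgroup with a reduced quotient. -/
theorem card_conjClasses_le_of_elementary {R : Type u} [Group R] [Finite R] [Group.IsSolvable R]
    (hPB : KGV.PrimBound.{u}) (W : Subgroup R) [W.Normal] (hab : ∀ a ∈ W, ∀ b ∈ W, a * b = b * a)
    (hexp : ∀ a ∈ W, a ^ p = 1) (hcent : Subgroup.centralizer (W : Set R) ≤ W)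
    (hcore : pCore p (R ⧸ W) = ⊥) :
    ∃ n, Nat.card W = p ^ n ∧ Nat.card (ConjClasses R) ≤ 3 ^ (n - 1) * p ^ n := by
  classical
  have hker : W ≤ (MulAut.conjNormal : R →* MulAut W).ker := fun a ha => MonoidHom.mem_ker.2
    (MulEquiv.ext fun w => Subtype.ext (by
      rw [MulAut.conjNormal_apply, MulAut.one_apply, hab a ha w w.2, mul_inv_cancel_right]))
  let φ : R ⧸ W →* MulAut W := QuotientGroup.lift W MulAut.conjNormal hker
  have hφ : ∀ (x : R) (v : W), ((φ (QuotientGroup.mk x) v : W) : R) = x * v * x⁻¹ := fun x v => rfl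
  have h65 := Cfsg.Agent.S4965.result W hab φ hφ
  letI : CommGroup W :=
    { (inferInstance : Group W) with mul_comm := fun a b => Subtype.ext (hab a a.2 b b.2) }
  haveI : Finite (Additive W) := Finite.of_equiv W Additive.ofMul
  obtain ⟨n, ⟨e⟩⟩ := exists_equiv_fun p (Additive W) fun x => Additive.toMul.injective (by
    rw [toMul_nsmul, toMul_zero]
    exact Subtype.ext (by rw [Subgroup.coe_pow, hexp _ (Additive.toMul x).2]; rfl))
  have hW : Nat.card W = p ^ n := by
    rw [Nat.card_congr (Additive.ofMul (α := W)), Nat.card_congr e.toEquiv, Nat.card_fun,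
      Nat.card_zmod, Nat.card_fin]
  let ρ : R ⧸ W →* Module.End (ZMod p) (Fin n → ZMod p) :=
    { toFun := fun q => (AddMonoidHom.mk'
        (fun x => e (Additive.ofMul (φ q (Additive.toMul (e.symm x))))) fun x y => by
          simp only [map_add, toMul_add, map_mul, ofMul_mul]).toZModLinearMap p
      map_one' := LinearMap.ext fun x => by
        show e (Additive.ofMul (φ 1 (Additive.toMul (e.symm x)))) = x
        rw [map_one, MulAut.one_apply, ofMul_toMul, AddEquiv.apply_symm_apply]
      map_mul' := fun q r => LinearMap.ext fun x => by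
        show e (Additive.ofMul (φ (q * r) (Additive.toMul (e.symm x)))) =
          e (Additive.ofMul (φ q (Additive.toMul (e.symm (e (Additive.ofMul (φ r (Additive.toMul (e.symm x)))))))))
        rw [map_mul, AddEquiv.symm_apply_apply, toMul_ofMul, MulAut.mul_apply] }
  have hinj : Function.Injective ρ := by
    intro a b hab'
    have hφab : φ a = φ b := MulEquiv.ext fun w => by
      have h := LinearMap.congr_fun hab' (e (Additive.ofMul w))
      change e (Additive.ofMul (φ a (Additive.toMul (e.symm (e (Additive.ofMul w)))))) =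
        e (Additive.ofMul (φ b (Additive.toMul (e.symm (e (Additive.ofMul w)))))) at h
      rw [AddEquiv.symm_apply_apply, toMul_ofMul] at h
      exact Additive.ofMul.injective (e.injective h)
    have h1 : φ (a⁻¹ * b) = 1 := by rw [map_mul, map_inv, hφab, inv_mul_cancel]
    obtain ⟨r, hr⟩ := QuotientGroup.mk_surjective (a⁻¹ * b)
    rw [← hr] at h1
    refine inv_mul_eq_one.1 (hr.symm.trans ((QuotientGroup.eq_one_iff r).2 (hcent ?_)))
    refine Subgroup.mem_centralizer_iff.2 fun w hw => ?_
    have h := hφ r ⟨w, hw⟩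
    rw [h1, MulAut.one_apply] at h
    calc w * r = r * w * r⁻¹ * r := by rw [← h]
      _ = r * w := inv_mul_cancel_right _ _
  have hfin : Module.finrank (ZMod p) (Fin n → ZMod p) = n := Module.finrank_fin_fun _
  have hb := KGV.bound hPB n (ZMod p) (R ⧸ W) (Fin n → ZMod p) ρ hfin hinj hcore
  rw [Nat.card_fun, Nat.card_zmod, Nat.card_fin] at hb
  have hiso : Nat.card (ConjClasses (SemidirectProduct W (R ⧸ W) φ)) = KGV.kk ρ := by
    refine ClassLower.card_conjClasses_congr (SemidirectProduct.congr
      (fn := ((AddEquiv.toMultiplicative e : Multiplicative (Additive W) ≃* _) : _))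
      (fg := MulEquiv.refl _) fun q => ?_)
    ext w i
    show e (Additive.ofMul (φ q w)) i = e (Additive.ofMul (φ q (Additive.toMul (e.symm (e (Additive.ofMul w)))))) i
    rw [AddEquiv.symm_apply_apply, toMul_ofMul]
  exact ⟨n, hW, (h65.trans hiso.le).trans hb⟩

/-- The class number of a group with trivial `p'`-core. -/
theorem card_conjClasses_le_of_core {X : Type u} [Group X] [Finite X] [Group.IsSolvable X]
    (hPB : KGV.PrimBound.{u}) (hbot : pPrimeCore p X = ⊥) {d : ℕ}
    (hd : Nat.card (pCore p X) ≤ p ^ d) :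
    Nat.card (ConjClasses X) ≤ 3 ^ (d - 1) * p ^ d := by
  set Q := pCore p X with hQ
  have hQp : IsPGroup p Q := Cores.isPGroup_pCore p X
  have hC : Subgroup.centralizer (Q : Set X) ≤ Q :=
    PSolvable.centralizer_pCore_le PSolvable.isPSolvable_of_isSolvable hbot
  haveI := Cores.normal_map_subtype Q (frattini Q)
  set Φ := (frattini Q).map Q.subtype with hΦ
  have hΦQ : Φ ≤ Q := Subgroup.map_subtype_le _
  set π := QuotientGroup.mk' Φ with hπ
  have hsurj : Function.Surjective π := QuotientGroup.mk'_surjective Φ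
  set W := Q.map π with hW
  haveI : W.Normal := (inferInstance : Q.Normal).map π hsurj
  haveI : Group.IsSolvable (X ⧸ Φ) := Group.isSolvable_of_surjective hsurj
  have hab : ∀ a ∈ W, ∀ b ∈ W, a * b = b * a := by
    rintro _ ⟨a, ha, rfl⟩ _ ⟨b, hb, rfl⟩
    refine commutatorElement_eq_one_iff_mul_comm.1 ?_
    rw [← map_commutatorElement]
    refine (QuotientGroup.eq_one_iff _).2 ⟨⁅⟨a, ha⟩, ⟨b, hb⟩⁆,
      PGroups.commutatorElement_mem_frattini hQp _ _, ?_⟩
    rw [map_commutatorElement]; rfl
  have hexp : ∀ a ∈ W, a ^ p = 1 := by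
    rintro _ ⟨a, ha, rfl⟩
    rw [← map_pow]
    exact (QuotientGroup.eq_one_iff _).2
      ⟨(⟨a, ha⟩ : Q) ^ p, PGroups.pow_mem_frattini hQp _, rfl⟩
  have hcent : Subgroup.centralizer (W : Set (X ⧸ Φ)) ≤ W := by
    have hs : IsPGroup p (sectionKernel Q Φ) := ThompsonJ.isPGroup_sectionKernel_frattini hC
    haveI : (sectionKernel Q Φ).Normal := by
      unfold sectionKernel
      infer_instance
    have hle : sectionKernel Q Φ ≤ Q := Cores.le_pCore hs
    intro y hy
    obtain ⟨x, rfl⟩ := hsurj y
    exact ⟨x, hle hy, rfl⟩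
  have hcore : pCore p ((X ⧸ Φ) ⧸ W) = ⊥ := by
    set g := (QuotientGroup.mk' W).comp π with hg
    have hgs : Function.Surjective g := (QuotientGroup.mk'_surjective W).comp hsurj
    have hgk : g.ker = Q := by
      rw [hg, ← MonoidHom.comap_ker, QuotientGroup.ker_mk', hW, Subgroup.comap_map_eq,
        hπ, QuotientGroup.ker_mk', sup_eq_left]
      exact hΦQ
    have h := Cores.le_pCore ((Cores.isPGroup_pCore p ((X ⧸ Φ) ⧸ W)).comap_of_ker_isPGroup g
      (hgk ▸ hQp))
    rw [← Subgroup.map_comap_eq_self_of_surjective hgs (pCore p _), eq_bot_iff,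
      Subgroup.map_le_iff_le_comap, MonoidHom.comap_bot, hgk]
    exact h
  obtain ⟨n, hn, hk⟩ := card_conjClasses_le_of_elementary hPB W hab hexp hcent hcore
  have hcard : Nat.card Φ * p ^ n = Nat.card Q := by
    rw [← hn, ← (Φ.subgroupOf Q).card_mul_index, Nat.card_congr (Subgroup.subgroupOfEquivOfLe hΦQ).toEquiv]
    have hker : (π.comp Q.subtype).ker = Φ.subgroupOf Q := by
      rw [← MonoidHom.comap_ker, hπ, QuotientGroup.ker_mk']; rfl
    have hrange : (π.comp Q.subtype).range = W := by
      rw [MonoidHom.range_comp, Subgroup.range_subtype]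
    rw [← hker, Subgroup.index_ker, hrange]
  have hnd : n ≤ d := (Nat.pow_le_pow_iff_right hp.out.one_lt).1
    (le_trans (Nat.le_mul_of_pos_left _ Nat.card_pos) (hcard.le.trans hd))
  refine (Cfsg.Agent.S4201.result Φ).trans ?_
  refine (Nat.mul_le_mul card_conjClasses_le_card hk).trans ?_
  rw [mul_left_comm, hcard]
  exact Nat.mul_le_mul (Nat.pow_le_pow_right (by norm_num) (by omega)) hd

theorem sum_card_centralizer {X : Type*} [Group X] [Fintype X] :
    ∑ x : X, Nat.card (Subgroup.centralizer ({x} : Set X)) =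
      Nat.card (ConjClasses X) * Nat.card X := by
  rw [← card_comm_eq_card_conjClasses_mul_card, ← Nat.card_sigma]
  exact Nat.card_congr
    { toFun := fun y => ⟨(y.1, y.2.1), (Subgroup.mem_centralizer_singleton_iff.1 y.2.2).symm⟩
      invFun := fun z => ⟨z.1.1, z.1.2, Subgroup.mem_centralizer_singleton_iff.2 z.2.eq.symm⟩
      left_inv := fun y => rfl
      right_inv := fun z => rfl }

open scoped Classical in
/-- Over an invariant character there are at most as many characters as classes of the quotient. -/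
theorem ncard_over_le {G : Type u} [Group G] [Fintype G] (N : Subgroup G) [N.Normal] [Fintype N]
    (θ : IrrCharacter N) (hinv : ∀ g : G, Clifford.conjChar N (θ : N → ℂ) g = θ)
    (B : Set (IrrCharacter G))
    (hB : ∀ χ ∈ B, classInner (fun n : N => (χ : G → ℂ) n) (θ : N → ℂ) ≠ 0) :
    B.ncard ≤ Nat.card (ConjClasses (G ⧸ N)) := by
  set θG := extendByZero N (θ : N → ℂ) with hθG
  have hθ : RelMcKay.IsIrrOn N θG := RelMcKay.isIrrOn_extend θ.2
  have hfix : ∀ g : G, g ∈ RelMcKay.stab θG := by
    intro g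
    rw [← inv_inv g]
    refine inv_mem (RelMcKay.mem_stab.2 ((hθ.cj ?_).ext hθ fun x hx => ?_))
    · rw [Subgroup.normalizer_eq_top]; exact Subgroup.mem_top _
    · show θG (g⁻¹ * x * g⁻¹⁻¹) = θG x
      have hmem : g⁻¹ * x * g⁻¹⁻¹ ∈ N := (inferInstance : N.Normal).conj_mem x hx g⁻¹
      rw [hθG, Frobenius.extendByZero_of_mem N _ hmem, Frobenius.extendByZero_of_mem N _ hx]
      have h := congrFun (hinv g⁻¹) ⟨x, hx⟩
      rw [Clifford.conjChar_apply] at h
      exact h
  have htop : (⊤ : Subgroup G) ≤ Subgroup.normalizer (N : Set G) := by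
    rw [Subgroup.normalizer_eq_top]
  have hcount := RelMcKay.card_overIrr (K := N) (C := N) (R := ⊤) htop (top_inf_eq N) hθ
    fun g _ => hfix g
  rw [sup_top_eq] at hcount
  have hmem : ∀ χ ∈ B, (χ : G → ℂ) ∈ RelMcKay.overIrr ⊤ N θG := by
    intro χ hχ
    have hirr : RelMcKay.IsIrrOn (⊤ : Subgroup G) (χ : G → ℂ) :=
      ⟨isIrrCharacter_comp_mulEquiv χ.2 Subgroup.topEquiv, fun g hg => absurd (Subgroup.mem_top g) hg⟩
    refine RelMcKay.mem_overIrr.2 ⟨hirr, fun h0 => hB χ hχ ?_⟩
    have h := RelMcKay.ip_eq_mu (hirr.isCharOn.mono le_top) hθ (H := N)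
    rw [h0, Nat.cast_zero, RelMcKay.ip_eq, hθG, RelMcKay.extend_coe] at h
    exact h
  have hle : B.ncard ≤ (RelMcKay.overIrr ⊤ N θG).card := by
    rw [← Set.ncard_coe_finset]
    exact Set.ncard_le_ncard_of_injOn (fun χ => (χ : G → ℂ)) hmem Subtype.val_injective.injOn
      (Finset.finite_toSet _)
  refine hle.trans ?_
  haveI : Fintype (G ⧸ N) := Fintype.ofFinite _
  have hsum : ∑ r : (⊤ : Subgroup G), RelMcKay.goodWeight N N ⊤ θG r ≤
      Nat.card N * (Nat.card N * (Nat.card (ConjClasses (G ⧸ N)) * N.index)) := by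
    rw [Subgroup.index, ← sum_card_centralizer]
    set c : G ⧸ N → ℕ := fun q => Nat.card (Subgroup.centralizer ({q} : Set (G ⧸ N))) with hc
    refine (Finset.sum_le_sum (g := fun r : (⊤ : Subgroup G) => Nat.card N * c ((r : G) : G ⧸ N))
      fun r _ => ?_).trans (le_of_eq ?_)
    · rw [RelMcKay.goodWeight]
      split_ifs
      · exact (SmallBlocks.NormalDef.card_partners N (r : G)).le
      · exact Nat.zero_le _
    · rw [← Finset.mul_sum]
      congr 1
      rw [Fintype.sum_equiv (Subgroup.topEquiv (G := G)).toEquiv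
          (fun r => c ((r : G) : G ⧸ N)) (fun g => c (g : G ⧸ N)) (fun r => rfl),
        ← Equiv.sum_comp (Subgroup.groupEquivQuotientProdSubgroup (s := N)).symm
          (fun g => c (g : G ⧸ N)),
        Fintype.sum_prod_type, Finset.mul_sum]
      refine Finset.sum_congr rfl fun q _ => ?_
      rw [Finset.sum_congr rfl fun n _ => by
        rw [show ((((Subgroup.groupEquivQuotientProdSubgroup (s := N)).symm (q, n) : G) : G ⧸ N)) = q
          from congrArg Prod.fst
            ((Subgroup.groupEquivQuotientProdSubgroup (s := N)).apply_symm_apply (q, n))],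
        Finset.sum_const, Finset.card_univ, smul_eq_mul, ← Nat.card_eq_fintype_card]
  rw [← hcount, Subgroup.card_top, ← N.card_mul_index] at hsum
  refine Nat.le_of_mul_le_mul_right (c := Nat.card N * Nat.card N * N.index) ?_
    (Nat.mul_pos (Nat.mul_pos Nat.card_pos Nat.card_pos)
      (Nat.pos_of_ne_zero Subgroup.index_ne_zero_of_finite))
  calc _ = (RelMcKay.overIrr ⊤ N θG).card * (Nat.card N * N.index * Nat.card N) := by ring
    _ ≤ _ := hsum
    _ = _ := by ring

/-- Fong's bound. -/
theorem ncard_block_le_aux (hPB : KGV.PrimBound.{u}) (n : ℕ) :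
    ∀ (G : Type u) [Group G] [Fintype G], Nat.card G = n → Group.IsSolvable G →
    ∀ {M : Ideal AlgInt}, IsPModular p M → ∀ (B : Set (IrrCharacter G)), IsPBlock M B →
    B.ncard ≤ 3 ^ (blockDefect p B - 1) * p ^ blockDefect p B := by
  induction n using Nat.strong_induction_on with
  | _ n ih =>
  intro G _ _ hn hsolv M hM B hB
  classical
  haveI := hsolv
  have := Blocks.isPrime_of_isPModular hM
  rcases B.eq_empty_or_nonempty with rfl | ⟨χ, hχ⟩
  · rw [Set.ncard_empty]; exact Nat.zero_le _
  set N := pPrimeCore p G with hNdef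
  have hNn : N.Normal := inferInstance
  have := Fintype.ofFinite N
  have hNp : ¬ p ∣ Nat.card N := Cores.not_dvd_card_pPrimeCore
  obtain ⟨θ, hθ⟩ := BlockLocal.exists_constituent N χ
  set T := CharDegreesTheory.inertiaOf N (θ : N → ℂ) with hTdef
  have hmem : ∀ g : G, g ∈ T ↔ Clifford.conjChar N (θ : N → ℂ) g = θ := fun g => Iff.rfl
  by_cases htop : T = ⊤
  · have hinv : ∀ g : G, Clifford.conjChar N (θ : N → ℂ) g = θ := fun g =>
      (hmem g).1 (htop ▸ Subgroup.mem_top g)
    obtain ⟨B₀, hB₀, hiff, hP, -⟩ := Cfsg.Agent.S4492.result p M hM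
      PSolvable.isPSolvable_of_isSolvable N hNdef θ fun g n => by
        refine Eq.trans ?_ (congrFun (hinv g) n)
        rw [Clifford.conjChar_apply]
    have he : B = B₀ := Blocks.isPBlock_eq_of_mem hB hB₀ hχ ((hiff χ).2 hθ)
    subst he
    obtain ⟨P⟩ := (inferInstance : Nonempty (Sylow p G))
    have hcard := Blocks.card_isDefectGroup hM hB (hP P)
    refine (ncard_over_le N θ hinv B fun ψ hψ => (hiff ψ).1 hψ).trans ?_
    refine card_conjClasses_le_of_core hPB ?_ ?_
    · exact Cores.pPrimeCore_quotient_pPrimeCore p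
    · set π := QuotientGroup.mk' N
      obtain ⟨S, hS⟩ := (Cores.isPGroup_pCore p (G ⧸ N)).exists_le_sylow
      refine (Nat.le_of_dvd Nat.card_pos (Subgroup.card_dvd_of_le hS)).trans ?_
      rw [← hcard, S.card_eq_multiplicity,
        ← (P.mapSurjective (QuotientGroup.mk'_surjective N)).card_eq_multiplicity]
      exact Nat.le_of_dvd Nat.card_pos (Subgroup.card_map_dvd _ _)
  · have hlt : Nat.card T < n := by
      rw [← hn]
      exact lt_of_le_of_ne (Nat.le_of_dvd Nat.card_pos (Subgroup.card_subgroup_dvd_card T))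
        fun h => htop (Subgroup.eq_top_of_card_eq T h)
    set b : Set (IrrCharacter N) := {θ}
    have hb : IsPBlock M b := CharDegreesTheory.isPBlock_singleton hM hNp θ
    have hNT : N ≤ T := fun x hx => by
      rw [hmem]
      funext m
      rw [Clifford.conjChar_apply]
      exact Eq.trans (congrArg (θ : N → ℂ) (Subtype.ext rfl))
        (IsIrrCharacter.isClassFunction θ.2 m ⟨x, hx⟩)
    have := Fintype.ofFinite T
    have hTiff : ∀ g : G, g ∈ T ↔ ∀ η ∈ b, ∀ η' : IrrCharacter N,
        (∀ m : N, (η' : N → ℂ) m = (η : N → ℂ) ⟨g * m * g⁻¹, hNn.conj_mem m m.2 g⟩) →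
          η' ∈ b := by
      intro g
      rw [hmem]
      constructor
      · intro hg η hη η' h
        have hη' : η = θ := hη
        show η' = θ
        refine Subtype.ext (funext fun m => ?_)
        rw [h m, hη', ← congrFun hg m, Clifford.conjChar_apply]
      · intro h
        have h' : (⟨_, Clifford.isIrrCharacter_conjChar N θ.2 g⟩ : IrrCharacter N) = θ :=
          h θ rfl ⟨_, Clifford.isIrrCharacter_conjChar N θ.2 g⟩ fun m =>
            Clifford.conjChar_apply N (θ : N → ℂ) g m
        exact congrArg Subtype.val h'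
    have hT' : ∀ g : G, g ∈ T ↔ ∀ η ∈ b, BlockLocal.conjIrr N g η ∈ b := by
      intro g
      rw [← inv_mem_iff, hmem]
      constructor
      · intro h η hη
        have hη' : η = θ := hη
        show BlockLocal.conjIrr N g η = θ
        refine Subtype.ext ?_
        rw [hη', ← h, ← CharDegreesTheory.conjIrr_inv_eq_conjChar, inv_inv]
      · intro h
        have h' := congrArg Subtype.val (h θ rfl)
        rwa [← inv_inv g, CharDegreesTheory.conjIrr_inv_eq_conjChar] at h'
    obtain ⟨ψ, hψ, hχψ⟩ := CharDegreesTheory.exists_indFun_eq hb hT' hNT χ (Set.mem_singleton θ) hθ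
    set B' := blockOf M (ψ : T → ℂ)
    have hB' : IsPBlock M B' := Blocks.isPBlock_blockOf ψ
    have hψB : ψ ∈ B' := Blocks.mem_blockOf_self ψ
    obtain ⟨B₁, hind, -, hmemB⟩ :=
      CharDegreesTheory.exists_induced_block hb hT' hNT hB' ⟨ψ, hψB, hψ⟩
    have he : B = B₁ :=
      Blocks.isPBlock_eq_of_mem hB hind.2.1 hχ ((hmemB χ).2 ⟨ψ, hψB, hχψ⟩)
    subst he
    obtain ⟨hdef, -⟩ := Cfsg.Agent.S4436.result p M hM N b hb T hTiff hNT B' hB'
      ⟨ψ, hψB, hψ⟩ B hind
    obtain ⟨D', hD'⟩ := BrauerPairs.exists_isDefectGroup hM hB'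
    have hd : blockDefect p B = blockDefect p B' := Nat.pow_right_injective hp.out.two_le (by
      show p ^ _ = p ^ _
      rw [← Blocks.card_isDefectGroup hM hB (hdef D' hD'), ← Blocks.card_isDefectGroup hM hB' hD',
        Subgroup.card_map_of_injective T.subtype_injective])
    rw [hd]
    refine le_trans ?_ (ih _ hlt T rfl inferInstance hM B' hB')
    choose f hf using fun x : B => (hmemB x.1).1 x.2
    rw [← Nat.card_coe_set_eq, ← Nat.card_coe_set_eq]
    exact Nat.card_le_card_of_injective (fun x : B => (⟨f x, (hf x).1⟩ : B')) fun x y h =>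
      Subtype.ext (Subtype.ext (by
        rw [(hf x).2, (hf y).2, show f x = f y from congrArg Subtype.val h]))

end CfsgLib.SolvableLinear.Fong
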